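import Mathlib

set_option autoImplicit false

/-!
Groups with two conjugacy class sizes `1` and `n` (Itô's conjugate type `(n, 1)`).

The main result `twoCl_unique_prime` says that there is exactly one prime `p` for which
non-central elements of `p`-power order exist.
-/

namespace Cfsg.Agent.Lib.Helper69

open Subgroup

section General

variable {G : Type*} [Group G]

/-- `v ∈ H` as soon as two coprime powers of `v` are in `H`. -/
theorem mem_of_pow_mem_of_coprime (H : Subgroup G) {v : G} {a b : ℕ} (hab : Nat.Coprime a b)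
    (ha : v ^ a ∈ H) (hb : v ^ b ∈ H) : v ∈ H := by
  have h1 : (v ^ a) ^ (Nat.gcdA a b) * (v ^ b) ^ (Nat.gcdB a b) ∈ H :=
    H.mul_mem (H.zpow_mem ha _) (H.zpow_mem hb _)
  have h2 : (v ^ a) ^ (Nat.gcdA a b) * (v ^ b) ^ (Nat.gcdB a b) = v := by
    rw [← zpow_natCast v a, ← zpow_natCast v b, ← zpow_mul, ← zpow_mul, ← zpow_add,
      ← Nat.gcd_eq_gcd_ab, hab.gcd_eq_one]
    simp
  rwa [h2] at h1

/-- An element outside a subgroup `H` has a power of prime-power order outside `H`. -/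
theorem exists_primePow_pow_not_mem (H : Subgroup G) :
    ∀ (N : ℕ), 0 < N → ∀ g : G, g ^ N = 1 → g ∉ H →
      ∃ t : ℕ, t.Prime ∧ ∃ j k : ℕ, g ^ k ∉ H ∧ (g ^ k) ^ (t ^ j) = 1 := by
  intro N
  induction N using Nat.strong_induction_on with
  | _ N ih =>
    intro hN0 g hgN hg
    have hN1 : N ≠ 1 := by
      rintro rfl
      rw [pow_one] at hgN
      exact hg (hgN ▸ H.one_mem)
    have ht : (N.minFac).Prime := Nat.minFac_prime hN1
    set t := N.minFac with htdef
    set e := N.factorization t with hedef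
    have hNeq : t ^ e * (N / t ^ e) = N := Nat.ordProj_mul_ordCompl_eq_self N t
    have hcop : Nat.Coprime (t ^ e) (N / t ^ e) :=
      (Nat.coprime_ordCompl ht hN0.ne').pow_left e
    have he : 0 < e := ht.factorization_pos_of_dvd hN0.ne' (Nat.minFac_dvd N)
    have hN'pos : 0 < N / t ^ e := Nat.ordCompl_pos t hN0.ne'
    have hte : 2 ≤ t ^ e := by
      calc 2 ≤ t := ht.two_le
        _ = t ^ 1 := (pow_one t).symm
        _ ≤ t ^ e := Nat.pow_le_pow_right ht.pos he
    have hlt : N / t ^ e < N := by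
      calc N / t ^ e < 2 * (N / t ^ e) := by omega
        _ ≤ t ^ e * (N / t ^ e) := Nat.mul_le_mul_right _ hte
        _ = N := hNeq
    by_cases h1 : g ^ (N / t ^ e) ∈ H
    · have h2 : g ^ (t ^ e) ∉ H := fun h => hg (mem_of_pow_mem_of_coprime H hcop h h1)
      have h3 : (g ^ (t ^ e)) ^ (N / t ^ e) = 1 := by rw [← pow_mul, hNeq, hgN]
      obtain ⟨t', ht', j, k, hk, hk'⟩ := ih _ hlt hN'pos _ h3 h2
      refine ⟨t', ht', j, t ^ e * k, ?_, ?_⟩
      · rwa [pow_mul]
      · rwa [pow_mul]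
    · refine ⟨t, ht, e, N / t ^ e, h1, ?_⟩
      rw [← pow_mul, mul_comm, hNeq, hgN]

/-- If all nonempty fibres of `f` on the finite set `S` have `d` elements, then `d ∣ #S`. -/
theorem dvd_ncard_of_fibers {α β : Type*} (S : Set α) (hS : S.Finite) (f : α → β) (d : ℕ)
    (h : ∀ a ∈ S, ({a' | a' ∈ S ∧ f a' = f a} : Set α).ncard = d) : d ∣ S.ncard := by
  classical
  have h1 : S.ncard = hS.toFinset.card := Set.ncard_eq_toFinset_card S hS
  rw [h1, Finset.card_eq_sum_card_image f hS.toFinset]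
  apply Finset.dvd_sum
  intro b hb
  obtain ⟨a, ha, rfl⟩ := Finset.mem_image.mp hb
  have haS : a ∈ S := hS.mem_toFinset.mp ha
  have h2 : ({a' | a' ∈ S ∧ f a' = f a} : Set α).ncard
      = (hS.toFinset.filter fun a' => f a' = f a).card := by
    rw [← Set.ncard_coe_finset]
    congr 1
    ext a'
    simp
  rw [← h2, h a haS]

/-- Orbit counting for conjugation by a subgroup `W` on a `W`-invariant set `X` of elements
all having the same centraliser `W ⊓ K` in `W`. -/
theorem relIndex_dvd_ncard_of_conj [Finite G] (W K : Subgroup G) (X : Set G)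
    (hX : ∀ x ∈ X, ∀ b ∈ W, b * x * b⁻¹ ∈ X)
    (hK : ∀ x ∈ X, ∀ b ∈ W, (b * x = x * b ↔ b ∈ K)) : K.relIndex W ∣ X.ncard := by
  apply dvd_ncard_of_fibers X (Set.toFinite X) (fun x => {y : G | ∃ b ∈ W, y = b * x * b⁻¹})
  intro x hx
  have h1 : {a' | a' ∈ X ∧ {y : G | ∃ b ∈ W, y = b * a' * b⁻¹} = {y : G | ∃ b ∈ W, y = b * x * b⁻¹}}
      = {y : G | ∃ b ∈ W, y = b * x * b⁻¹} := by
    ext a'
    constructor
    · rintro ⟨-, heq⟩
      rw [← heq]
      exact ⟨1, W.one_mem, by simp⟩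
    · rintro ⟨b, hb, rfl⟩
      refine ⟨hX x hx b hb, ?_⟩
      ext y
      constructor
      · rintro ⟨c, hc, rfl⟩
        exact ⟨c * b, W.mul_mem hc hb, by group⟩
      · rintro ⟨c, hc, rfl⟩
        exact ⟨c * b⁻¹, W.mul_mem hc (W.inv_mem hb), by group⟩
  rw [h1, ← Nat.card_coe_set_eq, Subgroup.relIndex, Subgroup.index]
  symm
  have hwd : ∀ u v : W, u⁻¹ * v ∈ K.subgroupOf W →
      (u : G) * x * (u : G)⁻¹ = (v : G) * x * (v : G)⁻¹ := by
    intro u v huv
    rw [Subgroup.mem_subgroupOf] at huv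
    have h2 : (u : G)⁻¹ * (v : G) * x = x * ((u : G)⁻¹ * (v : G)) :=
      (hK x hx _ (W.mul_mem (W.inv_mem u.2) v.2)).mpr (by simpa using huv)
    have h3 : (v : G) * x * (v : G)⁻¹ = (u : G) * ((u : G)⁻¹ * (v : G) * x) * (v : G)⁻¹ := by group
    rw [h3, h2]
    group
  have hinj : ∀ u v : W, (u : G) * x * (u : G)⁻¹ = (v : G) * x * (v : G)⁻¹ →
      u⁻¹ * v ∈ K.subgroupOf W := by
    intro u v huv
    rw [Subgroup.mem_subgroupOf]
    have h2 : (u : G)⁻¹ * (v : G) * x = x * ((u : G)⁻¹ * (v : G)) := by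
      calc (u : G)⁻¹ * (v : G) * x = (u : G)⁻¹ * ((v : G) * x * (v : G)⁻¹) * v := by group
        _ = (u : G)⁻¹ * ((u : G) * x * (u : G)⁻¹) * v := by rw [huv]
        _ = x * ((u : G)⁻¹ * (v : G)) := by group
    have h3 := (hK x hx _ (W.mul_mem (W.inv_mem u.2) v.2)).mp h2
    simpa using h3
  apply Nat.card_congr
  refine Equiv.ofBijective (fun q : W ⧸ K.subgroupOf W =>
    (⟨(q.out : G) * x * (q.out : G)⁻¹, ⟨q.out, q.out.2, rfl⟩⟩ :
      {y : G | ∃ b ∈ W, y = b * x * b⁻¹})) ⟨?_, ?_⟩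
  · intro q q' hq
    have h1 : (q.out : G) * x * (q.out : G)⁻¹ = (q'.out : G) * x * (q'.out : G)⁻¹ :=
      congrArg Subtype.val hq
    have h2 : (QuotientGroup.mk q.out : W ⧸ K.subgroupOf W) = QuotientGroup.mk q'.out :=
      QuotientGroup.eq.mpr (hinj _ _ h1)
    simpa using h2
  · rintro ⟨y, b, hb, rfl⟩
    refine ⟨QuotientGroup.mk ⟨b, hb⟩, ?_⟩
    apply Subtype.ext
    have h3 : (QuotientGroup.mk (QuotientGroup.mk (⟨b, hb⟩ : W) : W ⧸ K.subgroupOf W).out :
        W ⧸ K.subgroupOf W) = QuotientGroup.mk ⟨b, hb⟩ := by simp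
    exact hwd _ ⟨b, hb⟩ (QuotientGroup.eq.mp h3)

/-- In an abelian subgroup `A`, the elements of `t`-power order are `t ^ v_t(#A)` in number. -/
theorem ncard_primary [Finite G] (A : Subgroup G) (hA : ∀ x ∈ A, ∀ y ∈ A, x * y = y * x)
    (t : ℕ) [Fact t.Prime] :
    ({c : G | c ∈ A ∧ ∃ k : ℕ, c ^ (t ^ k) = 1} : Set G).ncard
      = t ^ (Nat.card A).factorization t := by
  classical
  obtain ⟨P⟩ : Nonempty (Sylow t A) := inferInstance
  have hPn : (P : Subgroup A).Normal := by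
    constructor
    intro n hn g
    have h1 : g * n = n * g := Subtype.ext (hA g g.2 n n.2)
    have h2 : g * n * g⁻¹ = n := by rw [h1]; group
    rwa [h2]
  have hmem : ∀ c : A, (∃ k : ℕ, (c : G) ^ (t ^ k) = 1) ↔ c ∈ (P : Subgroup A) := by
    intro c
    constructor
    · rintro ⟨k, hk⟩
      have hk' : c ^ (t ^ k) = 1 := Subtype.ext (by simpa using hk)
      have hz : IsPGroup t (Subgroup.zpowers c) := by
        rintro ⟨y, hy⟩
        obtain ⟨i, rfl⟩ := Subgroup.mem_zpowers_iff.mp hy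
        refine ⟨k, Subtype.ext ?_⟩
        show (c ^ i) ^ (t ^ k) = 1
        rw [← zpow_natCast, ← zpow_mul, mul_comm, zpow_mul, zpow_natCast, hk', one_zpow]
      obtain ⟨Q, hQ⟩ := hz.exists_le_sylow
      have hQP : Q = P := by
        have := Sylow.unique_of_normal P hPn
        exact Subsingleton.elim Q P
      rw [← hQP]
      exact hQ (Subgroup.mem_zpowers c)
    · intro hc
      obtain ⟨k, hk⟩ := P.isPGroup' ⟨c, hc⟩
      refine ⟨k, ?_⟩
      have h1 := congrArg (fun z : (P : Subgroup A) => ((z : A) : G)) hk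
      simpa using h1
  have hset : ({c : G | c ∈ A ∧ ∃ k : ℕ, c ^ (t ^ k) = 1} : Set G)
      = (((P : Subgroup A).map A.subtype : Subgroup G) : Set G) := by
    ext c
    constructor
    · rintro ⟨hcA, hk⟩
      exact ⟨⟨c, hcA⟩, (hmem ⟨c, hcA⟩).mp hk, rfl⟩
    · rintro ⟨c', hc', rfl⟩
      exact ⟨c'.2, (hmem c').mpr hc'⟩
  rw [hset]
  have h1 : ((((P : Subgroup A).map A.subtype : Subgroup G) : Set G)).ncard
      = Nat.card ((P : Subgroup A).map A.subtype) := by
    rw [← Nat.card_coe_set_eq]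
    rfl
  rw [h1, Subgroup.card_map_of_injective A.subtype_injective, Sylow.card_eq_multiplicity]

theorem ncard_primary_diff [Finite G] (A B : Subgroup G) (hBA : B ≤ A)
    (hA : ∀ x ∈ A, ∀ y ∈ A, x * y = y * x) (t : ℕ) [Fact t.Prime] :
    ({c : G | c ∈ A ∧ c ∉ B ∧ ∃ k : ℕ, c ^ (t ^ k) = 1} : Set G).ncard
      = t ^ (Nat.card A).factorization t - t ^ (Nat.card B).factorization t := by
  have h1 := ncard_primary A hA t
  have h2 := ncard_primary B (fun x hx y hy => hA x (hBA hx) y (hBA hy)) t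
  have h3 : ({c : G | c ∈ A ∧ c ∉ B ∧ ∃ k : ℕ, c ^ (t ^ k) = 1} : Set G)
      = {c : G | c ∈ A ∧ ∃ k : ℕ, c ^ (t ^ k) = 1} \ {c : G | c ∈ B ∧ ∃ k : ℕ, c ^ (t ^ k) = 1} := by
    ext c
    simp only [Set.mem_ofPred_eq, Set.mem_sdiff]
    constructor
    · rintro ⟨h1, h2, h3⟩
      exact ⟨⟨h1, h3⟩, fun h => h2 h.1⟩
    · rintro ⟨⟨h1, h3⟩, h2⟩
      exact ⟨h1, fun h => h2 ⟨h, h3⟩, h3⟩
  have hsub : {c : G | c ∈ B ∧ ∃ k : ℕ, c ^ (t ^ k) = 1} ⊆ {c : G | c ∈ A ∧ ∃ k : ℕ, c ^ (t ^ k) = 1} := by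
    rintro c ⟨hc, hk⟩
    exact ⟨hBA hc, hk⟩
  rw [h3, Set.ncard_sdiff hsub (Set.toFinite _), h1, h2]

end General

section TwoCl

variable {G : Type*} [Group G]

/-- Conjugate type `(n, 1)`: all centraliser indices are `1` or `n`, with `n > 1`. -/
def TwoCl (G : Type*) [Group G] (n : ℕ) : Prop :=
  1 < n ∧ ∀ x : G, (centralizer ({x} : Set G)).index = 1 ∨ (centralizer ({x} : Set G)).index = n

/-- The centraliser of an element. -/
abbrev Cz (x : G) : Subgroup G := centralizer ({x} : Set G)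

/-- The centre of the centraliser of an element. -/
abbrev Tz (x : G) : Subgroup G := centralizer ((centralizer ({x} : Set G) : Subgroup G) : Set G)

theorem mem_Cz {x g : G} : g ∈ Cz x ↔ x * g = g * x := by
  rw [Subgroup.mem_centralizer_iff]
  simp

theorem mem_Tz {x u : G} : u ∈ Tz x ↔ ∀ g, x * g = g * x → g * u = u * g := by
  rw [Subgroup.mem_centralizer_iff]
  constructor
  · intro h g hg
    exact h g (mem_Cz.mpr hg)
  · intro h g hg
    exact h g (mem_Cz.mp hg)

theorem self_mem_Cz (x : G) : x ∈ Cz x := mem_Cz.mpr rfl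

theorem self_mem_Tz (x : G) : x ∈ Tz x := mem_Tz.mpr fun _ hg => hg.symm

theorem Tz_le_Cz (x : G) : Tz x ≤ Cz x := fun _ hu => mem_Cz.mpr (mem_Tz.mp hu x rfl)

theorem center_le_Tz (x : G) : center G ≤ Tz x := Subgroup.center_le_centralizer _

theorem Tz_congr {x y : G} (h : Cz x = Cz y) : Tz x = Tz y :=
  congrArg (fun K : Subgroup G => centralizer (K : Set G)) h

theorem TwoCl.index_eq {n : ℕ} (h : TwoCl G n) {x : G} (hx : x ∉ center G) :
    (Cz x).index = n := by
  rcases h.2 x with h1 | h1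
  · exfalso
    apply hx
    rw [Subgroup.index_eq_one, Subgroup.centralizer_eq_top_iff_subset] at h1
    exact h1 (Set.mem_singleton x)
  · exact h1

theorem TwoCl.pos {n : ℕ} (h : TwoCl G n) : 0 < n := lt_trans Nat.zero_lt_one h.1

theorem TwoCl.Cz_eq_of_le {n : ℕ} (h : TwoCl G n) {x y : G} (hx : x ∉ center G)
    (hy : y ∉ center G) (hle : Cz x ≤ Cz y) : Cz x = Cz y := by
  apply le_antisymm hle
  rw [← Subgroup.relIndex_eq_one]
  have h1 := Subgroup.relIndex_mul_index hle
  rw [h.index_eq hx, h.index_eq hy] at h1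
  exact Nat.eq_of_mul_eq_mul_right h.pos (by rw [h1, one_mul])

theorem TwoCl.Cz_eq_of_mem_Tz {n : ℕ} (h : TwoCl G n) {x u : G} (hx : x ∉ center G)
    (hu : u ∈ Tz x) (hu' : u ∉ center G) : Cz u = Cz x := by
  symm
  apply h.Cz_eq_of_le hx hu'
  intro g hg
  exact mem_Cz.mpr (mem_Tz.mp hu g (mem_Cz.mp hg)).symm

/-- Isaacs' trick: if `y` centralises `x` but is not central in `C(x)`, then the order of `y`
modulo the centre divides that of `x`. -/
theorem TwoCl.pow_mem_center {n : ℕ} (h : TwoCl G n) {x y : G} (hx : x ∉ center G)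
    (hy : y ∈ Cz x) (hyT : y ∉ Tz x) (k : ℕ) (hk : x ^ k ∈ center G) : y ^ k ∈ center G := by
  by_contra hyk
  have hyZ : y ∉ center G := fun hc => hyT (center_le_Tz x hc)
  have hxy : Commute x y := mem_Cz.mp hy
  have hwZ : x * y ∉ center G := by
    intro hc
    apply hyT
    have h1 : y = x⁻¹ * (x * y) := by group
    rw [h1]
    exact (Tz x).mul_mem ((Tz x).inv_mem (self_mem_Tz x)) (center_le_Tz x hc)
  have hxTw : x ∉ Tz (x * y) := by
    intro hc
    have h1 : Cz x = Cz (x * y) := h.Cz_eq_of_mem_Tz hwZ hc hx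
    have h2 : x * y ∈ Tz x := by
      rw [Tz_congr h1]
      exact self_mem_Tz (x * y)
    apply hyT
    have h3 : y = x⁻¹ * (x * y) := by group
    rw [h3]
    exact (Tz x).mul_mem ((Tz x).inv_mem (self_mem_Tz x)) h2
  have hwk : (x * y) ^ k = x ^ k * y ^ k := hxy.mul_pow k
  have h3 : y ^ k ∈ Tz (x * y) := by
    have h4 : y ^ k = (x ^ k)⁻¹ * (x * y) ^ k := by rw [hwk]; group
    rw [h4]
    exact (Tz (x * y)).mul_mem ((Tz (x * y)).inv_mem (center_le_Tz _ hk))
      ((Tz (x * y)).pow_mem (self_mem_Tz (x * y)) k)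
  have h4 : Cz (y ^ k) = Cz (x * y) := h.Cz_eq_of_mem_Tz hwZ h3 hyk
  have h5 : Cz (y ^ k) = Cz y := h.Cz_eq_of_mem_Tz hyZ ((Tz y).pow_mem (self_mem_Tz y) k) hyk
  have h6 : Cz (x * y) = Cz y := h4.symm.trans h5
  have h7 : y ∈ Tz (x * y) := by
    rw [Tz_congr h6]
    exact self_mem_Tz y
  apply hxTw
  have h8 : (x * y) * y⁻¹ ∈ Tz (x * y) :=
    (Tz (x * y)).mul_mem (self_mem_Tz (x * y)) ((Tz (x * y)).inv_mem h7)
  rwa [mul_inv_cancel_right] at h8

/-- If `C(x)` is not abelian, then `C(x)/Z(G)` has prime exponent. -/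
theorem TwoCl.exists_prime_pow_mem_center [Finite G] {n : ℕ} (h : TwoCl G n) {x y : G}
    (hx : x ∉ center G) (hy : y ∈ Cz x) (hyT : y ∉ Tz x) :
    ∃ p : ℕ, p.Prime ∧ ∀ g ∈ Cz x, g ^ p ∈ center G := by
  classical
  have hex : ∃ k : ℕ, 0 < k ∧ x ^ k ∈ center G :=
    ⟨orderOf x, orderOf_pos x, by rw [pow_orderOf_eq_one]; exact one_mem _⟩
  have hk : 0 < Nat.find hex ∧ x ^ Nat.find hex ∈ center G := Nat.find_spec hex
  have hk1 : Nat.find hex ≠ 1 := by
    intro h1
    have h2 := hk.2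
    rw [h1, pow_one] at h2
    exact hx h2
  have hp : ((Nat.find hex).minFac).Prime := Nat.minFac_prime hk1
  obtain ⟨k', hk'⟩ : (Nat.find hex).minFac ∣ Nat.find hex := Nat.minFac_dvd _
  set p := (Nat.find hex).minFac with hpdef
  have hk'pos : 0 < k' := by
    rcases Nat.eq_zero_or_pos k' with h0 | h0
    · rw [h0, mul_zero] at hk'
      have := hk.1
      omega
    · exact h0
  have hk'lt : k' < Nat.find hex := by
    have h2 := hp.two_le
    calc k' < 2 * k' := by omega
      _ ≤ p * k' := Nat.mul_le_mul_right _ h2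
      _ = Nat.find hex := hk'.symm
  have hx1 : x ^ k' ∉ center G := fun hc => Nat.find_min hex hk'lt ⟨hk'pos, hc⟩
  have hx1p : (x ^ k') ^ p ∈ center G := by
    rw [← pow_mul, mul_comm, ← hk']
    exact hk.2
  have hx1T : x ^ k' ∈ Tz x := (Tz x).pow_mem (self_mem_Tz x) k'
  have hC : Cz (x ^ k') = Cz x := h.Cz_eq_of_mem_Tz hx hx1T hx1
  have hT : Tz (x ^ k') = Tz x := Tz_congr hC
  have hy1 : y ∈ Cz (x ^ k') := by rw [hC]; exact hy
  have hyT1 : y ∉ Tz (x ^ k') := by rw [hT]; exact hyT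
  have hyp : y ^ p ∈ center G := h.pow_mem_center hx1 hy1 hyT1 p hx1p
  have hyZ : y ∉ center G := fun hc => hyT (center_le_Tz x hc)
  refine ⟨p, hp, ?_⟩
  intro g hg
  by_cases hgT : g ∈ Tz x
  · by_cases hgZ : g ∈ center G
    · exact (center G).pow_mem hgZ p
    · have hCg : Cz g = Cz x := h.Cz_eq_of_mem_Tz hx hgT hgZ
      have hgy : g ∈ Cz y := by
        have h1 : y ∈ Cz g := by rw [hCg]; exact hy
        exact mem_Cz.mpr (mem_Cz.mp h1).symm
      have hgTy : g ∉ Tz y := by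
        intro hc
        have h1 : Cz g = Cz y := h.Cz_eq_of_mem_Tz hyZ hc hgZ
        have h2 : Tz x = Tz y := Tz_congr (hCg.symm.trans h1)
        apply hyT
        rw [h2]
        exact self_mem_Tz y
      exact h.pow_mem_center hyZ hgy hgTy p hyp
  · have hg1 : g ∈ Cz (x ^ k') := by rw [hC]; exact hg
    have hgT1 : g ∉ Tz (x ^ k') := by rw [hT]; exact hgT
    exact h.pow_mem_center hx1 hg1 hgT1 p hx1p

theorem card_eq_relIndex_mul_card (H K : Subgroup G) (hHK : H ≤ K) :
    Nat.card K = H.relIndex K * Nat.card H := by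
  have h1 := Subgroup.card_mul_index (H.subgroupOf K)
  have h2 : Nat.card (H.subgroupOf K) = Nat.card H :=
    Nat.card_congr (Subgroup.subgroupOfEquivOfLe hHK).toEquiv
  rw [h2] at h1
  rw [← h1, mul_comm]
  rfl

theorem TwoCl.card_Cz {n : ℕ} (h : TwoCl G n) {x : G} (hx : x ∉ center G) :
    Nat.card (Cz x) * n = Nat.card G := by
  rw [← h.index_eq hx]
  exact Subgroup.card_mul_index _

theorem TwoCl.relIndex_eq {n : ℕ} (h : TwoCl G n) {x v : G} (hx : x ∉ center G)
    (hv : v ∉ center G) : (center G).relIndex (Cz v) = (center G).relIndex (Cz x) := by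
  have h1 := Subgroup.relIndex_mul_index (Subgroup.center_le_centralizer ({v} : Set G))
  have h2 := Subgroup.relIndex_mul_index (Subgroup.center_le_centralizer ({x} : Set G))
  rw [h.index_eq hv] at h1
  rw [h.index_eq hx] at h2
  exact Nat.eq_of_mul_eq_mul_right h.pos (h1.trans h2.symm)

theorem pow_relIndex_center_mem (v : G) : v ^ (center G).relIndex (Cz v) ∈ center G := by
  have h1 := Subgroup.pow_index_mem ((center G).subgroupOf (Cz v)) (⟨v, self_mem_Cz v⟩ : Cz v)
  rw [Subgroup.mem_subgroupOf, Subgroup.coe_pow] at h1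
  exact h1

theorem dvd_relIndex_of_primePow {t : ℕ} (ht : t.Prime) {v : G} (hv : v ∉ center G) {j : ℕ}
    (hvj : v ^ (t ^ j) = 1) : t ∣ (center G).relIndex (Cz v) := by
  by_contra hnd
  apply hv
  have hcop : Nat.Coprime (t ^ j) ((center G).relIndex (Cz v)) :=
    Nat.Coprime.pow_left _ ((Nat.Prime.coprime_iff_not_dvd ht).mpr hnd)
  exact mem_of_pow_mem_of_coprime _ hcop (by rw [hvj]; exact one_mem _) (pow_relIndex_center_mem v)

theorem TwoCl.prime_unique_of_exponent [Finite G] {n : ℕ} (h : TwoCl G n) {x : G}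
    (hx : x ∉ center G) {p : ℕ} (hp : p.Prime) (hexp : ∀ g ∈ Cz x, g ^ p ∈ center G) {t : ℕ}
    (ht : t.Prime) {v : G} (hv : v ∉ center G) {j : ℕ} (hvj : v ^ (t ^ j) = 1) : t = p := by
  have : Fact p.Prime := ⟨hp⟩
  have hQ : IsPGroup p (↥(Cz x) ⧸ (center G).subgroupOf (Cz x)) := by
    intro q
    obtain ⟨g, rfl⟩ := QuotientGroup.mk_surjective q
    refine ⟨1, ?_⟩
    rw [pow_one, ← QuotientGroup.mk_pow, QuotientGroup.eq_one_iff, Subgroup.mem_subgroupOf]
    simpa using hexp g g.2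
  obtain ⟨k, hk⟩ := IsPGroup.iff_card.mp hQ
  have hk' : (center G).relIndex (Cz x) = p ^ k := hk
  have h1 : t ∣ (center G).relIndex (Cz v) := dvd_relIndex_of_primePow ht hv hvj
  rw [h.relIndex_eq hx hv, hk'] at h1
  exact (Nat.prime_dvd_prime_iff_eq ht hp).mp (ht.dvd_of_dvd_pow h1)

/-- Partition of the non-central elements by their (abelian) centralisers. -/
theorem TwoCl.card_sub_dvd [Finite G] {n : ℕ} (h : TwoCl G n)
    (hab : ∀ x : G, x ∉ center G → Cz x ≤ Tz x) {x : G} (hx : x ∉ center G) :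
    (Nat.card (Cz x) - Nat.card (center G)) ∣ (Nat.card G - Nat.card (center G)) := by
  have hcoe : ∀ K : Subgroup G, ((K : Subgroup G) : Set G).ncard = Nat.card K := by
    intro K
    rw [← Nat.card_coe_set_eq]
    rfl
  have hS : ({y : G | y ∉ center G} : Set G).ncard = Nat.card G - Nat.card (center G) := by
    have h1 : ({y : G | y ∉ center G} : Set G) = ((center G : Subgroup G) : Set G)ᶜ := by
      ext y
      simp
    rw [h1, Set.ncard_compl, hcoe]
  rw [← hS]
  apply dvd_ncard_of_fibers _ (Set.toFinite _) (fun y => Cz y)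
  intro a ha
  have h2 : {a' | a' ∈ {y : G | y ∉ center G} ∧ Cz a' = Cz a}
      = ((Cz a : Subgroup G) : Set G) \ ((center G : Subgroup G) : Set G) := by
    ext a'
    constructor
    · rintro ⟨ha', heq⟩
      refine ⟨?_, ha'⟩
      rw [SetLike.mem_coe, ← heq]
      exact self_mem_Cz a'
    · rintro ⟨h3, h4⟩
      exact ⟨h4, h.Cz_eq_of_mem_Tz ha (hab a ha h3) h4⟩
  have hsub : ((center G : Subgroup G) : Set G) ⊆ ((Cz a : Subgroup G) : Set G) :=
    fun z hz => Subgroup.center_le_centralizer _ hz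
  rw [h2, Set.ncard_sdiff hsub (Set.toFinite _), hcoe, hcoe]
  have h7 : Nat.card (Cz a) = Nat.card (Cz x) :=
    Nat.eq_of_mul_eq_mul_right h.pos ((h.card_Cz ha).trans (h.card_Cz hx).symm)
  rw [h7]

theorem TwoCl.relIndex_le [Finite G] {n : ℕ} (h : TwoCl G n)
    (hab : ∀ x : G, x ∉ center G → Cz x ≤ Tz x) {x : G} (hx : x ∉ center G) :
    (center G).relIndex (Cz x) ≤ n := by
  have h1 := h.card_sub_dvd hab hx
  have hc : Nat.card (Cz x) = (center G).relIndex (Cz x) * Nat.card (center G) :=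
    card_eq_relIndex_mul_card _ _ (Subgroup.center_le_centralizer _)
  have hg : Nat.card G = (center G).relIndex (Cz x) * Nat.card (center G) * n := by
    rw [← hc]
    exact (h.card_Cz hx).symm
  have hzpos : 0 < Nat.card (center G) := Nat.card_pos
  have hcpos : 0 < Nat.card (Cz x) := Nat.card_pos
  generalize (center G).relIndex (Cz x) = m at *
  generalize Nat.card (center G) = z at *
  have hn1 := h.1
  rw [hc, hg] at h1
  obtain ⟨m', rfl⟩ : ∃ m', m = m' + 1 := by
    rcases Nat.eq_zero_or_pos m with h0 | h0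
    · rw [h0, zero_mul] at hc
      omega
    · exact ⟨m - 1, by omega⟩
  obtain ⟨n', rfl⟩ : ∃ n', n = n' + 1 := ⟨n - 1, by omega⟩
  have h2 : (m' + 1) * z - z = z * m' := by
    have : (m' + 1) * z = z * m' + z := by ring
    omega
  have h3 : (m' + 1) * z * (n' + 1) - z = z * (m' * (n' + 1) + n') := by
    have : (m' + 1) * z * (n' + 1) = z * (m' * (n' + 1) + n') + z := by ring
    omega
  rw [h2, h3] at h1
  have h4 : m' ∣ m' * (n' + 1) + n' := Nat.dvd_of_mul_dvd_mul_left hzpos h1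
  have h6 : m' ∣ n' := (Nat.dvd_add_right (Dvd.intro _ rfl)).mp h4
  have h7 : m' ≤ n' := Nat.le_of_dvd (by omega) h6
  omega

/-- If `[x, b]` is central then conjugation by `b` preserves `C(x)`. -/
theorem Cz_conj_mem {x b c : G} (hz : x⁻¹ * (b⁻¹ * x * b) ∈ center G) (hc : c ∈ Cz x) :
    b * c * b⁻¹ ∈ Cz x := by
  rw [mem_Cz] at hc ⊢
  have hzc : ∀ g, g * (x⁻¹ * (b⁻¹ * x * b)) = (x⁻¹ * (b⁻¹ * x * b)) * g :=
    Subgroup.mem_center_iff.mp hz
  have h3 : b⁻¹ * x * b = x * (x⁻¹ * (b⁻¹ * x * b)) := by group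
  generalize x⁻¹ * (b⁻¹ * x * b) = z at hzc h3
  have h4 : x * z * c = c * (x * z) := by
    calc x * z * c = x * (z * c) := mul_assoc _ _ _
      _ = x * (c * z) := by rw [hzc c]
      _ = (x * c) * z := (mul_assoc _ _ _).symm
      _ = (c * x) * z := by rw [hc]
      _ = c * (x * z) := mul_assoc _ _ _
  calc x * (b * c * b⁻¹) = b * ((b⁻¹ * x * b) * c) * b⁻¹ := by group
    _ = b * (x * z * c) * b⁻¹ := by rw [h3]
    _ = b * (c * (x * z)) * b⁻¹ := by rw [h4]
    _ = b * (c * (b⁻¹ * x * b)) * b⁻¹ := by rw [h3]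
    _ = b * c * b⁻¹ * x := by group

/-- If `[x, b⁻¹]` is central then conjugation by `b` preserves `Z(C(x))`. -/
theorem Tz_conj_mem {x b u : G} (hz : x⁻¹ * (b * x * b⁻¹) ∈ center G) (hu : u ∈ Tz x) :
    b * u * b⁻¹ ∈ Tz x := by
  rw [mem_Tz] at hu ⊢
  intro g hg
  have hz' : x⁻¹ * (b⁻¹⁻¹ * x * b⁻¹) ∈ center G := by rwa [inv_inv]
  have h1 : b⁻¹ * g * b⁻¹⁻¹ ∈ Cz x := Cz_conj_mem hz' (mem_Cz.mpr hg)
  rw [inv_inv] at h1
  have h2 := hu _ (mem_Cz.mp h1)
  calc g * (b * u * b⁻¹) = b * ((b⁻¹ * g * b) * u) * b⁻¹ := by group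
    _ = b * (u * (b⁻¹ * g * b)) * b⁻¹ := by rw [h2]
    _ = b * u * b⁻¹ * g := by group

theorem comm_iff_commutator_eq_one {Q : Type*} [Group Q] {X B : Q} :
    X⁻¹ * (B⁻¹ * X * B) = 1 ↔ Commute X B := by
  constructor
  · intro h
    have h2 : B⁻¹ * X * B = X := by
      have h3 := congrArg (fun q => X * q) h
      simpa using h3
    show X * B = B * X
    calc X * B = B * (B⁻¹ * X * B) := by group
      _ = B * X := by rw [h2]
  · intro h
    have h' : X * B = B * X := h
    calc X⁻¹ * (B⁻¹ * X * B) = X⁻¹ * (B⁻¹ * (X * B)) := by group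
      _ = 1 := by rw [h']; group

theorem comm_mod_center_iff {x b : G} :
    x⁻¹ * (b⁻¹ * x * b) ∈ center G
      ↔ Commute (QuotientGroup.mk x : G ⧸ center G) (QuotientGroup.mk b) := by
  rw [← QuotientGroup.eq_one_iff, ← comm_iff_commutator_eq_one]
  simp only [QuotientGroup.mk_mul, QuotientGroup.mk_inv]

/-- For a prime `w` dividing `n`, a Sylow `w`-subgroup `W` has a non-central element `a` all of
whose commutators with `W` are central in `G`. -/
theorem TwoCl.exists_sylow_second_center [Finite G] {n : ℕ} (h : TwoCl G n)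
    (hex : ∃ x : G, x ∉ center G) (w : ℕ) [Fact w.Prime] (hw : w ∣ n) (W : Sylow w G) :
    ∃ a ∈ W, a ∉ center G ∧ ∀ b ∈ W, a⁻¹ * (b⁻¹ * a * b) ∈ center G := by
  classical
  have hWi : ¬ w ∣ (W : Subgroup G).index := W.not_dvd_index
  have hZW : ∀ z ∈ W, (∀ b ∈ W, b * z = z * b) → z ∈ center G := by
    intro z hz hcomm
    by_contra hzZ
    have h1 : (W : Subgroup G) ≤ Cz z := fun b hb => mem_Cz.mpr (hcomm b hb).symm
    have h2 := Subgroup.index_dvd_of_le h1
    rw [h.index_eq hzZ] at h2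
    exact hWi (dvd_trans hw h2)
  have hcW : ∃ a₀ : (W : Subgroup G), a₀ ∉ center (↥(W : Subgroup G)) := by
    by_contra hcon
    push Not at hcon
    obtain ⟨x₀, hx₀⟩ := hex
    have h1 : (W : Subgroup G) ≤ Cz x₀ := by
      intro b hb
      have hb' : (⟨b, hb⟩ : (W : Subgroup G)) ∈ center (↥(W : Subgroup G)) := hcon _
      have hbZ : b ∈ center G := hZW b hb (fun c hc =>
        congrArg Subtype.val (Subgroup.mem_center_iff.mp hb' ⟨c, hc⟩))
      exact Subgroup.center_le_centralizer _ hbZ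
    have h2 := Subgroup.index_dvd_of_le h1
    rw [h.index_eq hx₀] at h2
    exact hWi (dvd_trans hw h2)
  obtain ⟨a₀, ha₀⟩ := hcW
  have hQp : IsPGroup w (↥(W : Subgroup G) ⧸ center (↥(W : Subgroup G))) :=
    W.isPGroup'.to_quotient _
  have : Nontrivial (↥(W : Subgroup G) ⧸ center (↥(W : Subgroup G))) :=
    ⟨⟨QuotientGroup.mk a₀, 1, fun h0 => ha₀ ((QuotientGroup.eq_one_iff a₀).mp h0)⟩⟩
  have := hQp.center_nontrivial
  obtain ⟨⟨q, hq⟩, hq1⟩ :=
    exists_ne (1 : center (↥(W : Subgroup G) ⧸ center (↥(W : Subgroup G))))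
  obtain ⟨a', rfl⟩ := QuotientGroup.mk_surjective q
  have ha' : a' ∉ center (↥(W : Subgroup G)) := by
    intro hc
    apply hq1
    apply Subtype.ext
    exact (QuotientGroup.eq_one_iff a').mpr hc
  refine ⟨(a' : G), a'.2, ?_, ?_⟩
  · intro hc
    apply ha'
    rw [Subgroup.mem_center_iff]
    intro g
    exact Subtype.ext (Subgroup.mem_center_iff.mp hc g)
  · intro b hb
    have h1 : a'⁻¹ * ((⟨b, hb⟩ : (W : Subgroup G))⁻¹ * a' * ⟨b, hb⟩) ∈ center (↥(W : Subgroup G)) := by
      rw [← QuotientGroup.eq_one_iff]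
      have h0 := Subgroup.mem_center_iff.mp hq (QuotientGroup.mk ⟨b, hb⟩)
      simp only [QuotientGroup.mk_mul, QuotientGroup.mk_inv]
      rw [mul_assoc ((QuotientGroup.mk ⟨b, hb⟩ : ↥(W : Subgroup G) ⧸ center (↥(W : Subgroup G)))⁻¹),
        ← h0]
      group
    apply hZW
    · exact (W : Subgroup G).mul_mem ((W : Subgroup G).inv_mem a'.2)
        ((W : Subgroup G).mul_mem ((W : Subgroup G).mul_mem ((W : Subgroup G).inv_mem hb) a'.2) hb)
    · intro d hd
      exact congrArg Subtype.val (Subgroup.mem_center_iff.mp h1 ⟨d, hd⟩)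

/-- For a prime `w` dividing `n`, a Sylow `w`-subgroup normalises the centraliser of some
non-central element. -/
theorem TwoCl.exists_sylow_normalizing [Finite G] {n : ℕ} (h : TwoCl G n)
    (hex : ∃ x : G, x ∉ center G) (w : ℕ) [Fact w.Prime] (hw : w ∣ n) (W : Sylow w G) :
    ∃ a : G, a ∉ center G ∧ ∀ b ∈ W, ∀ c ∈ Cz a, b * c * b⁻¹ ∈ Cz a := by
  obtain ⟨a, -, ha, hc⟩ := h.exists_sylow_second_center hex w hw W
  exact ⟨a, ha, fun b hb c hc' => Cz_conj_mem (hc b hb) hc'⟩

/-- Isaacs: if `x₁ ∉ Z(G)`, `x₁ ^ p ∈ Z(G)` and `[x₁, y] ∈ Z(G)`, then `y ^ p ∈ Z(C(x₁))`. -/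
theorem TwoCl.pow_mem_Tz {n : ℕ} (h : TwoCl G n) {p : ℕ} {x₁ y : G} (hx₁ : x₁ ∉ center G)
    (hx₁p : x₁ ^ p ∈ center G) (hcomm : x₁⁻¹ * (y⁻¹ * x₁ * y) ∈ center G) : y ^ p ∈ Tz x₁ := by
  by_contra hyp
  have hyT : y ∉ Tz x₁ := fun hc => hyp ((Tz x₁).pow_mem hc p)
  have hypZ : y ^ p ∉ center G := fun hc => hyp (center_le_Tz x₁ hc)
  by_cases hyc : y ∈ Cz x₁
  · exact hypZ (h.pow_mem_center hx₁ hyc hyT p hx₁p)
  · have hyZ : y ∉ center G := fun hc => hyc (Subgroup.center_le_centralizer _ hc)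
    have hq : (x₁ * y) ^ p * (y ^ p)⁻¹ ∈ center G := by
      rw [← QuotientGroup.eq_one_iff]
      have hcm : Commute (QuotientGroup.mk x₁ : G ⧸ center G) (QuotientGroup.mk y) :=
        comm_mod_center_iff.mp hcomm
      have h3 : (QuotientGroup.mk x₁ : G ⧸ center G) ^ p = 1 := by
        rw [← QuotientGroup.mk_pow]
        exact (QuotientGroup.eq_one_iff _).mpr hx₁p
      simp only [QuotientGroup.mk_mul, QuotientGroup.mk_inv, QuotientGroup.mk_pow]
      rw [hcm.mul_pow, h3, one_mul, mul_inv_cancel]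
    have hwp : (x₁ * y) ^ p ∈ Tz y := by
      have h1 : (x₁ * y) ^ p = ((x₁ * y) ^ p * (y ^ p)⁻¹) * y ^ p := by group
      rw [h1]
      exact (Tz y).mul_mem (center_le_Tz y hq) ((Tz y).pow_mem (self_mem_Tz y) p)
    have hwpZ : (x₁ * y) ^ p ∉ center G := by
      intro hc
      apply hypZ
      have h1 : y ^ p = ((x₁ * y) ^ p * (y ^ p)⁻¹)⁻¹ * (x₁ * y) ^ p := by group
      rw [h1]
      exact (center G).mul_mem ((center G).inv_mem hq) hc
    have hwZ : x₁ * y ∉ center G := fun hc => hwpZ ((center G).pow_mem hc p)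
    have h1 : Cz ((x₁ * y) ^ p) = Cz y := h.Cz_eq_of_mem_Tz hyZ hwp hwpZ
    have h2 : Cz ((x₁ * y) ^ p) = Cz (x₁ * y) :=
      h.Cz_eq_of_mem_Tz hwZ ((Tz (x₁ * y)).pow_mem (self_mem_Tz (x₁ * y)) p) hwpZ
    have h3 : y ∈ Cz (x₁ * y) := by
      rw [← h2, h1]
      exact self_mem_Cz y
    apply hyc
    rw [mem_Cz] at h3 ⊢
    have h5 : x₁ * y * y = y * x₁ * y := by rw [h3, mul_assoc]
    exact mul_right_cancel h5

/-- Key divisibility in the case of abelian centralisers: for primes `w ≠ t` with `w ∣ n`, the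
`w`-part of `n` divides `m_t - 1`, where `m_t` is the `t`-part of `m = [C(x) : Z(G)]`. -/
theorem TwoCl.pow_dvd_pow_sub_one [Finite G] {n : ℕ} (h : TwoCl G n)
    (hab : ∀ x : G, x ∉ center G → Cz x ≤ Tz x) {x₀ : G} (hx₀ : x₀ ∉ center G)
    {w t : ℕ} (hw : w.Prime) (ht : t.Prime) (hwt : w ≠ t) (hwn : w ∣ n) :
    w ^ n.factorization w ∣ t ^ ((center G).relIndex (Cz x₀)).factorization t - 1 := by
  have : Fact w.Prime := ⟨hw⟩
  have : Fact t.Prime := ⟨ht⟩
  obtain ⟨W⟩ : Nonempty (Sylow w G) := inferInstance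
  obtain ⟨a, ha, hnorm⟩ := h.exists_sylow_normalizing ⟨x₀, hx₀⟩ w hwn W
  have habC : ∀ u ∈ Cz a, ∀ v ∈ Cz a, u * v = v * u := by
    intro u hu v hv
    exact mem_Tz.mp (hab a ha hv) u (mem_Cz.mp hu)
  have hOC : (Cz a).relIndex (W : Subgroup G)
      ∣ ({c : G | c ∈ Cz a ∧ c ∉ center G ∧ ∃ k : ℕ, c ^ (t ^ k) = 1} : Set G).ncard := by
    apply relIndex_dvd_ncard_of_conj
    · rintro c ⟨hcC, hcZ, k, hk⟩ b hb
      refine ⟨hnorm b hb c hcC, ?_, k, ?_⟩
      · intro hc
        apply hcZ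
        have h1 : b⁻¹ * (b * c * b⁻¹) * b⁻¹⁻¹ ∈ center G :=
          (inferInstance : (center G).Normal).conj_mem _ hc b⁻¹
        have h2 : b⁻¹ * (b * c * b⁻¹) * b⁻¹⁻¹ = c := by group
        rwa [h2] at h1
      · rw [conj_pow, hk]
        group
    · rintro c ⟨hcC, hcZ, -⟩ b hb
      constructor
      · intro hbc
        have h1 : Cz c = Cz a := h.Cz_eq_of_mem_Tz ha (hab a ha hcC) hcZ
        rw [← h1]
        exact mem_Cz.mpr hbc.symm
      · intro hbC
        exact habC b hbC c hcC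
  rw [ncard_primary_diff (Cz a) (center G) (Subgroup.center_le_centralizer _) habC t] at hOC
  -- arithmetic
  have hrel : (center G).relIndex (Cz a) = (center G).relIndex (Cz x₀) := h.relIndex_eq hx₀ ha
  have hc : Nat.card (Cz a) = (center G).relIndex (Cz x₀) * Nat.card (center G) := by
    rw [← hrel]
    exact card_eq_relIndex_mul_card _ _ (Subgroup.center_le_centralizer _)
  have hzpos : Nat.card (center G) ≠ 0 := Nat.card_pos.ne'
  have hcpos : Nat.card (Cz a) ≠ 0 := Nat.card_pos.ne'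
  have hmpos : (center G).relIndex (Cz x₀) ≠ 0 := by
    intro h0
    rw [h0, zero_mul] at hc
    exact hcpos hc
  have hfac : (Nat.card (Cz a)).factorization t
      = ((center G).relIndex (Cz x₀)).factorization t + (Nat.card (center G)).factorization t := by
    rw [hc, Nat.factorization_mul hmpos hzpos]
    rfl
  have hX : t ^ (Nat.card (Cz a)).factorization t - t ^ (Nat.card (center G)).factorization t
      = t ^ (Nat.card (center G)).factorization t
        * (t ^ ((center G).relIndex (Cz x₀)).factorization t - 1) := by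
    rw [hfac, Nat.mul_sub, mul_one, pow_add, mul_comm]
  rw [hX] at hOC
  -- the `w`-part of `n` divides the relative index
  have hWcard : Nat.card (W : Subgroup G) = w ^ (Nat.card G).factorization w :=
    Sylow.card_eq_multiplicity W
  have hG : Nat.card G = Nat.card (Cz a) * n := (h.card_Cz ha).symm
  have hfacG : (Nat.card G).factorization w
      = (Nat.card (Cz a)).factorization w + n.factorization w := by
    rw [hG, Nat.factorization_mul hcpos h.pos.ne']
    rfl
  have hWsplit : Nat.card (W : Subgroup G)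
      = (Cz a).relIndex (W : Subgroup G) * Nat.card (Cz a ⊓ (W : Subgroup G) : Subgroup G) := by
    rw [← Subgroup.inf_relIndex_right]
    exact card_eq_relIndex_mul_card _ _ inf_le_right
  obtain ⟨i, -, hi⟩ : ∃ i ≤ (Nat.card G).factorization w,
      Nat.card (Cz a ⊓ (W : Subgroup G) : Subgroup G) = w ^ i := by
    apply (Nat.dvd_prime_pow hw).mp
    rw [← hWcard]
    exact Subgroup.card_dvd_of_le inf_le_right
  have hi' : i ≤ (Nat.card (Cz a)).factorization w := by
    rw [← hw.pow_dvd_iff_le_factorization hcpos, ← hi]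
    exact Subgroup.card_dvd_of_le inf_le_left
  have hrelW : (Cz a).relIndex (W : Subgroup G)
      = w ^ ((Nat.card (Cz a)).factorization w + n.factorization w - i) := by
    have h1 : (Cz a).relIndex (W : Subgroup G) * w ^ i
        = w ^ ((Nat.card (Cz a)).factorization w + n.factorization w - i) * w ^ i := by
      rw [← hi, ← hWsplit, hWcard, hfacG, hi, pow_sub_mul_pow]
      omega
    exact Nat.eq_of_mul_eq_mul_right (pow_pos hw.pos i) h1
  have hdvd1 : w ^ n.factorization w ∣ (Cz a).relIndex (W : Subgroup G) := by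
    rw [hrelW]
    exact pow_dvd_pow w (by omega)
  have hcop : Nat.Coprime (w ^ n.factorization w) (t ^ (Nat.card (center G)).factorization t) :=
    Nat.Coprime.pow _ _ ((Nat.coprime_primes hw ht).mpr hwt)
  exact hcop.dvd_of_dvd_mul_left (dvd_trans hdvd1 hOC)

/-- Numerical contradiction for two primes. -/
theorem two_prime_numerics {n m : ℕ} (hn : 0 < n) (hm : 0 < m) (hmn : m ≤ n)
    (H : ∀ w t : ℕ, w.Prime → t.Prime → w ≠ t → w ∣ n →
      w ^ n.factorization w ∣ t ^ m.factorization t - 1)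
    {q r : ℕ} (hq : q.Prime) (hr : r.Prime) (hqr : q ≠ r) (hqm : q ∣ m) (hrm : r ∣ m) : False := by
  have key : ∀ t : ℕ, t.Prime → t ∣ m → n < t ^ n.factorization t * t ^ m.factorization t := by
    intro t ht htm
    have hmt : 2 ≤ t ^ m.factorization t := by
      have h1 : 0 < m.factorization t := ht.factorization_pos_of_dvd hm.ne' htm
      calc 2 ≤ t := ht.two_le
        _ = t ^ 1 := (pow_one t).symm
        _ ≤ t ^ m.factorization t := Nat.pow_le_pow_right ht.pos h1
    have hdiv : n / t ^ n.factorization t ∣ t ^ m.factorization t - 1 := by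
      rw [Nat.dvd_iff_prime_pow_dvd_dvd]
      intro p k hp hpk
      rcases Nat.eq_zero_or_pos k with rfl | hk
      · simp
      · have hpd : p ∣ n / t ^ n.factorization t := dvd_trans (dvd_pow_self p hk.ne') hpk
        have hpt : p ≠ t := by
          rintro rfl
          exact Nat.not_dvd_ordCompl hp hn.ne' hpd
        have hpn : p ^ k ∣ n := dvd_trans hpk (Nat.ordCompl_dvd n t)
        have hk' : k ≤ n.factorization p := (hp.pow_dvd_iff_le_factorization hn.ne').mp hpn
        exact dvd_trans (pow_dvd_pow p hk')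
          (H p t hp ht hpt (dvd_trans (dvd_pow_self p hk.ne') hpn))
    have hle : n / t ^ n.factorization t ≤ t ^ m.factorization t - 1 :=
      Nat.le_of_dvd (by omega) hdiv
    calc n = t ^ n.factorization t * (n / t ^ n.factorization t) :=
          (Nat.ordProj_mul_ordCompl_eq_self n t).symm
      _ < t ^ n.factorization t * t ^ m.factorization t :=
          Nat.mul_lt_mul_of_pos_left (by omega) (pow_pos ht.pos _)
  have hq' := key q hq hqm
  have hr' := key r hr hrm
  have hcop : ∀ a b : ℕ, Nat.Coprime (q ^ a) (r ^ b) := fun a b =>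
    Nat.Coprime.pow _ _ ((Nat.coprime_primes hq hr).mpr hqr)
  have h1 : q ^ n.factorization q * r ^ n.factorization r ≤ n :=
    Nat.le_of_dvd hn ((hcop _ _).mul_dvd_of_dvd_of_dvd (Nat.ordProj_dvd n q) (Nat.ordProj_dvd n r))
  have h2 : q ^ m.factorization q * r ^ m.factorization r ≤ m :=
    Nat.le_of_dvd hm ((hcop _ _).mul_dvd_of_dvd_of_dvd (Nat.ordProj_dvd m q) (Nat.ordProj_dvd m r))
  have h3 : n * n < (q ^ n.factorization q * q ^ m.factorization q)
      * (r ^ n.factorization r * r ^ m.factorization r) := Nat.mul_lt_mul'' hq' hr'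
  have h4 : (q ^ n.factorization q * q ^ m.factorization q)
      * (r ^ n.factorization r * r ^ m.factorization r)
      = (q ^ n.factorization q * r ^ n.factorization r)
        * (q ^ m.factorization q * r ^ m.factorization r) := by ring
  have h5 : (q ^ n.factorization q * r ^ n.factorization r)
        * (q ^ m.factorization q * r ^ m.factorization r) ≤ n * m := Nat.mul_le_mul h1 h2
  have h6 : n * m ≤ n * n := Nat.mul_le_mul_left n hmn
  rw [h4] at h3
  exact lt_irrefl _ (lt_of_lt_of_le h3 (le_trans h5 h6))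

/-- **Itô**: in a finite group of conjugate type `(n, 1)`, exactly one prime `p` admits
non-central elements of `p`-power order. -/
theorem TwoCl.unique_prime [Finite G] {n : ℕ} (h : TwoCl G n) (hex : ∃ x : G, x ∉ center G) :
    ∃ p : ℕ, p.Prime ∧
      ∀ t : ℕ, t.Prime → ∀ v : G, v ∉ center G → ∀ j : ℕ, v ^ (t ^ j) = 1 → t = p := by
  by_cases hab : ∀ x : G, x ∉ center G → Cz x ≤ Tz x
  · obtain ⟨x₀, hx₀⟩ := hex
    obtain ⟨p, hp, j, k, hk, hkj⟩ :=
      exists_primePow_pow_not_mem (center G) (Nat.card G) Nat.card_pos x₀ pow_card_eq_one' hx₀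
    refine ⟨p, hp, ?_⟩
    intro t ht v hv j' hvj
    by_contra hne
    have hpm : p ∣ (center G).relIndex (Cz x₀) := by
      rw [← h.relIndex_eq hx₀ hk]
      exact dvd_relIndex_of_primePow hp hk hkj
    have htm : t ∣ (center G).relIndex (Cz x₀) := by
      rw [← h.relIndex_eq hx₀ hv]
      exact dvd_relIndex_of_primePow ht hv hvj
    have hmpos : 0 < (center G).relIndex (Cz x₀) := by
      rcases Nat.eq_zero_or_pos ((center G).relIndex (Cz x₀)) with h0 | h0
      · have h1 := card_eq_relIndex_mul_card (center G) (Cz x₀) (Subgroup.center_le_centralizer _)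
        rw [h0, zero_mul] at h1
        exact absurd h1 Nat.card_pos.ne'
      · exact h0
    exact two_prime_numerics h.pos hmpos (h.relIndex_le hab hx₀)
      (fun w t' hw ht' hwt hwn => h.pow_dvd_pow_sub_one hab hx₀ hw ht' hwt hwn) ht hp hne htm hpm
  · push Not at hab
    obtain ⟨x, hx, hnot⟩ := hab
    obtain ⟨y, hy, hyT⟩ := SetLike.not_le_iff_exists.mp hnot
    obtain ⟨p, hp, hexp⟩ := h.exists_prime_pow_mem_center hx hy hyT
    exact ⟨p, hp, fun t ht v hv j hvj => h.prime_unique_of_exponent hx hp hexp ht hv hvj⟩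

end TwoCl

end Cfsg.Agent.Lib.Helper69
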