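import Mathlib
import Cfsg.Agent.Lib.Helper69.Kulakoff

set_option autoImplicit false

/-!
Hall's reduction: for a Sylow `p`-subgroup `P` of `G` and `p ^ (a + 1) ∣ |G|`, the number of
subgroups of order `p ^ a` of `G` is congruent modulo `p ^ 2` to the number of those inside `P`.
-/

namespace Cfsg.Agent.Lib.Helper69

open scoped Pointwise

section General

/-- weighted orbit counting -/
theorem dvd_sum_of_invariant {P Y : Type*} [Group P] [Finite P] [MulAction P Y] [Fintype Y]
    (f : Y → ℕ) (hf : ∀ (g : P) (y : Y), f (g • y) = f y) (d : ℕ)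
    (hd : ∀ y, d ∣ (MulAction.stabilizer P y).index * f y) : d ∣ ∑ y, f y := by
  classical
  let e := MulAction.selfEquivSigmaOrbits P Y
  haveI : Fintype (MulAction.orbitRel.Quotient P Y) := Fintype.ofFinite _
  haveI : ∀ ω : MulAction.orbitRel.Quotient P Y, Fintype (MulAction.orbit P ω.out) :=
    fun ω => Fintype.ofFinite _
  have h1 : ∑ y, f y =
      ∑ x : (Σ ω : MulAction.orbitRel.Quotient P Y, MulAction.orbit P ω.out), f (e.symm x) :=
    (Equiv.sum_comp e.symm f).symm
  rw [h1, Fintype.sum_sigma]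
  apply Finset.dvd_sum
  intro ω _
  have h2 : ∀ y : MulAction.orbit P ω.out, f (e.symm ⟨ω, y⟩) = f ω.out := by
    intro y
    have h3 : e.symm ⟨ω, y⟩ = y.1 := rfl
    rw [h3]
    obtain ⟨g, hg⟩ := y.2
    rw [← hg]
    exact hf g _
  rw [Finset.sum_congr rfl (fun y _ => h2 y), Finset.sum_const, Finset.card_univ, smul_eq_mul]
  have h4 : Fintype.card (MulAction.orbit P ω.out) = (MulAction.stabilizer P ω.out).index := by
    rw [MulAction.index_stabilizer, ← Nat.card_coe_set_eq, Nat.card_eq_fintype_card]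
  rw [h4]
  exact hd _

theorem sum_indicator_eq_card {α : Type*} [Fintype α] (c : α → Prop) [DecidablePred c] :
    ∑ x, (if c x then 1 else 0) = Nat.card {x // c x} := by
  rw [Finset.sum_boole, Nat.card_eq_fintype_card, Fintype.card_subtype]
  simp

theorem mid_card {p : ℕ} (hp : p.Prime) {c1 c2 N : ℕ} (h1 : c1 ∣ c2) (h2 : c2 ∣ N)
    (h3 : c1 * p = N) (hN : 0 < N) : c2 = c1 ∨ c2 = N := by
  obtain ⟨u, hu⟩ := h1
  obtain ⟨v, hv⟩ := h2
  have hc1 : 0 < c1 := by
    rcases Nat.eq_zero_or_pos c1 with h | h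
    · rw [h, zero_mul] at h3; omega
    · exact h
  have huv : u * v = p := by
    have h4 : c1 * (u * v) = c1 * p := by
      rw [h3, hv, hu]; ring
    exact Nat.eq_of_mul_eq_mul_left hc1 h4
  have hudvd : u ∣ p := Dvd.intro v huv
  rcases (Nat.dvd_prime hp).mp hudvd with h | h
  · left; rw [hu, h, mul_one]
  · right; rw [hu, h, h3]

end General

section Action

variable {G : Type*} [Group G]

instance ordSubAction (G : Type*) [Group G] (k : ℕ) : MulAction G (OrdSub G k) where
  smul g H := ⟨MulAut.conj g • H.1,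
    (Nat.card_congr (Subgroup.equivSMul (MulAut.conj g) H.1).toEquiv.symm).trans H.2⟩
  one_smul H := by
    apply Subtype.ext
    show MulAut.conj (1 : G) • H.1 = H.1
    rw [map_one, one_smul]
  mul_smul g h H := by
    apply Subtype.ext
    show MulAut.conj (g * h) • H.1 = MulAut.conj g • (MulAut.conj h • H.1)
    rw [map_mul, mul_smul]

theorem ordSub_smul_val {k : ℕ} (g : G) (H : OrdSub G k) :
    (g • H).1 = MulAut.conj g • H.1 := rfl

theorem ordSub_sub_smul_val {k : ℕ} (P : Subgroup G) (g : P) (H : OrdSub G k) :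
    (g • H).1 = MulAut.conj (g : G) • H.1 := rfl

theorem card_conj_smul (g : G) (K : Subgroup G) :
    Nat.card (MulAut.conj g • K : Subgroup G) = Nat.card K :=
  Nat.card_congr (Subgroup.equivSMul (MulAut.conj g) K).toEquiv.symm

/-- the index of the stabilizer is invariant along orbits -/
theorem index_stabilizer_smul {P Y : Type*} [Group P] [MulAction P Y] (g : P) (y : Y) :
    (MulAction.stabilizer P (g • y)).index = (MulAction.stabilizer P y).index := by
  rw [MulAction.stabilizer_smul_eq_stabilizer_map_conj]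
  exact Subgroup.index_map_equiv _ (MulAut.conj g)

/-- a `p`-subgroup normalized by a Sylow `p`-subgroup lies in it -/
theorem le_sylow_of_conj_fixed {p : ℕ} [Fact p.Prime] (P : Sylow p G) (C : Subgroup G)
    (hC : IsPGroup p C) (h : ∀ g ∈ (P : Subgroup G), MulAut.conj g • C = C) :
    C ≤ P := by
  have hPN : (P : Subgroup G) ≤ Subgroup.normalizer (C : Set G) := by
    intro g hg
    rw [Subgroup.mem_normalizer_iff]
    intro x
    have h1 := h g hg
    have h2 : g * x * g⁻¹ = MulAut.conj g • x := by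
      rw [MulAut.smul_def, MulAut.conj_apply]
    rw [h2]
    conv_rhs => rw [← h1]
    exact Subgroup.smul_mem_pointwise_smul_iff.symm
  have h1 : IsPGroup p (C ⊔ (P : Subgroup G) : Subgroup G) :=
    IsPGroup.to_sup_of_normal_left' hC P.isPGroup' hPN
  have h2 := P.is_maximal' h1 le_sup_right
  rw [← h2]
  exact le_sup_left

/-- the join of a `p`-group with a `p`-group fixing it under conjugation is a `p`-group -/
theorem isPGroup_sup_of_conj_fixed {p : ℕ} [Fact p.Prime] (H K : Subgroup G)
    (hH : IsPGroup p H) (hK : IsPGroup p K) (h : ∀ g ∈ K, MulAut.conj g • H = H) :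
    IsPGroup p (H ⊔ K : Subgroup G) := by
  have hKN : K ≤ Subgroup.normalizer (H : Set G) := by
    intro g hg
    rw [Subgroup.mem_normalizer_iff]
    intro x
    have h1 := h g hg
    have h2 : g * x * g⁻¹ = MulAut.conj g • x := by
      rw [MulAut.smul_def, MulAut.conj_apply]
    rw [h2]
    conv_rhs => rw [← h1]
    exact Subgroup.smul_mem_pointwise_smul_iff.symm
  exact IsPGroup.to_sup_of_normal_left' hH hK hKN

/-- a subgroup of index `p` in a finite `p`-subgroup `Q` is invariant under conjugation by `Q` -/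
theorem conj_smul_eq_of_card_mul [Finite G] {p : ℕ} [Fact p.Prime] (Q M : Subgroup G)
    (hQ : IsPGroup p Q) (hMQ : M ≤ Q) (hcard : Nat.card M * p = Nat.card Q) (x : G)
    (hx : x ∈ Q) : MulAut.conj x • M = M := by
  have hp : p.Prime := Fact.out
  have hidx : (M.subgroupOf Q).index = p := by
    have h1 := Subgroup.card_mul_index (M.subgroupOf Q)
    rw [Nat.card_congr (Subgroup.subgroupOfEquivOfLe hMQ).toEquiv, ← hcard] at h1
    exact Nat.eq_of_mul_eq_mul_left Nat.card_pos h1
  haveI hN := normal_of_index_eq_prime p hQ (M.subgroupOf Q) hidx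
  have hle : ∀ y ∈ Q, MulAut.conj y • M ≤ M := by
    intro y hy z hz
    obtain ⟨k, hk, rfl⟩ := (Subgroup.mem_smul_pointwise_iff_exists _ _ _).mp hz
    rw [MulAut.smul_def, MulAut.conj_apply]
    have h1 : (⟨k, hMQ hk⟩ : Q) ∈ M.subgroupOf Q := Subgroup.mem_subgroupOf.mpr hk
    have h2 := hN.conj_mem _ h1 ⟨y, hy⟩
    exact Subgroup.mem_subgroupOf.mp h2
  apply Subgroup.eq_of_le_of_card_ge (hle x hx)
  rw [card_conj_smul]

end Action

section HallReduction

variable {G : Type*} [Group G]

theorem conj_inv_smul_eq_self {T : Subgroup G} {g : G} (hg : g ∈ T) :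
    (MulAut.conj g)⁻¹ • T = T := by
  rw [← map_inv]
  exact Subgroup.conj_smul_eq_self_of_mem (T.inv_mem hg)

theorem conj_smul_le_iff_of_mem {K T : Subgroup G} {g : G} (hg : g ∈ T) :
    MulAut.conj g • K ≤ T ↔ K ≤ T := by
  rw [Subgroup.pointwise_smul_subset_iff, conj_inv_smul_eq_self hg]

theorem conj_conj_smul (g x : G) (K : Subgroup G) :
    MulAut.conj (g * x * g⁻¹) • (MulAut.conj g • K) = MulAut.conj g • (MulAut.conj x • K) := by
  rw [map_mul, map_mul, map_inv, mul_smul, mul_smul, inv_smul_smul]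

/-- `H` is normal in the Sylow subgroup `Q`, not inside `P`, and `P ⊓ Q` has index `p` in `P` -/
def hallRel {p : ℕ} (P Q : Sylow p G) {k : ℕ} (H : OrdSub G k) : Prop :=
  H.1 ≤ Q ∧ (∀ x ∈ (Q : Subgroup G), MulAut.conj x • H.1 = H.1) ∧ ¬ H.1 ≤ P ∧
    Nat.card ((P : Subgroup G) ⊓ (Q : Subgroup G) : Subgroup G) * p = Nat.card (P : Subgroup G)

theorem mem_map_stabilizer {k : ℕ} (P : Subgroup G) (H : OrdSub G k) (x : G) :
    x ∈ (MulAction.stabilizer P H).map P.subtype ↔ x ∈ P ∧ MulAut.conj x • H.1 = H.1 := by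
  rw [Subgroup.mem_map]
  constructor
  · rintro ⟨y, hy, rfl⟩
    refine ⟨y.2, ?_⟩
    have h1 : y • H = H := MulAction.mem_stabilizer_iff.mp hy
    exact congrArg Subtype.val h1
  · rintro ⟨hx, h⟩
    refine ⟨⟨x, hx⟩, ?_, rfl⟩
    rw [MulAction.mem_stabilizer_iff]
    apply Subtype.ext
    exact h

theorem stabilizer_ne_top_of_not_le [Finite G] {p : ℕ} [Fact p.Prime] (P : Sylow p G) {a : ℕ}
    (H : OrdSub G (p ^ a)) (hHP : ¬ H.1 ≤ P) :
    (MulAction.stabilizer (P : Subgroup G) H).index ≠ 1 := by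
  intro h
  apply hHP
  apply le_sylow_of_conj_fixed P H.1 (IsPGroup.of_card H.2)
  intro g hg
  have h1 : (⟨g, hg⟩ : (P : Subgroup G)) ∈ MulAction.stabilizer (P : Subgroup G) H := by
    rw [Subgroup.index_eq_one.mp h]; exact Subgroup.mem_top _
  exact congrArg Subtype.val (MulAction.mem_stabilizer_iff.mp h1)

theorem hallRel_unique [Finite G] {p : ℕ} [Fact p.Prime] (P Q : Sylow p G) {a : ℕ}
    (H : OrdSub G (p ^ a)) (hR : hallRel P Q H) :
    (MulAction.stabilizer (P : Subgroup G) H).index = p ∧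
      (Q : Subgroup G) =
        H.1 ⊔ (MulAction.stabilizer (P : Subgroup G) H).map (P : Subgroup G).subtype := by
  have hp : p.Prime := Fact.out
  obtain ⟨hHQ, hfix, hHP, hcard⟩ := hR
  set S := MulAction.stabilizer (P : Subgroup G) H with hS
  set NP := S.map (P : Subgroup G).subtype with hNP
  have hmem := mem_map_stabilizer (P : Subgroup G) H
  have hNPle : NP ≤ (P : Subgroup G) := fun x hx => ((hmem x).mp hx).1
  have hPQle : ((P : Subgroup G) ⊓ (Q : Subgroup G) : Subgroup G) ≤ NP := by
    intro x hx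
    exact (hmem x).mpr ⟨hx.1, hfix x hx.2⟩
  have hcardNP : Nat.card NP = Nat.card S :=
    Subgroup.card_map_of_injective Subtype.coe_injective
  have hSidx := Subgroup.card_mul_index S
  have hne1 := stabilizer_ne_top_of_not_le P H hHP
  have hPpos : 0 < Nat.card (P : Subgroup G) := Nat.card_pos
  have hNPcard : Nat.card NP = Nat.card ((P : Subgroup G) ⊓ (Q : Subgroup G) : Subgroup G) := by
    rcases mid_card hp (Subgroup.card_dvd_of_le hPQle) (Subgroup.card_dvd_of_le hNPle) hcard hPpos
      with h | h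
    · exact h
    · exfalso
      apply hne1
      rw [hcardNP] at h
      rw [h] at hSidx
      have h2 : Nat.card (P : Subgroup G) * S.index = Nat.card (P : Subgroup G) * 1 := by
        rw [hSidx, mul_one]
      exact Nat.eq_of_mul_eq_mul_left hPpos h2
  have hNPeq : ((P : Subgroup G) ⊓ (Q : Subgroup G) : Subgroup G) = NP :=
    Subgroup.eq_of_le_of_card_ge hPQle (le_of_eq hNPcard)
  refine ⟨?_, ?_⟩
  · rw [← hcardNP, hNPcard, ← hcard] at hSidx
    exact Nat.eq_of_mul_eq_mul_left Nat.card_pos hSidx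
  · have hle : H.1 ⊔ NP ≤ (Q : Subgroup G) := by
      apply sup_le hHQ
      rw [← hNPeq]; exact inf_le_right
    have hQcard : Nat.card (Q : Subgroup G) = Nat.card (P : Subgroup G) := by
      rw [Q.card_eq_multiplicity, P.card_eq_multiplicity]
    rcases mid_card hp (Subgroup.card_dvd_of_le (le_sup_right : NP ≤ H.1 ⊔ NP))
      (Subgroup.card_dvd_of_le hle) (by rw [hNPcard, hQcard]; exact hcard) Nat.card_pos with h | h
    · exfalso
      apply hHP
      have h2 : NP = H.1 ⊔ NP := Subgroup.eq_of_le_of_card_ge le_sup_right (le_of_eq h)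
      have h3 : H.1 ≤ NP := by rw [h2]; exact le_sup_left
      exact h3.trans hNPle
    · exact (Subgroup.eq_of_le_of_card_ge hle (le_of_eq h.symm)).symm

theorem hallRel_exists [Finite G] {p : ℕ} [Fact p.Prime] (P : Sylow p G) {a : ℕ}
    (H : OrdSub G (p ^ a)) (hHP : ¬ H.1 ≤ P)
    (hidx : (MulAction.stabilizer (P : Subgroup G) H).index = p) :
    ∃ Q : Sylow p G, hallRel P Q H := by
  have hp : p.Prime := Fact.out
  set S := MulAction.stabilizer (P : Subgroup G) H with hS
  set NP := S.map (P : Subgroup G).subtype with hNP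
  have hmem := mem_map_stabilizer (P : Subgroup G) H
  have hNPle : NP ≤ (P : Subgroup G) := fun x hx => ((hmem x).mp hx).1
  have hcardNP : Nat.card NP = Nat.card S :=
    Subgroup.card_map_of_injective Subtype.coe_injective
  have hSidx := Subgroup.card_mul_index S
  rw [hidx, ← hcardNP] at hSidx
  have hPpos : 0 < Nat.card (P : Subgroup G) := Nat.card_pos
  -- everything in H ⊔ NP fixes H
  have hstab : H.1 ⊔ NP ≤ MulAction.stabilizer G H := by
    apply sup_le
    · intro x hx
      rw [MulAction.mem_stabilizer_iff]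
      apply Subtype.ext
      exact Subgroup.conj_smul_eq_self_of_mem hx
    · intro x hx
      rw [MulAction.mem_stabilizer_iff]
      apply Subtype.ext
      exact ((hmem x).mp hx).2
  have hfix : ∀ x ∈ H.1 ⊔ NP, MulAut.conj x • H.1 = H.1 := by
    intro x hx
    exact congrArg Subtype.val (MulAction.mem_stabilizer_iff.mp (hstab hx))
  have hPG : IsPGroup p (H.1 ⊔ NP : Subgroup G) :=
    isPGroup_sup_of_conj_fixed H.1 NP (IsPGroup.of_card H.2) (P.isPGroup'.to_le hNPle)
      (fun g hg => ((hmem g).mp hg).2)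
  obtain ⟨j, hj⟩ := (IsPGroup.iff_card).mp hPG
  have hPcard := P.card_eq_multiplicity
  have hdvd : Nat.card (H.1 ⊔ NP : Subgroup G) ∣ Nat.card (P : Subgroup G) := by
    rw [hj, hPcard]
    apply pow_dvd_pow
    have h1 : p ^ j ∣ Nat.card G := hj ▸ Subgroup.card_subgroup_dvd_card _
    exact (Nat.Prime.pow_dvd_iff_le_factorization hp Nat.card_pos.ne').mp h1
  have hsupcard : Nat.card (H.1 ⊔ NP : Subgroup G) = Nat.card (P : Subgroup G) := by
    rcases mid_card hp (Subgroup.card_dvd_of_le (le_sup_right : NP ≤ H.1 ⊔ NP)) hdvd hSidx hPpos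
      with h | h
    · exfalso
      apply hHP
      have h2 : NP = H.1 ⊔ NP := Subgroup.eq_of_le_of_card_ge le_sup_right (le_of_eq h)
      have h3 : H.1 ≤ NP := by rw [h2]; exact le_sup_left
      exact h3.trans hNPle
    · exact h
  let Q : Sylow p G := Sylow.ofCard (H.1 ⊔ NP) (by rw [hsupcard, hPcard])
  have hQ : (Q : Subgroup G) = H.1 ⊔ NP := rfl
  refine ⟨Q, ?_, ?_, hHP, ?_⟩
  · rw [hQ]; exact le_sup_left
  · intro x hx
    rw [hQ] at hx
    exact hfix x hx
  · have hle : NP ≤ ((P : Subgroup G) ⊓ (Q : Subgroup G) : Subgroup G) := by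
      apply le_inf hNPle
      rw [hQ]; exact le_sup_right
    rcases mid_card hp (Subgroup.card_dvd_of_le hle)
      (Subgroup.card_dvd_of_le (inf_le_left : ((P : Subgroup G) ⊓ (Q : Subgroup G) : Subgroup G) ≤ P))
      hSidx hPpos with h | h
    · rw [h]; exact hSidx
    · exfalso
      apply hHP
      have h2 : ((P : Subgroup G) ⊓ (Q : Subgroup G) : Subgroup G) = P :=
        Subgroup.eq_of_le_of_card_ge inf_le_left (le_of_eq h.symm)
      have h3 : (P : Subgroup G) ≤ Q := by
        rw [← h2]; exact inf_le_right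
      have h4 : (P : Subgroup G) = Q :=
        Subgroup.eq_of_le_of_card_ge h3 (by rw [hQ, hsupcard])
      rw [h4, hQ]
      exact le_sup_left

theorem card_hallRel_fst [Finite G] {p : ℕ} [Fact p.Prime] (P : Sylow p G) {a : ℕ}
    (H : OrdSub G (p ^ a))
    [Decidable (¬ H.1 ≤ P ∧ (MulAction.stabilizer (P : Subgroup G) H).index = p)] :
    Nat.card {Q : Sylow p G // hallRel P Q H} =
      if (¬ H.1 ≤ P ∧ (MulAction.stabilizer (P : Subgroup G) H).index = p) then 1 else 0 := by
  split_ifs with h
  · rw [Nat.card_eq_one_iff_unique]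
    constructor
    · constructor
      intro Q1 Q2
      apply Subtype.ext
      apply Sylow.ext
      rw [(hallRel_unique P Q1.1 H Q1.2).2, (hallRel_unique P Q2.1 H Q2.2).2]
    · obtain ⟨Q, hQ⟩ := hallRel_exists P H h.1 h.2
      exact ⟨⟨Q, hQ⟩⟩
  · haveI : IsEmpty {Q : Sylow p G // hallRel P Q H} := by
      constructor
      intro Q
      exact h ⟨Q.2.2.2.1, (hallRel_unique P Q.1 H Q.2).1⟩
    rw [Nat.card_of_isEmpty]

theorem hallRel_smul_iff {p : ℕ} (P Q : Sylow p G) {k : ℕ} (H : OrdSub G k)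
    (g : (P : Subgroup G)) : hallRel P (g • Q) (g • H) ↔ hallRel P Q H := by
  have hQ : ((g • Q : Sylow p G) : Subgroup G) = MulAut.conj (g : G) • (Q : Subgroup G) :=
    Sylow.coe_subgroup_smul
  have hH : (g • H).1 = MulAut.conj (g : G) • H.1 := rfl
  unfold hallRel
  rw [hQ, hH]
  have h1 : MulAut.conj (g : G) • H.1 ≤ MulAut.conj (g : G) • (Q : Subgroup G) ↔ H.1 ≤ Q :=
    Subgroup.pointwise_smul_le_pointwise_smul_iff
  have h2 : (∀ x ∈ MulAut.conj (g : G) • (Q : Subgroup G),
      MulAut.conj x • (MulAut.conj (g : G) • H.1) = MulAut.conj (g : G) • H.1) ↔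
      (∀ x ∈ (Q : Subgroup G), MulAut.conj x • H.1 = H.1) := by
    constructor
    · intro h x hx
      have h3 : (g : G) * x * (g : G)⁻¹ ∈ MulAut.conj (g : G) • (Q : Subgroup G) := by
        rw [Subgroup.mem_smul_pointwise_iff_exists]
        exact ⟨x, hx, by rw [MulAut.smul_def, MulAut.conj_apply]⟩
      have h4 := h _ h3
      rw [conj_conj_smul] at h4
      exact smul_left_cancel _ h4
    · intro h y hy
      obtain ⟨x, hx, rfl⟩ := (Subgroup.mem_smul_pointwise_iff_exists _ _ _).mp hy
      rw [MulAut.smul_def, MulAut.conj_apply, conj_conj_smul, h x hx]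
  have h3 : MulAut.conj (g : G) • H.1 ≤ (P : Subgroup G) ↔ H.1 ≤ P :=
    conj_smul_le_iff_of_mem g.2
  have h4 : Nat.card ((P : Subgroup G) ⊓ MulAut.conj (g : G) • (Q : Subgroup G) : Subgroup G) =
      Nat.card ((P : Subgroup G) ⊓ (Q : Subgroup G) : Subgroup G) := by
    have h5 : (P : Subgroup G) ⊓ MulAut.conj (g : G) • (Q : Subgroup G) =
        MulAut.conj (g : G) • ((P : Subgroup G) ⊓ (Q : Subgroup G)) := by
      rw [Subgroup.smul_inf, Subgroup.conj_smul_eq_self_of_mem g.2]
    rw [h5, card_conj_smul]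
  rw [h1, h2, h3, h4]

theorem dvd_index_of_ne_one {p : ℕ} [Fact p.Prime] {K : Type*} [Group K] [Finite K]
    (hK : IsPGroup p K) (S : Subgroup K) (h : S.index ≠ 1) : p ∣ S.index := by
  have hp : p.Prime := Fact.out
  obtain ⟨n, hn⟩ := (IsPGroup.iff_card).mp hK
  have h1 : S.index ∣ p ^ n := hn ▸ Subgroup.index_dvd_card S
  obtain ⟨j, _, hj⟩ := (Nat.dvd_prime_pow hp).mp h1
  rw [hj]
  rcases Nat.eq_zero_or_pos j with h0 | h0
  · rw [h0, pow_zero] at hj; exact absurd hj h
  · exact dvd_pow_self p (by omega)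

/-- the number of normal subgroups of order `p ^ a` of `Q` outside `P` is divisible by `p` -/
theorem hallRel_card_dvd [Finite G] {p : ℕ} [Fact p.Prime] (P Q : Sylow p G) (a : ℕ)
    (ha : p ^ (a + 1) ∣ Nat.card G) :
    p ∣ Nat.card {H : OrdSub G (p ^ a) // hallRel P Q H} := by
  classical
  have hp : p.Prime := Fact.out
  haveI : Fintype (OrdSub G (p ^ a)) := Fintype.ofFinite _
  have hPcard := P.card_eq_multiplicity
  have hQcard := Q.card_eq_multiplicity
  have han : a + 1 ≤ (Nat.card G).factorization p :=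
    (Nat.Prime.pow_dvd_iff_le_factorization hp Nat.card_pos.ne').mp ha
  set n := (Nat.card G).factorization p with hn
  by_cases hcard : Nat.card ((P : Subgroup G) ⊓ (Q : Subgroup G) : Subgroup G) * p =
      Nat.card (P : Subgroup G)
  · set M : Subgroup G := (P : Subgroup G) ⊓ (Q : Subgroup G) with hM
    have hMQ : M ≤ (Q : Subgroup G) := inf_le_right
    have hMcard : Nat.card M = p ^ (n - 1) := by
      rw [hPcard] at hcard
      have h2 : p ^ n = p ^ (n - 1) * p := by
        rw [← pow_succ]; congr 1; omega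
      rw [h2] at hcard
      exact Nat.eq_of_mul_eq_mul_right hp.pos hcard
    have hMinv : ∀ x ∈ (Q : Subgroup G), MulAut.conj x • M = M := fun x hx =>
      conj_smul_eq_of_card_mul (Q : Subgroup G) M Q.isPGroup' hMQ
        (by rw [hcard, hPcard, hQcard]) x hx
    -- the three indicator sums
    let c1 : OrdSub G (p ^ a) → Prop := fun H => H.1 ≤ (Q : Subgroup G)
    let c2 : OrdSub G (p ^ a) → Prop := fun H => H.1 ≤ M
    let c3 : OrdSub G (p ^ a) → Prop := fun H => H.1 ≤ (Q : Subgroup G) ∧ ¬ H.1 ≤ M ∧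
      (MulAction.stabilizer (Q : Subgroup G) H).index ≠ 1
    have hfixiff : ∀ H : OrdSub G (p ^ a),
        (∀ x ∈ (Q : Subgroup G), MulAut.conj x • H.1 = H.1) ↔
          (MulAction.stabilizer (Q : Subgroup G) H).index = 1 := by
      intro H
      rw [Subgroup.index_eq_one]
      constructor
      · intro h
        rw [eq_top_iff]
        intro x _
        rw [MulAction.mem_stabilizer_iff]
        apply Subtype.ext
        exact h x.1 x.2
      · intro h x hx
        have h1 : (⟨x, hx⟩ : (Q : Subgroup G)) ∈ MulAction.stabilizer (Q : Subgroup G) H := by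
          rw [h]; exact Subgroup.mem_top _
        exact congrArg Subtype.val (MulAction.mem_stabilizer_iff.mp h1)
    have hpoint : ∀ H : OrdSub G (p ^ a), (if c1 H then 1 else 0) =
        (if c2 H then 1 else 0) + (if hallRel P Q H then 1 else 0) + (if c3 H then 1 else 0) := by
      intro H
      by_cases h1 : H.1 ≤ (Q : Subgroup G)
      · by_cases h2 : H.1 ≤ M
        · have h3 : ¬ hallRel P Q H := fun hR => hR.2.2.1 (h2.trans inf_le_left)
          have h4 : ¬ c3 H := fun hc => hc.2.1 h2
          rw [if_pos (show c1 H from h1), if_pos (show c2 H from h2), if_neg h3, if_neg h4]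
        · have hHP : ¬ H.1 ≤ (P : Subgroup G) := fun h => h2 (le_inf h h1)
          by_cases h5 : (MulAction.stabilizer (Q : Subgroup G) H).index = 1
          · have h3 : hallRel P Q H := ⟨h1, (hfixiff H).mpr h5, hHP, hcard⟩
            have h4 : ¬ c3 H := fun hc => hc.2.2 h5
            rw [if_pos (show c1 H from h1), if_neg (show ¬ c2 H from h2), if_pos h3, if_neg h4]
          · have h3 : ¬ hallRel P Q H := fun hR => h5 ((hfixiff H).mp hR.2.1)
            have h4 : c3 H := ⟨h1, h2, h5⟩
            rw [if_pos (show c1 H from h1), if_neg (show ¬ c2 H from h2), if_neg h3, if_pos h4]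
      · have h2 : ¬ H.1 ≤ M := fun h => h1 (h.trans hMQ)
        have h3 : ¬ hallRel P Q H := fun hR => h1 hR.1
        have h4 : ¬ c3 H := fun hc => h1 hc.1
        rw [if_neg (show ¬ c1 H from h1), if_neg (show ¬ c2 H from h2), if_neg h3, if_neg h4]
    have hsum : ∑ H : OrdSub G (p ^ a), (if c1 H then 1 else 0) =
        ∑ H : OrdSub G (p ^ a), (if c2 H then 1 else 0) +
          ∑ H : OrdSub G (p ^ a), (if hallRel P Q H then 1 else 0) +
          ∑ H : OrdSub G (p ^ a), (if c3 H then 1 else 0) := by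
      rw [← Finset.sum_add_distrib, ← Finset.sum_add_distrib]
      exact Finset.sum_congr rfl (fun H _ => hpoint H)
    have hs1 : ∑ H : OrdSub G (p ^ a), (if c1 H then 1 else 0) ≡ 1 [MOD p] := by
      rw [sum_indicator_eq_card, ← Nat.card_congr (ordSubEquiv (Q : Subgroup G) (p ^ a))]
      exact Cfsg.Agent.Lib.Helper66.card_subgroups_pow_modEq_one p a
        (by rw [hQcard]; exact pow_dvd_pow p (by omega))
    have hs2 : ∑ H : OrdSub G (p ^ a), (if c2 H then 1 else 0) ≡ 1 [MOD p] := by
      rw [sum_indicator_eq_card, ← Nat.card_congr (ordSubEquiv M (p ^ a))]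
      exact Cfsg.Agent.Lib.Helper66.card_subgroups_pow_modEq_one p a
        (by rw [hMcard]; exact pow_dvd_pow p (by omega))
    have hs3 : p ∣ ∑ H : OrdSub G (p ^ a), (if c3 H then 1 else 0) := by
      apply dvd_sum_of_invariant (P := (Q : Subgroup G))
      · intro g H
        have e1 : (g • H).1 ≤ (Q : Subgroup G) ↔ H.1 ≤ (Q : Subgroup G) :=
          conj_smul_le_iff_of_mem g.2
        have e2 : (g • H).1 ≤ M ↔ H.1 ≤ M := by
          show MulAut.conj (g : G) • H.1 ≤ M ↔ H.1 ≤ M
          rw [Subgroup.pointwise_smul_subset_iff, ← map_inv,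
            hMinv _ ((Q : Subgroup G).inv_mem g.2)]
        have e3 := index_stabilizer_smul g H
        have e4 : c3 (g • H) ↔ c3 H := by
          show ((g • H).1 ≤ (Q : Subgroup G) ∧ ¬ (g • H).1 ≤ M ∧
            (MulAction.stabilizer (Q : Subgroup G) (g • H)).index ≠ 1) ↔ _
          rw [e1, e2, e3]
        by_cases h : c3 H
        · rw [if_pos h, if_pos (e4.mpr h)]
        · rw [if_neg h, if_neg (fun h' => h (e4.mp h'))]
      · intro H
        by_cases h : c3 H
        · rw [if_pos h, mul_one]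
          exact dvd_index_of_ne_one Q.isPGroup' _ h.2.2
        · rw [if_neg h, mul_zero]
          exact dvd_zero p
    rw [← sum_indicator_eq_card]
    obtain ⟨t, ht⟩ := hs3
    rw [hsum, ht] at hs1
    have h6 : 1 + ∑ H : OrdSub G (p ^ a), (if hallRel P Q H then 1 else 0) ≡ 1 + 0 [MOD p] := by
      have h7 : ∑ H : OrdSub G (p ^ a), (if c2 H then 1 else 0) +
          ∑ H : OrdSub G (p ^ a), (if hallRel P Q H then 1 else 0) + p * t ≡
          1 + ∑ H : OrdSub G (p ^ a), (if hallRel P Q H then 1 else 0) [MOD p] := by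
        have h8 : p * t ≡ 0 [MOD p] := Nat.modEq_zero_iff_dvd.mpr (Dvd.intro t rfl)
        simpa using (hs2.add_right _).add h8
      exact h7.symm.trans hs1
    exact Nat.modEq_zero_iff_dvd.mp (Nat.ModEq.add_left_cancel' 1 h6)
  · haveI : IsEmpty {H : OrdSub G (p ^ a) // hallRel P Q H} := ⟨fun H => hcard H.2.2.2.2⟩
    rw [Nat.card_of_isEmpty]
    exact dvd_zero p

/-- **Hall's reduction**: modulo `p ^ 2`, the number of subgroups of order `p ^ a` of `G` equals
the number of those contained in a fixed Sylow `p`-subgroup, provided `p ^ (a + 1) ∣ |G|`. -/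
theorem card_ordSub_modEq_sylow [Finite G] {p : ℕ} [Fact p.Prime] (P : Sylow p G) (a : ℕ)
    (ha : p ^ (a + 1) ∣ Nat.card G) :
    Nat.card (OrdSub G (p ^ a)) ≡ Nat.card (OrdSub (P : Subgroup G) (p ^ a)) [MOD p ^ 2] := by
  classical
  have hp : p.Prime := Fact.out
  haveI : Fintype (OrdSub G (p ^ a)) := Fintype.ofFinite _
  haveI : Fintype (Sylow p G) := Fintype.ofFinite _
  have hPcard := P.card_eq_multiplicity
  let idx : OrdSub G (p ^ a) → ℕ := fun H => (MulAction.stabilizer (P : Subgroup G) H).index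
  let cA : OrdSub G (p ^ a) → Prop := fun H => H.1 ≤ (P : Subgroup G)
  let cB : OrdSub G (p ^ a) → Prop := fun H => ¬ H.1 ≤ (P : Subgroup G) ∧ idx H = p
  let cC : OrdSub G (p ^ a) → Prop := fun H => ¬ H.1 ≤ (P : Subgroup G) ∧ p ^ 2 ∣ idx H
  have hpoint : ∀ H : OrdSub G (p ^ a), (1 : ℕ) =
      (if cA H then 1 else 0) + (if cB H then 1 else 0) + (if cC H then 1 else 0) := by
    intro H
    by_cases hA : H.1 ≤ (P : Subgroup G)
    · have hB : ¬ cB H := fun h => h.1 hA
      have hC : ¬ cC H := fun h => h.1 hA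
      rw [if_pos (show cA H from hA), if_neg hB, if_neg hC]
    · have hne : idx H ≠ 1 := stabilizer_ne_top_of_not_le P H hA
      have hdvd : idx H ∣ p ^ (Nat.card G).factorization p :=
        hPcard ▸ Subgroup.index_dvd_card (MulAction.stabilizer (P : Subgroup G) H)
      obtain ⟨j, _, hj⟩ := (Nat.dvd_prime_pow hp).mp hdvd
      by_cases hj1 : j = 1
      · have hidx : idx H = p := by rw [hj, hj1, pow_one]
        have hB : cB H := ⟨hA, hidx⟩
        have hC : ¬ cC H := by
          rintro ⟨_, h⟩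
          rw [hidx] at h
          have h1 : p ^ 2 ≤ p := Nat.le_of_dvd hp.pos h
          have h2 := hp.two_le
          nlinarith
        rw [if_neg (show ¬ cA H from hA), if_pos hB, if_neg hC]
      · have hj2 : 2 ≤ j := by
          rcases Nat.lt_or_ge j 2 with h | h
          · exfalso
            have h0 : j = 0 := by omega
            apply hne
            rw [hj, h0, pow_zero]
          · exact h
        have hC : cC H := ⟨hA, by
          show p ^ 2 ∣ idx H
          rw [hj]; exact pow_dvd_pow p hj2⟩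
        have hB : ¬ cB H := by
          rintro ⟨_, h⟩
          have h1 : p ^ j = p ^ 1 := by rw [← hj, h, pow_one]
          have h2 := Nat.pow_right_injective hp.two_le h1
          omega
        rw [if_neg (show ¬ cA H from hA), if_neg hB, if_pos hC]
  have hX : Nat.card (OrdSub G (p ^ a)) =
      ∑ H : OrdSub G (p ^ a), (if cA H then 1 else 0) +
        ∑ H : OrdSub G (p ^ a), (if cB H then 1 else 0) +
        ∑ H : OrdSub G (p ^ a), (if cC H then 1 else 0) := by
    rw [← Finset.sum_add_distrib, ← Finset.sum_add_distrib,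
      ← Finset.sum_congr rfl (fun H _ => hpoint H), Finset.sum_const, Finset.card_univ,
      Nat.card_eq_fintype_card, smul_eq_mul, mul_one]
  have hA : ∑ H : OrdSub G (p ^ a), (if cA H then 1 else 0) =
      Nat.card (OrdSub (P : Subgroup G) (p ^ a)) := by
    rw [sum_indicator_eq_card]
    exact (Nat.card_congr (ordSubEquiv (P : Subgroup G) (p ^ a))).symm
  have hC : p ^ 2 ∣ ∑ H : OrdSub G (p ^ a), (if cC H then 1 else 0) := by
    apply dvd_sum_of_invariant (P := (P : Subgroup G))
    · intro g H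
      have e1 : (g • H).1 ≤ (P : Subgroup G) ↔ H.1 ≤ (P : Subgroup G) :=
        conj_smul_le_iff_of_mem g.2
      have e3 : idx (g • H) = idx H := index_stabilizer_smul g H
      have e4 : cC (g • H) ↔ cC H := by
        show (¬ (g • H).1 ≤ (P : Subgroup G) ∧ p ^ 2 ∣ idx (g • H)) ↔ _
        rw [e1, e3]
      by_cases h : cC H
      · rw [if_pos h, if_pos (e4.mpr h)]
      · rw [if_neg h, if_neg (fun h' => h (e4.mp h'))]
    · intro H
      by_cases h : cC H
      · rw [if_pos h, mul_one]; exact h.2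
      · rw [if_neg h, mul_zero]; exact dvd_zero _
  have hB : p ^ 2 ∣ ∑ H : OrdSub G (p ^ a), (if cB H then 1 else 0) := by
    have h1 : ∑ H : OrdSub G (p ^ a), (if cB H then 1 else 0) =
        ∑ H : OrdSub G (p ^ a), Nat.card {Q : Sylow p G // hallRel P Q H} :=
      Finset.sum_congr rfl (fun H _ => (card_hallRel_fst P H).symm)
    rw [h1, sum_card_comm (fun (H : OrdSub G (p ^ a)) (Q : Sylow p G) => hallRel P Q H)]
    apply dvd_sum_of_invariant (P := (P : Subgroup G))
    · intro g Q
      exact Nat.card_congr (Equiv.subtypeEquiv (MulAction.toPerm (g⁻¹ : (P : Subgroup G)))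
        (fun H => by
          have h2 := hallRel_smul_iff P Q (g⁻¹ • H) g
          rw [smul_inv_smul] at h2
          exact h2))
    · intro Q
      by_cases hQP : Q = P
      · haveI : IsEmpty {H : OrdSub G (p ^ a) // hallRel P Q H} :=
          ⟨fun H => H.2.2.2.1 (hQP ▸ H.2.1)⟩
        rw [Nat.card_of_isEmpty, mul_zero]
        exact dvd_zero _
      · have hne : (MulAction.stabilizer (P : Subgroup G) Q).index ≠ 1 := by
          intro h
          apply hQP
          have hPN : (P : Subgroup G) ≤ Subgroup.normalizer ((Q : Subgroup G) : Set G) := by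
            intro g hg
            have h1 : (⟨g, hg⟩ : (P : Subgroup G)) ∈ MulAction.stabilizer (P : Subgroup G) Q := by
              rw [Subgroup.index_eq_one.mp h]; exact Subgroup.mem_top _
            have h2 : g • Q = Q := MulAction.mem_stabilizer_iff.mp h1
            exact Sylow.smul_eq_iff_mem_normalizer.mp h2
          have h3 : IsPGroup p ((Q : Subgroup G) ⊔ (P : Subgroup G) : Subgroup G) :=
            IsPGroup.to_sup_of_normal_left' Q.isPGroup' P.isPGroup' hPN
          have h4 := Q.is_maximal' h3 le_sup_left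
          have h5 : (P : Subgroup G) ≤ Q := by rw [← h4]; exact le_sup_right
          have h6 := P.is_maximal' Q.isPGroup' h5
          exact Sylow.ext h6
        rw [sq]
        exact Nat.mul_dvd_mul (dvd_index_of_ne_one P.isPGroup' _ hne) (hallRel_card_dvd P Q a ha)
  rw [hX, hA]
  obtain ⟨u, hu⟩ := hB
  obtain ⟨v, hv⟩ := hC
  rw [hu, hv]
  have h9 : Nat.card (OrdSub (P : Subgroup G) (p ^ a)) + p ^ 2 * u + p ^ 2 * v =
      Nat.card (OrdSub (P : Subgroup G) (p ^ a)) + p ^ 2 * (u + v) := by ring
  rw [h9]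
  exact Nat.add_mul_mod_self_left _ _ _

end HallReduction

end Cfsg.Agent.Lib.Helper69
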