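import Mathlib
import Cfsg.Agent.S4304

set_option autoImplicit false

namespace Cfsg.Agent.Lib.Helper69.Syl22

open Subgroup MulAction
open scoped Pointwise
open Cfsg.Agent.S4304 (mem_smul_sylow sylow_card_eq sylow_eq_of_le)

section LinearSpace
variable {G : Type*} [Group G] [Finite G] [Fact (Nat.Prime 3)]

/-- adjacency of Sylow 3-subgroups: the intersection has index 3 -/
def Adj (S T : Sylow 3 G) : Prop := (T : Subgroup G).relIndex S = 3

theorem stab_eq (S T : Sylow 3 G) :
    stabilizer (S : Subgroup G) T = (T : Subgroup G).subgroupOf S := by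
  ext u
  rw [mem_stabilizer_iff, Subgroup.mem_subgroupOf, Subgroup.smul_def,
    Sylow.smul_eq_iff_mem_normalizer]
  constructor
  · intro h
    have h1 : (u : G) ∈ (S : Subgroup G) ⊓ normalizer (T : Set G) := ⟨u.2, h⟩
    rw [S.isPGroup'.inf_normalizer_sylow T] at h1
    exact h1.2
  · intro h
    exact Subgroup.le_normalizer h

theorem orbit_ncard (S T : Sylow 3 G) :
    (orbit (S : Subgroup G) T).ncard = (T : Subgroup G).relIndex S := by
  have hidx := MulAction.index_stabilizer (S : Subgroup G) T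
  rw [stab_eq] at hidx
  exact hidx.symm

theorem relIndex_pow (S T : Sylow 3 G) : ∃ n : ℕ, (T : Subgroup G).relIndex S = 3 ^ n := by
  obtain ⟨n, hn⟩ := S.isPGroup'.card_orbit T
  rw [Nat.card_coe_set_eq, orbit_ncard] at hn
  exact ⟨n, hn⟩

theorem card_inf_mul (S T : Sylow 3 G) :
    Nat.card ((S : Subgroup G) ⊓ T : Subgroup G) * (T : Subgroup G).relIndex S = Nat.card S := by
  have h2 := Subgroup.relIndex_mul_relIndex ⊥ ((S : Subgroup G) ⊓ T) (S : Subgroup G) bot_le
    inf_le_left
  rw [Subgroup.relIndex_bot_left, Subgroup.relIndex_bot_left, Subgroup.inf_relIndex_left] at h2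
  exact h2

theorem relIndex_eq_one_iff (S T : Sylow 3 G) : (T : Subgroup G).relIndex S = 1 ↔ S = T := by
  rw [Subgroup.relIndex_eq_one]
  constructor
  · intro h; exact sylow_eq_of_le h
  · rintro rfl; exact le_rfl

theorem Adj.ne {S T : Sylow 3 G} (h : Adj S T) : S ≠ T := by
  intro e
  have := (relIndex_eq_one_iff S T).mpr e
  unfold Adj at h
  omega

theorem Adj.card {S T : Sylow 3 G} (h : Adj S T) :
    Nat.card ((S : Subgroup G) ⊓ T : Subgroup G) * 3 = Nat.card S := by
  have := card_inf_mul S T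
  rwa [h] at this

theorem adj_of_card {S T : Sylow 3 G}
    (h : Nat.card ((S : Subgroup G) ⊓ T : Subgroup G) * 3 = Nat.card S) : Adj S T := by
  have h1 := card_inf_mul S T
  have hpos : 0 < Nat.card ((S : Subgroup G) ⊓ T : Subgroup G) := Nat.card_pos
  unfold Adj
  have : Nat.card ((S : Subgroup G) ⊓ T : Subgroup G) * (T : Subgroup G).relIndex S =
      Nat.card ((S : Subgroup G) ⊓ T : Subgroup G) * 3 := by rw [h1, h]
  exact Nat.eq_of_mul_eq_mul_left hpos this

theorem Adj.symm {S T : Sylow 3 G} (h : Adj S T) : Adj T S := by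
  apply adj_of_card
  rw [inf_comm, h.card]
  exact sylow_card_eq S T

theorem nine_dvd_of_not_adj {S T : Sylow 3 G} (hne : S ≠ T) (h : ¬ Adj S T) :
    9 ∣ (T : Subgroup G).relIndex S := by
  obtain ⟨n, hn⟩ := relIndex_pow S T
  have h1 : (T : Subgroup G).relIndex S ≠ 1 := fun e => hne ((relIndex_eq_one_iff S T).mp e)
  rw [hn] at h1 ⊢
  unfold Adj at h
  rw [hn] at h
  rcases n with _ | _ | n
  · simp at h1
  · simp at h
  · exact ⟨3 ^ n, by ring⟩

/-- the orbit of `T` under `S` lies on the line through `S` and `T` -/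
theorem orbit_subset_line {S T : Sylow 3 G} (h : Adj S T) :
    ∀ U ∈ orbit (S : Subgroup G) T, (S : Subgroup G) ⊓ T ≤ U := by
  have hcardS := h.card
  have hnorm : (((S : Subgroup G) ⊓ T).subgroupOf S).Normal := by
    apply Subgroup.normal_of_index_eq_minFac_card
    change ((S : Subgroup G) ⊓ T).relIndex S = _
    rw [Subgroup.inf_relIndex_left, h]
    obtain ⟨k, hk⟩ := S.isPGroup'.exists_card_eq
    have hk0 : k ≠ 0 := by
      rintro rfl
      rw [pow_zero] at hk
      omega
    rw [hk, Nat.Prime.pow_minFac (by norm_num) hk0]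
  rintro U ⟨u, rfl⟩
  intro d hd
  change d ∈ ((u • T : Sylow 3 G))
  rw [Subgroup.smul_def, mem_smul_sylow]
  have hdS : d ∈ (S : Subgroup G) := hd.1
  have := hnorm.conj_mem ⟨d, hdS⟩ (by rw [Subgroup.mem_subgroupOf]; exact hd) u⁻¹
  rw [Subgroup.mem_subgroupOf] at this
  have h2 := this.2
  simpa using h2

/-- two distinct Sylow subgroups on the line through `S` and `T` meet in `S ⊓ T` -/
theorem line_inter {S T U V : Sylow 3 G} (h : Adj S T) (hUV : U ≠ V)
    (hU : (S : Subgroup G) ⊓ T ≤ U) (hV : (S : Subgroup G) ⊓ T ≤ V) :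
    (U : Subgroup G) ⊓ V = (S : Subgroup G) ⊓ T := by
  symm
  apply Subgroup.eq_of_le_of_card_ge (le_inf hU hV)
  have h1 := h.card
  have h3 : Nat.card (S : Subgroup G) = Nat.card (U : Subgroup G) := sylow_card_eq S U
  have h4 : Nat.card ((S : Subgroup G) ⊓ T : Subgroup G) ∣
      Nat.card ((U : Subgroup G) ⊓ V : Subgroup G) := Subgroup.card_dvd_of_le (le_inf hU hV)
  have h5 := card_inf_mul U V
  have h6 : (V : Subgroup G).relIndex U ≠ 1 := fun e => hUV ((relIndex_eq_one_iff U V).mp e)
  obtain ⟨n, hn⟩ := relIndex_pow U V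
  have hpos : 0 < Nat.card ((S : Subgroup G) ⊓ T : Subgroup G) := Nat.card_pos
  obtain ⟨k, hk⟩ := h4
  rw [hn] at h5 h6
  rcases n with _ | n
  · simp at h6
  · rw [hk]
    have h7 : Nat.card ((S : Subgroup G) ⊓ T : Subgroup G) * k * 3 ^ (n + 1) =
        Nat.card ((S : Subgroup G) ⊓ T : Subgroup G) * 3 := by
      rw [← hk, h5, ← h3, h1]
    have h8 : k * 3 ^ (n + 1) = 3 := by
      have : Nat.card ((S : Subgroup G) ⊓ T : Subgroup G) * (k * 3 ^ (n + 1)) =
          Nat.card ((S : Subgroup G) ⊓ T : Subgroup G) * 3 := by rw [← mul_assoc]; exact h7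
      exact Nat.eq_of_mul_eq_mul_left hpos this
    have h9 : k ≤ 1 := by
      by_contra hk2
      have : 3 ≤ 3 ^ (n + 1) := by
        calc 3 = 3 ^ 1 := by norm_num
          _ ≤ 3 ^ (n + 1) := Nat.pow_le_pow_right (by norm_num) (by omega)
      nlinarith
    nlinarith

theorem line_adj {S T U V : Sylow 3 G} (h : Adj S T) (hUV : U ≠ V)
    (hU : (S : Subgroup G) ⊓ T ≤ U) (hV : (S : Subgroup G) ⊓ T ≤ V) : Adj U V := by
  apply adj_of_card
  rw [line_inter h hUV hU hV, h.card]
  exact sylow_card_eq S U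

/-- key local lemma: a neighbour `U` of `T` off the line through `S`, `T` is not adjacent
to `S` -/
theorem not_adj_of_off_line {S T U : Sylow 3 G} (hST : Adj S T) (hTU : Adj T U)
    (hoff : ¬ (S : Subgroup G) ⊓ T ≤ U) : ¬ Adj S U := by
  intro hSU
  set D : Subgroup G := (S : Subgroup G) ⊓ T with hD
  have hT3 : (orbit (T : Subgroup G) U).ncard = 3 := by rw [orbit_ncard]; exact hTU
  have hS3 : (orbit (S : Subgroup G) U).ncard = 3 := by rw [orbit_ncard]; exact hSU
  have hDp : IsPGroup 3 D := S.isPGroup'.to_le inf_le_left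
  have hsubT : orbit D U ⊆ orbit (T : Subgroup G) U := by
    rintro V ⟨d, rfl⟩
    exact ⟨⟨d.1, d.2.2⟩, rfl⟩
  have hsubS : orbit D U ⊆ orbit (S : Subgroup G) U := by
    rintro V ⟨d, rfl⟩
    exact ⟨⟨d.1, d.2.1⟩, rfl⟩
  obtain ⟨n, hn⟩ := hDp.card_orbit U
  rw [Nat.card_coe_set_eq] at hn
  have hn0 : n ≠ 0 := by
    rintro rfl
    rw [pow_zero] at hn
    apply hoff
    have hfix : ∀ d ∈ D, d ∈ normalizer (U : Set G) := by
      intro d hd
      rw [← Sylow.smul_eq_iff_mem_normalizer]
      have hmem : ((⟨d, hd⟩ : D) • U) ∈ orbit D U := ⟨⟨d, hd⟩, rfl⟩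
      obtain ⟨a, ha⟩ := Set.ncard_eq_one.mp hn
      rw [ha] at hmem
      have hU : U ∈ orbit D U := mem_orbit_self U
      rw [ha] at hU
      rw [Set.mem_singleton_iff] at hmem hU
      exact hmem.trans hU.symm
    have h1 : D ≤ D ⊓ normalizer (U : Set G) := le_inf le_rfl hfix
    rw [hDp.inf_normalizer_sylow U] at h1
    exact h1.trans inf_le_right
  have hD3 : 3 ≤ (orbit D U).ncard := by
    rw [hn]
    calc 3 = 3 ^ 1 := by norm_num
      _ ≤ 3 ^ n := Nat.pow_le_pow_right (by norm_num) (by omega)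
  have e1 : orbit D U = orbit (T : Subgroup G) U :=
    Set.eq_of_subset_of_ncard_le hsubT (by rw [hT3]; exact hD3) (Set.toFinite _)
  have e2 : orbit D U = orbit (S : Subgroup G) U :=
    Set.eq_of_subset_of_ncard_le hsubS (by rw [hS3]; exact hD3) (Set.toFinite _)
  obtain ⟨U₂, hU₂, hne⟩ := Set.exists_ne_of_one_lt_ncard (by rw [hT3]; norm_num) U
  have hU₂S : U₂ ∈ orbit (S : Subgroup G) U := by rw [← e2, e1]; exact hU₂
  have i1 := line_inter hTU hne.symm inf_le_right (orbit_subset_line hTU U₂ hU₂)
  have i2 := line_inter hSU hne.symm inf_le_right (orbit_subset_line hSU U₂ hU₂S)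
  have e3 : (T : Subgroup G) ⊓ U = (S : Subgroup G) ⊓ U := by rw [← i1, i2]
  have hle : (T : Subgroup G) ⊓ U ≤ (S : Subgroup G) ⊓ T := by
    intro x hx
    have hx' : x ∈ (S : Subgroup G) ⊓ U := e3 ▸ hx
    exact ⟨hx'.1, hx.1⟩
  have e4 : (T : Subgroup G) ⊓ U = (S : Subgroup G) ⊓ T := by
    apply Subgroup.eq_of_le_of_card_ge hle
    have c1 := hTU.card
    have c2 := hST.card
    have c3 : Nat.card (S : Subgroup G) = Nat.card (T : Subgroup G) := sylow_card_eq S T
    omega
  apply hoff
  rw [hD, ← e4]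
  exact inf_le_right

theorem adj_smul (g : G) (S T : Sylow 3 G) : Adj (g • S) (g • T) ↔ Adj S T := by
  have hc : Nat.card (((g • S : Sylow 3 G) : Subgroup G) ⊓ ((g • T : Sylow 3 G) : Subgroup G) :
      Subgroup G) = Nat.card ((S : Subgroup G) ⊓ T : Subgroup G) := by
    rw [Sylow.coe_subgroup_smul, Sylow.coe_subgroup_smul, ← smul_inf]
    exact Nat.card_congr (Subgroup.equivSMul (MulAut.conj g) _).toEquiv.symm
  have hs : Nat.card ((g • S : Sylow 3 G) : Subgroup G) = Nat.card (S : Subgroup G) :=
    sylow_card_eq _ _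
  constructor
  · intro h
    apply adj_of_card
    have := h.card
    rw [hc, hs] at this
    exact this
  · intro h
    apply adj_of_card
    rw [hc, hs]
    exact h.card

/-- weighted orbit counting -/
theorem dvd_sum_of_inv {P Y : Type*} [Group P] [Finite P] [MulAction P Y] [Fintype Y]
    (f : Y → ℕ) (hf : ∀ (g : P) (y : Y), f (g • y) = f y) (d : ℕ)
    (hd : ∀ y, d ∣ (MulAction.stabilizer P y).index * f y) : d ∣ ∑ y, f y := by
  classical
  let e := MulAction.selfEquivSigmaOrbits P Y
  haveI : Fintype (MulAction.orbitRel.Quotient P Y) := Fintype.ofFinite _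
  haveI : ∀ ω : MulAction.orbitRel.Quotient P Y, Fintype (MulAction.orbit P ω.out) :=
    fun ω => Fintype.ofFinite _
  have h1 : ∑ y, f y =
      ∑ x : (Σ ω : MulAction.orbitRel.Quotient P Y, MulAction.orbit P ω.out), f (e.symm x) :=
    (Equiv.sum_comp e.symm f).symm
  rw [h1, Fintype.sum_sigma]
  apply Finset.dvd_sum
  intro ω _
  have h2 : ∀ y : MulAction.orbit P ω.out, f (e.symm ⟨ω, y⟩) = f ω.out := by
    intro y
    have h3 : e.symm ⟨ω, y⟩ = y.1 := rfl
    rw [h3]
    obtain ⟨g, hg⟩ := y.2
    rw [← hg]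
    exact hf g _
  rw [Finset.sum_congr rfl (fun y _ => h2 y), Finset.sum_const, Finset.card_univ, smul_eq_mul]
  have h4 : Fintype.card (MulAction.orbit P ω.out) = (MulAction.stabilizer P ω.out).index := by
    rw [MulAction.index_stabilizer, ← Nat.card_coe_set_eq, Nat.card_eq_fintype_card]
  rw [h4]
  exact hd _

end LinearSpace

section Count
variable {G : Type*} [Group G] [Finite G] [Fact (Nat.Prime 3)]

set_option warn.classDefReducibility false

/-- a `Fintype` structure on the set of Sylow subgroups -/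
noncomputable def sylFintype : Fintype (Sylow 3 G) := Fintype.ofFinite _

attribute [local instance] sylFintype

open Classical in
/-- the neighbours of `S` -/
noncomputable def nbr (S : Sylow 3 G) : Finset (Sylow 3 G) := Finset.univ.filter (fun T => Adj S T)

open Classical in
/-- the Sylow subgroups different from `S` and not adjacent to it -/
noncomputable def far (S : Sylow 3 G) : Finset (Sylow 3 G) :=
  Finset.univ.filter (fun T => T ≠ S ∧ ¬ Adj S T)

open Classical in
/-- the line through `S` and `T` -/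
noncomputable def line (S T : Sylow 3 G) : Finset (Sylow 3 G) :=
  Finset.univ.filter (fun U => (S : Subgroup G) ⊓ T ≤ U)

theorem mem_nbr {S T : Sylow 3 G} : T ∈ nbr S ↔ Adj S T := by simp [nbr]

theorem mem_far {S T : Sylow 3 G} : T ∈ far S ↔ T ≠ S ∧ ¬ Adj S T := by simp [far]

theorem mem_line {S T U : Sylow 3 G} : U ∈ line S T ↔ (S : Subgroup G) ⊓ T ≤ U := by simp [line]

theorem card_univ22 (hn : Nat.card (Sylow 3 G) = 22) :
    (Finset.univ : Finset (Sylow 3 G)).card = 22 := by
  rw [Finset.card_univ, ← Nat.card_eq_fintype_card, hn]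

theorem card_far (hn : Nat.card (Sylow 3 G) = 22) (S : Sylow 3 G) :
    (far S).card + (nbr S).card = 21 := by
  classical
  have h1 : far S = (Finset.univ.erase S) \ nbr S := by
    ext T
    simp [mem_far, mem_nbr]
  have h2 : nbr S ⊆ Finset.univ.erase S := by
    intro T hT
    rw [Finset.mem_erase]
    exact ⟨(mem_nbr.mp hT).ne.symm, Finset.mem_univ _⟩
  rw [h1, Finset.card_sdiff_add_card_eq_card h2, Finset.card_erase_of_mem (Finset.mem_univ _),
    card_univ22 hn]

theorem nine_dvd_far (S : Sylow 3 G) : 9 ∣ (far S).card := by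
  classical
  have key := dvd_sum_of_inv (P := (S : Subgroup G)) (Y := Sylow 3 G)
    (fun y => if (y ≠ S ∧ ¬ Adj S y) then 1 else 0) ?_ 9 ?_
  · rw [far, Finset.card_filter]
    exact key
  · intro g y
    have hgS : (g : G) • S = S := by
      rw [Sylow.smul_eq_iff_mem_normalizer]
      exact Subgroup.le_normalizer g.2
    have h1 : (g • y = S) ↔ y = S := by
      constructor
      · intro h
        have h' : (g : G) • y = S := h
        have : y = (g : G)⁻¹ • S := eq_inv_smul_iff.mpr h'
        rw [this]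
        exact inv_smul_eq_iff.mpr hgS.symm
      · rintro rfl
        exact hgS
    have h2 : Adj S (g • y) ↔ Adj S y := by
      have := adj_smul (g : G) S y
      rw [hgS] at this
      exact this
    simp only [ne_eq, h1, h2]
  · intro y
    by_cases h : y ≠ S ∧ ¬ Adj S y
    · rw [if_pos h, mul_one, stab_eq]
      exact nine_dvd_of_not_adj h.1.symm h.2
    · rw [if_neg h, mul_zero]
      exact dvd_zero _

theorem card_nbr_eq (S S' : Sylow 3 G) : (nbr S).card = (nbr S').card := by
  obtain ⟨g, rfl⟩ := MulAction.exists_smul_eq G S S'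
  apply Finset.card_bij (fun T _ => g • T)
  · intro T hT
    rw [mem_nbr] at hT ⊢
    exact (adj_smul g S T).mpr hT
  · intro T _ T' _ h
    exact MulAction.injective g h
  · intro T' hT'
    refine ⟨g⁻¹ • T', ?_, by simp⟩
    rw [mem_nbr] at hT' ⊢
    rw [← adj_smul g]
    simpa using hT'

theorem nbr_card_cases (hn : Nat.card (Sylow 3 G) = 22) (S : Sylow 3 G) :
    (nbr S).card = 3 ∨ (nbr S).card = 12 ∨ (nbr S).card = 21 := by
  have h1 := card_far hn S
  obtain ⟨k, hk⟩ := nine_dvd_far S
  omega

theorem arith_line (m v f : ℕ) (hm4 : 4 ≤ m) (hmle : m ≤ v + 1) (hfar : f + v = 21)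
    (hvc : v = 3 ∨ v = 12 ∨ v = 21) (hle : (m - 1) * (v - (m - 1)) ≤ f) : m = v + 1 := by
  rcases hvc with rfl | rfl | rfl
  · omega
  · have hf : f = 9 := by omega
    subst hf
    have : m ≤ 13 := hmle
    interval_cases m <;> omega
  · have hf : f = 0 := by omega
    subst hf
    have : m ≤ 22 := hmle
    interval_cases m <;> omega

open Classical in
theorem line_eq (hn : Nat.card (Sylow 3 G) = 22) {S T : Sylow 3 G} (h : Adj S T) :
    line S T = insert S (nbr S) := by
  classical
  set ℓ := line S T with hℓ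
  set v := (nbr S).card with hv
  set m := ℓ.card with hm
  have hSℓ : S ∈ ℓ := mem_line.mpr inf_le_left
  have hsub : ℓ ⊆ insert S (nbr S) := by
    intro U hU
    by_cases hUS : U = S
    · rw [hUS]; exact Finset.mem_insert_self _ _
    · apply Finset.mem_insert_of_mem
      rw [mem_nbr]
      exact line_adj h (Ne.symm hUS) inf_le_left (mem_line.mp hU)
  have hSn : S ∉ nbr S := fun hS => (mem_nbr.mp hS).ne rfl
  have hins : (insert S (nbr S)).card = v + 1 := Finset.card_insert_of_notMem hSn
  have hmle : m ≤ v + 1 := by rw [← hins]; exact Finset.card_le_card hsub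
  -- at least four points on the line
  have hm4 : 4 ≤ m := by
    have hnot : S ∉ orbit (S : Subgroup G) T := by
      rintro ⟨u, hu⟩
      apply h.ne
      have h1 : (u : G) • T = S := hu
      have h2 : T = (u : G)⁻¹ • S := eq_inv_smul_iff.mpr h1
      rw [h2]
      symm
      rw [Sylow.smul_eq_iff_mem_normalizer]
      exact Subgroup.le_normalizer (inv_mem u.2)
    have h3 : (orbit (S : Subgroup G) T).ncard = 3 := by rw [orbit_ncard]; exact h
    have h4 : insert S (orbit (S : Subgroup G) T) ⊆ (ℓ : Set (Sylow 3 G)) := by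
      intro U hU
      rcases hU with rfl | hU
      · exact hSℓ
      · exact mem_line.mpr (orbit_subset_line h U hU)
    have h5 := Set.ncard_le_ncard h4 (Finset.finite_toSet ℓ)
    rw [Set.ncard_insert_of_notMem hnot (Set.toFinite _), h3, Set.ncard_coe_finset] at h5
    exact h5
  have hvc := nbr_card_cases hn S
  have hfar := card_far hn S
  -- the sets of off-line neighbours
  have hMcard : ∀ U ∈ ℓ.erase S, (nbr U \ ℓ).card = v - (m - 1) := by
    intro U hU
    have hUℓ : U ∈ ℓ := Finset.mem_of_mem_erase hU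
    have h1 : ℓ ∩ nbr U = ℓ.erase U := by
      ext V
      rw [Finset.mem_inter, Finset.mem_erase, mem_nbr]
      constructor
      · rintro ⟨hV, hadj⟩
        exact ⟨hadj.ne.symm, hV⟩
      · rintro ⟨hne, hV⟩
        exact ⟨hV, line_adj h (Ne.symm hne) (mem_line.mp hUℓ) (mem_line.mp hV)⟩
    rw [Finset.card_sdiff, h1, Finset.card_erase_of_mem hUℓ, card_nbr_eq U S]
  have hMsub : ∀ U ∈ ℓ.erase S, nbr U \ ℓ ⊆ far S := by
    intro U hU W hW
    have hUℓ : U ∈ ℓ := Finset.mem_of_mem_erase hU
    have hUS : U ≠ S := Finset.ne_of_mem_erase hU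
    rw [Finset.mem_sdiff, mem_nbr] at hW
    have hSU : Adj S U := line_adj h (Ne.symm hUS) inf_le_left (mem_line.mp hUℓ)
    have hi : (S : Subgroup G) ⊓ U = (S : Subgroup G) ⊓ T :=
      line_inter h (Ne.symm hUS) inf_le_left (mem_line.mp hUℓ)
    have hoff : ¬ (S : Subgroup G) ⊓ U ≤ W := by
      rw [hi]; exact fun hc => hW.2 (mem_line.mpr hc)
    rw [mem_far]
    refine ⟨?_, not_adj_of_off_line hSU hW.1 hoff⟩
    rintro rfl
    exact hW.2 hSℓ
  have hdisj : ((ℓ.erase S : Finset (Sylow 3 G)) : Set (Sylow 3 G)).PairwiseDisjoint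
      (fun U => nbr U \ ℓ) := by
    intro U hU U' hU' hne
    have hUℓ : U ∈ ℓ := Finset.mem_of_mem_erase (Finset.mem_coe.mp hU)
    have hU'ℓ : U' ∈ ℓ := Finset.mem_of_mem_erase (Finset.mem_coe.mp hU')
    change Disjoint (nbr U \ ℓ) (nbr U' \ ℓ)
    rw [Finset.disjoint_left]
    intro W hW hW'
    rw [Finset.mem_sdiff, mem_nbr] at hW hW'
    have hU'U : Adj U' U := line_adj h (Ne.symm hne) (mem_line.mp hU'ℓ) (mem_line.mp hUℓ)
    have hi : (U' : Subgroup G) ⊓ U = (S : Subgroup G) ⊓ T :=
      line_inter h (Ne.symm hne) (mem_line.mp hU'ℓ) (mem_line.mp hUℓ)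
    have hoff : ¬ (U' : Subgroup G) ⊓ U ≤ W := by
      rw [hi]; exact fun hc => hW.2 (mem_line.mpr hc)
    exact not_adj_of_off_line hU'U hW.1 hoff hW'.1
  have hbi := Finset.card_biUnion hdisj
  rw [Finset.sum_congr rfl hMcard, Finset.sum_const, smul_eq_mul,
    Finset.card_erase_of_mem hSℓ] at hbi
  have hle : ((ℓ.erase S).biUnion (fun U => nbr U \ ℓ)).card ≤ (far S).card :=
    Finset.card_le_card (Finset.biUnion_subset.mpr hMsub)
  rw [hbi] at hle
  have hmv : m = v + 1 := arith_line m v (far S).card hm4 hmle hfar hvc hle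
  exact Finset.eq_of_subset_of_card_le hsub (by rw [hins]; omega)

/-- **Main result of the linear-space count**: if there are exactly 22 Sylow 3-subgroups,
any two distinct ones are adjacent and their intersection lies in every Sylow 3-subgroup. -/
theorem inter_le_all (hn : Nat.card (Sylow 3 G) = 22) (P Q : Sylow 3 G) (hPQ : P ≠ Q) :
    Adj P Q ∧ ∀ R : Sylow 3 G, (P : Subgroup G) ⊓ Q ≤ R := by
  classical
  have hne : ∀ S : Sylow 3 G, (nbr S).Nonempty := by
    intro S
    rw [← Finset.card_pos]
    rcases nbr_card_cases hn S with h | h | h <;> omega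
  choose nb hnb using hne
  have hadj : ∀ S, Adj S (nb S) := fun S => mem_nbr.mp (hnb S)
  have hv21 : (nbr P).card = 21 := by
    by_contra hv
    set core : Sylow 3 G → Subgroup G := fun S => (S : Subgroup G) ⊓ nb S with hcore
    have hfib : ∀ S : Sylow 3 G,
        Finset.univ.filter (fun U => core U = core S) = insert S (nbr S) := by
      intro S
      rw [← line_eq hn (hadj S)]
      ext U
      rw [Finset.mem_filter, mem_line]
      simp only [Finset.mem_univ, true_and]
      constructor
      · intro h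
        have : core S ≤ U := by rw [← h]; exact inf_le_left
        exact this
      · intro h
        by_cases hUS : U = S
        · rw [hUS]
        · have hSU : Adj S U := line_adj (hadj S) (Ne.symm hUS) inf_le_left h
          have hmem : S ∈ line U (nb U) := by
            rw [line_eq hn (hadj U)]
            exact Finset.mem_insert_of_mem (mem_nbr.mpr hSU.symm)
          have i1 : (U : Subgroup G) ⊓ S = (U : Subgroup G) ⊓ nb U :=
            line_inter (hadj U) hUS inf_le_left (mem_line.mp hmem)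
          have i2 : (S : Subgroup G) ⊓ U = (S : Subgroup G) ⊓ nb S :=
            line_inter (hadj S) (Ne.symm hUS) inf_le_left h
          change (U : Subgroup G) ⊓ nb U = (S : Subgroup G) ⊓ nb S
          rw [← i1, ← i2, inf_comm]
    have hcardfib : ∀ b ∈ Finset.univ.image core,
        (Finset.univ.filter (fun U => core U = b)).card = (nbr P).card + 1 := by
      intro b hb
      obtain ⟨S, -, rfl⟩ := Finset.mem_image.mp hb
      rw [hfib S, Finset.card_insert_of_notMem (fun hS => (mem_nbr.mp hS).ne rfl),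
        card_nbr_eq S P]
    have hsum := Finset.card_eq_sum_card_fiberwise (f := core) (s := Finset.univ)
      (t := Finset.univ.image core) (fun x _ => Finset.mem_coe.mpr (Finset.mem_image_of_mem _ (Finset.mem_coe.mp (Finset.mem_univ x))))
    rw [Finset.sum_congr rfl hcardfib, Finset.sum_const, smul_eq_mul, card_univ22 hn] at hsum
    rcases nbr_card_cases hn P with h | h | h
    · rw [h] at hsum; omega
    · rw [h] at hsum; omega
    · exact hv h
  have hfar : far P = ∅ := by
    rw [← Finset.card_eq_zero]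
    have := card_far hn P
    omega
  have hQ : Adj P Q := by
    by_contra hc
    have : Q ∈ far P := mem_far.mpr ⟨hPQ.symm, hc⟩
    rw [hfar] at this
    simp at this
  refine ⟨hQ, fun R => ?_⟩
  have hline := line_eq hn hQ
  have hall : line P Q = Finset.univ := by
    apply Finset.eq_univ_of_card
    rw [hline, Finset.card_insert_of_notMem (fun hS => (mem_nbr.mp hS).ne rfl), hv21,
      ← Nat.card_eq_fintype_card, hn]
  have hR : R ∈ line P Q := by rw [hall]; exact Finset.mem_univ R
  exact mem_line.mp hR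

end Count

end Cfsg.Agent.Lib.Helper69.Syl22
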