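import Mathlib
import Cfsg.Agent.S4304

set_option autoImplicit false

namespace Cfsg.Agent.Lib.Helper69.Syl22

open Cfsg.Agent.S4304 (comm_apply pow_apply_of_comm)

section Perm
variable {Ω : Type*} [Fintype Ω] [DecidableEq Ω]

/-- the number of fixed points of a permutation -/
def fixCard (Z : Equiv.Perm Ω) : ℕ := (Finset.univ.filter (fun ω => Z ω = ω)).card

theorem fixCard_le (Z : Equiv.Perm Ω) : fixCard Z ≤ Fintype.card Ω := Finset.card_le_univ _

theorem eq_one_of_fixCard (Z : Equiv.Perm Ω) (h : fixCard Z = Fintype.card Ω) : Z = 1 := by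
  have huniv : Finset.univ.filter (fun ω => Z ω = ω) = Finset.univ :=
    Finset.eq_univ_of_card _ h
  ext ω
  have := Finset.mem_univ ω
  rw [← huniv] at this
  simpa using this

theorem fixCard_modEq (p n : ℕ) [Fact p.Prime] (Z : Equiv.Perm Ω) (hZ : Z ^ p ^ n = 1) :
    fixCard Z % p = Fintype.card Ω % p := by
  have h := Equiv.Perm.card_compl_support_modEq (p := p) (n := n) (σ := Z) hZ
  have hs : Z.supportᶜ = Finset.univ.filter (fun ω => Z ω = ω) := by ext ω; simp
  rw [hs] at h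
  exact h

theorem fixCard_modEq' (p : ℕ) [Fact p.Prime] (Z : Equiv.Perm Ω) (hZ : Z ^ p = 1) :
    fixCard Z % p = Fintype.card Ω % p := fixCard_modEq p 1 Z (by simpa using hZ)

/-- common fixed points of two commuting permutations -/
theorem fix_fix_mod (p : ℕ) [Fact p.Prime] (W Z : Equiv.Perm Ω) (hWp : W ^ p = 1)
    (hc : Commute Z W) :
    (Finset.univ.filter (fun ω => Z ω = ω ∧ W ω = ω)).card % p = fixCard Z % p := by
  have h : ∀ ω, Z (W ω) = W ω ↔ Z ω = ω := fun ω => by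
    rw [comm_apply hc]; exact W.injective.eq_iff
  set σ : Equiv.Perm {ω // Z ω = ω} := W.subtypePerm h with hσdef
  have hσ : σ ^ p ^ 1 = 1 := by
    rw [pow_one, hσdef, Equiv.Perm.subtypePerm_pow]
    ext ⟨ω, hω⟩
    simp [hWp]
  have hmod := Equiv.Perm.card_compl_support_modEq (p := p) (n := 1) hσ
  have hs : Finset.univ.filter (fun ω => Z ω = ω ∧ W ω = ω) =
      σ.supportᶜ.map (Function.Embedding.subtype _) := by
    ext ω
    simp only [Finset.mem_filter, Finset.mem_univ, true_and, Finset.mem_map, Finset.mem_compl,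
      Equiv.Perm.mem_support, not_not, Function.Embedding.coe_subtype, Subtype.exists,
      exists_and_right, exists_eq_right]
    constructor
    · rintro ⟨h1, h2⟩
      exact ⟨h1, Subtype.ext h2⟩
    · rintro ⟨h1, h2⟩
      exact ⟨h1, congrArg Subtype.val h2⟩
  rw [hs, Finset.card_map]
  rw [Fintype.card_subtype] at hmod
  exact hmod

omit [Fintype Ω] [DecidableEq Ω] in
theorem fix_of_commute (X Z : Equiv.Perm Ω) (α : Ω) (hfix : ∀ ω, X ω = ω ↔ ω = α)
    (hZX : Commute Z X) : Z α = α := by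
  rw [← hfix, ← comm_apply hZX, (hfix α).mpr rfl]

omit [Fintype Ω] [DecidableEq Ω] in
theorem fix_of_normalizes (X Z : Equiv.Perm Ω) (α : Ω) (hfix : ∀ ω, X ω = ω ↔ ω = α) (k : ℕ)
    (hZX : Z * X * Z⁻¹ = X ^ k) : Z α = α := by
  have h1 : (X ^ k) α = α := Equiv.Perm.pow_apply_eq_self_of_apply_eq_self ((hfix α).mpr rfl) k
  rw [← hZX] at h1
  simp only [Equiv.Perm.mul_apply] at h1
  have h2 : X (Z⁻¹ α) = Z⁻¹ α := by
    apply Z.injective
    rw [h1]; simp
  have h3 : Z⁻¹ α = α := (hfix _).mp h2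
  have h4 := congrArg Z h3
  simpa using h4.symm

/-- if `Z` commutes with `X` of prime order `p` having a unique fixed point then
`|Fix Z| ≡ 1 mod p` -/
theorem fixCard_mod_of_commute (p : ℕ) [Fact p.Prime] (X Z : Equiv.Perm Ω) (α : Ω)
    (hXp : X ^ p = 1) (hfix : ∀ ω, X ω = ω ↔ ω = α) (hZX : Commute Z X) :
    fixCard Z % p = 1 := by
  have h := fix_fix_mod p X Z hXp hZX
  have hs : Finset.univ.filter (fun ω => Z ω = ω ∧ X ω = ω) = {α} := by
    ext ω
    simp only [Finset.mem_filter, Finset.mem_univ, true_and, Finset.mem_singleton, hfix]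
    constructor
    · exact fun h => h.2
    · rintro rfl; exact ⟨fix_of_commute X Z ω hfix hZX, rfl⟩
  rw [hs, Finset.card_singleton] at h
  rw [← h]; exact Nat.mod_eq_of_lt (Fact.out : p.Prime).one_lt

theorem fixCard_mod_of_commute_ff (p : ℕ) [Fact p.Prime] (Y Z : Equiv.Perm Ω) (hYp : Y ^ p = 1)
    (hff : ∀ ω, Y ω ≠ ω) (hZY : Commute Z Y) : fixCard Z % p = 0 := by
  have h := fix_fix_mod p Y Z hYp hZY
  have hs : Finset.univ.filter (fun ω => Z ω = ω ∧ Y ω = ω) = ∅ := by
    ext ω; simp [hff]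
  rw [hs, Finset.card_empty] at h
  rw [← h]; simp

theorem sign_invol (Z : Equiv.Perm Ω) (hZ2 : Z ^ 2 = 1) :
    Equiv.Perm.sign Z = (-1) ^ ((Fintype.card Ω - fixCard Z) / 2) := by
  have hsg := Equiv.Perm.sign_of_pow_two_eq_one hZ2
  have hcf : Fintype.card (Function.fixedPoints Z) = fixCard Z :=
    Fintype.card_of_subtype _ (fun ω => by simp [Function.mem_fixedPoints, Function.IsFixedPt])
  rw [hcf] at hsg
  exact hsg

omit [Fintype Ω] [DecidableEq Ω] in
theorem pow_mod_p (p : ℕ) (X : Equiv.Perm Ω) (hXp : X ^ p = 1) (n : ℕ) :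
    X ^ n = X ^ (n % p) := by
  conv_lhs => rw [← Nat.div_add_mod n p, pow_add, pow_mul, hXp, one_pow, one_mul]

omit [Fintype Ω] [DecidableEq Ω] in
theorem dvd_of_pow_fix (p : ℕ) (hp : p.Prime) (X : Equiv.Perm Ω) (hXp : X ^ p = 1) (ω : Ω)
    (hω : X ω ≠ ω) (d : ℕ) (hd : (X ^ d) ω = ω) : p ∣ d := by
  by_contra h7
  have hr : 0 < d % p := Nat.pos_of_ne_zero (fun h => h7 (Nat.dvd_of_mod_eq_zero h))
  have hrp : d % p < p := Nat.mod_lt _ hp.pos
  have hcop : Nat.Coprime (d % p) p := (Nat.coprime_of_lt_prime hr.ne' hrp hp).symm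
  obtain ⟨m, -, hm⟩ := Nat.exists_mul_mod_eq_one_of_coprime hcop hp.one_lt
  have h1 : (X ^ (d % p)) ω = ω := by rw [← pow_mod_p p X hXp]; exact hd
  have h2 : ((X ^ (d % p)) ^ m) ω = ω := Equiv.Perm.pow_apply_eq_self_of_apply_eq_self h1 m
  rw [← pow_mul, pow_mod_p p X hXp, hm, pow_one] at h2
  exact hω h2

/-- packing: the translates of the non-`X`-fixed fixed points of an element `t` normalizing but
not centralizing `⟨X⟩` are pairwise disjoint -/
theorem fix_packing (p : ℕ) (hp : p.Prime) (X t : Equiv.Perm Ω) (hXp : X ^ p = 1) (k : ℕ)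
    (htX : t * X * t⁻¹ = X ^ k) (hne : X ^ k ≠ X) :
    p * (Finset.univ.filter (fun ω => t ω = ω ∧ X ω ≠ ω)).card ≤
      (Finset.univ.filter (fun ω => X ω ≠ ω)).card := by
  have hrel : ∀ (i : ℕ) (ω : Ω), t ((X ^ i) ω) = (X ^ (k * i)) (t ω) := by
    intro i ω
    have h1 : t * X ^ i * t⁻¹ = X ^ (k * i) := by
      rw [← conj_pow, htX, ← pow_mul]
    have h2 : t * X ^ i = X ^ (k * i) * t := by
      rw [← h1]; group
    have := congrArg (fun f : Equiv.Perm Ω => f ω) h2
    simpa [Equiv.Perm.mul_apply] using this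
  set A := Finset.univ.filter (fun ω => t ω = ω ∧ X ω ≠ ω) with hA
  have hAmem : ∀ a, a ∈ A ↔ t a = a ∧ X a ≠ a := by intro a; simp [hA]
  have hXi : ∀ (i : ℕ) (a : Ω), X a ≠ a → X ((X ^ i) a) ≠ (X ^ i) a := by
    intro i a ha h
    apply ha
    apply (X ^ i).injective
    have e : X ((X ^ i) a) = (X ^ i) (X a) := by
      rw [← Equiv.Perm.mul_apply, ← Equiv.Perm.mul_apply, ← pow_succ', pow_succ]
    rw [← e, h]
  have haux : ∀ i j, i < j → j < p → ∀ a ∈ A, ∀ b ∈ A, (X ^ i) a = (X ^ j) b → False := by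
    intro i j hij hj a ha b hb hab
    have h1 : a = (X ^ (j - i)) b := by
      apply (X ^ i).injective
      rw [hab, ← Equiv.Perm.mul_apply, ← pow_add, Nat.add_sub_cancel' hij.le]
    obtain ⟨hta, hXa⟩ := (hAmem a).mp ha
    obtain ⟨htb, hXb⟩ := (hAmem b).mp hb
    have hd0 : 0 < j - i := by omega
    have hdp : j - i < p := by omega
    generalize j - i = d at h1 hd0 hdp
    have h2 : (X ^ (k * d)) b = (X ^ d) b := by
      have h := hrel d b
      rw [htb, ← h1, hta] at h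
      rw [← h]; exact h1
    rcases Nat.eq_zero_or_pos k with hk0 | hkpos
    · rw [hk0, zero_mul, pow_zero, Equiv.Perm.one_apply] at h2
      have h3 := dvd_of_pow_fix p hp X hXp b hXb d h2.symm
      have := Nat.le_of_dvd hd0 h3
      omega
    · have e : k * d = (k * d - d) + d := by
        have : d ≤ k * d := Nat.le_mul_of_pos_left d hkpos
        omega
      rw [e, pow_add, Equiv.Perm.mul_apply, ← h1] at h2
      have h4 := dvd_of_pow_fix p hp X hXp a hXa _ h2
      have h5 : k * d - d = (k - 1) * d := by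
        rw [Nat.sub_mul, one_mul]
      rw [h5] at h4
      have h6 : p ∣ k - 1 := by
        rcases (Nat.Prime.dvd_mul hp).mp h4 with h | h
        · exact h
        · exact absurd (Nat.le_of_dvd hd0 h) (by omega)
      obtain ⟨q, hq⟩ := h6
      apply hne
      have : k = 1 + p * q := by omega
      rw [this, pow_add, pow_one, pow_mul, hXp, one_pow, mul_one]
  set U := (Finset.range p).biUnion (fun i => A.image (fun a => (X ^ i) a)) with hU
  have hUcard : U.card = p * A.card := by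
    rw [hU, Finset.card_biUnion]
    · rw [Finset.sum_congr rfl (fun i _ => Finset.card_image_of_injective A (X ^ i).injective)]
      simp
    · intro i hi j hj hij
      have hi' := Finset.mem_range.mp (Finset.mem_coe.mp hi)
      have hj' := Finset.mem_range.mp (Finset.mem_coe.mp hj)
      change Disjoint _ _
      rw [Finset.disjoint_left]
      intro ω h1 h2
      obtain ⟨a, ha, rfl⟩ := Finset.mem_image.mp h1
      obtain ⟨b, hb, hb'⟩ := Finset.mem_image.mp h2
      rcases lt_or_gt_of_ne hij with h | h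
      · exact haux i j h hj' a ha b hb hb'.symm
      · exact haux j i h hi' b hb a ha hb'
  have hUsub : U ⊆ Finset.univ.filter (fun ω => X ω ≠ ω) := by
    intro ω hω
    obtain ⟨i, -, hi⟩ := Finset.mem_biUnion.mp hω
    obtain ⟨a, ha, rfl⟩ := Finset.mem_image.mp hi
    simp only [Finset.mem_filter, Finset.mem_univ, true_and]
    exact hXi i a ((hAmem a).mp ha).2
  rw [← hUcard]
  exact Finset.card_le_card hUsub


/-! ### specific counts on 22 points -/

theorem eq_one_of_pow_eleven [Fact (Nat.Prime 3)] [Fact (Nat.Prime 11)]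
    (hΩ : Fintype.card Ω = 22) (X Z : Equiv.Perm Ω) (α : Ω) (hX3 : X ^ 3 = 1)
    (hfix : ∀ ω, X ω = ω ↔ ω = α) (hZX : Commute Z X) (hZ : Z ^ 11 = 1) : Z = 1 := by
  have h3 := fixCard_mod_of_commute 3 X Z α hX3 hfix hZX
  have h11 := fixCard_modEq' 11 Z hZ
  have hle := fixCard_le Z
  rw [hΩ] at h11 hle
  apply eq_one_of_fixCard
  rw [hΩ]; omega

theorem fixCard_of_pow_five [Fact (Nat.Prime 3)] [Fact (Nat.Prime 5)]
    (hΩ : Fintype.card Ω = 22) (X Z : Equiv.Perm Ω) (α : Ω) (hX3 : X ^ 3 = 1)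
    (hfix : ∀ ω, X ω = ω ↔ ω = α) (hZX : Commute Z X) (hZ : Z ^ 5 = 1) (hZ1 : Z ≠ 1) :
    fixCard Z = 7 := by
  have h3 := fixCard_mod_of_commute 3 X Z α hX3 hfix hZX
  have h5 := fixCard_modEq' 5 Z hZ
  have hle := fixCard_le Z
  rw [hΩ] at h5 hle
  have hne : fixCard Z ≠ 22 := fun h => hZ1 (eq_one_of_fixCard Z (by rw [hΩ]; exact h))
  omega

theorem fixCard_of_pow_seven [Fact (Nat.Prime 3)] [Fact (Nat.Prime 7)]
    (hΩ : Fintype.card Ω = 22) (X Z : Equiv.Perm Ω) (α : Ω) (hX3 : X ^ 3 = 1)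
    (hfix : ∀ ω, X ω = ω ↔ ω = α) (hZX : Commute Z X) (hZ : Z ^ 7 = 1) (hZ1 : Z ≠ 1) :
    fixCard Z = 1 := by
  have h3 := fixCard_mod_of_commute 3 X Z α hX3 hfix hZX
  have h7 := fixCard_modEq' 7 Z hZ
  have hle := fixCard_le Z
  rw [hΩ] at h7 hle
  have hne : fixCard Z ≠ 22 := fun h => hZ1 (eq_one_of_fixCard Z (by rw [hΩ]; exact h))
  omega

/-- commuting elements of orders 5 and 7 in the centralizer of `X` cannot exist -/
theorem no_five_seven [Fact (Nat.Prime 3)] [Fact (Nat.Prime 5)] [Fact (Nat.Prime 7)]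
    (hΩ : Fintype.card Ω = 22) (X Z W : Equiv.Perm Ω) (α : Ω) (hX3 : X ^ 3 = 1)
    (hfix : ∀ ω, X ω = ω ↔ ω = α) (hZX : Commute Z X) (hWX : Commute W X)
    (hZW : Commute Z W) (hZ : Z ^ 5 = 1) (hW : W ^ 7 = 1) (hZ1 : Z ≠ 1) (hW1 : W ≠ 1) :
    False := by
  have hZ7 : fixCard Z = 7 := fixCard_of_pow_five hΩ X Z α hX3 hfix hZX hZ hZ1
  have hW1' : fixCard W = 1 := fixCard_of_pow_seven hΩ X W α hX3 hfix hWX hW hW1
  have h := fix_fix_mod 7 W Z hW hZW
  have hWα : W α = α := fix_of_commute X W α hfix hWX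
  have hZα : Z α = α := fix_of_commute X Z α hfix hZX
  obtain ⟨a, ha⟩ := Finset.card_eq_one.mp hW1'
  have hαa : α ∈ Finset.univ.filter (fun ω => W ω = ω) := by simp [hWα]
  rw [ha, Finset.mem_singleton] at hαa
  have hs : Finset.univ.filter (fun ω => Z ω = ω ∧ W ω = ω) = {α} := by
    ext ω
    simp only [Finset.mem_filter, Finset.mem_univ, true_and, Finset.mem_singleton]
    constructor
    · rintro ⟨-, h2⟩
      have : ω ∈ Finset.univ.filter (fun ω => W ω = ω) := by simp [h2]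
      rw [ha, Finset.mem_singleton] at this
      rw [this, hαa]
    · rintro rfl; exact ⟨hZα, hWα⟩
  rw [hs, Finset.card_singleton, hZ7] at h
  norm_num at h

/-- an element of prime order `r ≠ 11` acting evenly and commuting with a fixed-point-free
element of order 11 on 22 points is trivial -/
theorem eq_one_of_commute_ff [Fact (Nat.Prime 11)] (hΩ : Fintype.card Ω = 22)
    (Y Z : Equiv.Perm Ω) (hY : Y ^ 11 = 1) (hff : ∀ ω, Y ω ≠ ω) (hZY : Commute Z Y)
    (r : ℕ) [hr : Fact r.Prime] (hr11 : r ≠ 11) (hZ : Z ^ r = 1)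
    (hsign : Equiv.Perm.sign Z = 1) : Z = 1 := by
  have h11 := fixCard_mod_of_commute_ff 11 Y Z hY hff hZY
  have hr' := fixCard_modEq' r Z hZ
  have hle := fixCard_le Z
  rw [hΩ] at hr' hle
  apply eq_one_of_fixCard
  rw [hΩ]
  have hcases : fixCard Z = 0 ∨ fixCard Z = 11 ∨ fixCard Z = 22 := by omega
  rcases hcases with h0 | h11' | h22
  · exfalso
    rw [h0] at hr'
    have hr22 : r ∣ 22 := by
      apply Nat.dvd_of_mod_eq_zero
      rw [← hr']; simp
    have hr2 : r = 2 := by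
      have : r ∣ 2 * 11 := hr22
      rcases (Nat.Prime.dvd_mul hr.out).mp this with h | h
      · exact (Nat.prime_dvd_prime_iff_eq hr.out Nat.prime_two).mp h
      · exact absurd ((Nat.prime_dvd_prime_iff_eq hr.out (by norm_num)).mp h) hr11
    subst hr2
    have hs := sign_invol Z hZ
    rw [hsign, hΩ, h0] at hs
    have hev : Even ((22 - 0) / 2) := (neg_one_pow_eq_one_iff_even (by decide)).mp hs.symm
    rcases hev with ⟨m, hm⟩
    omega
  · exfalso
    rw [h11'] at hr'
    have hd : r ∣ 22 - 11 := (Nat.modEq_iff_dvd' (by norm_num)).mp hr'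
    have hd' : r ∣ 11 := by simpa using hd
    exact hr11 ((Nat.prime_dvd_prime_iff_eq hr.out (by norm_num)).mp hd')
  · exact h22

/-- an element of order 5 normalizing but not centralizing a fixed-point-free `⟨Y⟩` of order 11
on 22 points has exactly two fixed points -/
theorem fixCard_five_normalizing [Fact (Nat.Prime 5)] (hΩ : Fintype.card Ω = 22)
    (Y Z : Equiv.Perm Ω) (hY : Y ^ 11 = 1) (hff : ∀ ω, Y ω ≠ ω) (k : ℕ)
    (hZY : Z * Y * Z⁻¹ = Y ^ k) (hne : Y ^ k ≠ Y) (hZ : Z ^ 5 = 1) :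
    fixCard Z = 2 := by
  have hp := fix_packing 11 (by norm_num) Y Z hY k hZY hne
  have e1 : Finset.univ.filter (fun ω => Z ω = ω ∧ Y ω ≠ ω) =
      Finset.univ.filter (fun ω => Z ω = ω) := by
    ext ω; simp [hff]
  have e2 : Finset.univ.filter (fun ω => Y ω ≠ ω) = Finset.univ := by
    ext ω; simp [hff]
  rw [e1, e2, Finset.card_univ, hΩ] at hp
  have h5 := fixCard_modEq' 5 Z hZ
  rw [hΩ] at h5
  unfold fixCard at *
  omega

/-- on 12 points: an involution normalizing but not centralizing `⟨Y⟩`, `Y` of order 11 with a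
unique fixed point, is an odd permutation -/
theorem sign_reflection (hΩ : Fintype.card Ω = 12) (Y U : Equiv.Perm Ω) (β : Ω)
    (hY : Y ^ 11 = 1) (hfix : ∀ ω, Y ω = ω ↔ ω = β) (k : ℕ) (hUY : U * Y * U⁻¹ = Y ^ k)
    (hne : Y ^ k ≠ Y) (hU : U ^ 2 = 1) : Equiv.Perm.sign U = -1 := by
  have : Fact (Nat.Prime 2) := ⟨Nat.prime_two⟩
  have hp := fix_packing 11 (by norm_num) Y U hY k hUY hne
  have hUβ : U β = β := fix_of_normalizes Y U β hfix k hUY
  have e2 : (Finset.univ.filter (fun ω => Y ω ≠ ω)).card = 11 := by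
    have : Finset.univ.filter (fun ω => Y ω ≠ ω) = Finset.univ.erase β := by
      ext ω; simp [hfix]
    rw [this, Finset.card_erase_of_mem (Finset.mem_univ _), Finset.card_univ, hΩ]
  have e1 : Finset.univ.filter (fun ω => U ω = ω ∧ Y ω ≠ ω) =
      (Finset.univ.filter (fun ω => U ω = ω)).erase β := by
    ext ω; simp [hfix]; tauto
  have hβ : β ∈ Finset.univ.filter (fun ω => U ω = ω) := by simp [hUβ]
  rw [e1, e2, Finset.card_erase_of_mem hβ] at hp
  have hpos : 0 < (Finset.univ.filter (fun ω => U ω = ω)).card := Finset.card_pos.mpr ⟨β, hβ⟩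
  have h2 := fixCard_modEq' 2 U hU
  rw [hΩ] at h2
  have hf : fixCard U = 2 := by unfold fixCard at *; omega
  rw [sign_invol U hU, hΩ, hf]
  decide

end Perm

section Blocks
variable {Ω : Type*} [Fintype Ω] [DecidableEq Ω]
open scoped Pointwise

/-- the block (`X`-orbit) of a point, for `X` of order 3 -/
def blk (X : Equiv.Perm Ω) (ω : Ω) : Finset Ω := {ω, X ω, X (X ω)}

omit [Fintype Ω] in
theorem mem_blk {X : Equiv.Perm Ω} {ω ω' : Ω} :
    ω' ∈ blk X ω ↔ ω' = ω ∨ ω' = X ω ∨ ω' = X (X ω) := by simp [blk]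

omit [Fintype Ω] [DecidableEq Ω] in
theorem cube_apply (X : Equiv.Perm Ω) (hX3 : X ^ 3 = 1) (a : Ω) : X (X (X a)) = a := by
  have := congrArg (fun f : Equiv.Perm Ω => f a) hX3
  simpa [pow_succ, Equiv.Perm.mul_apply] using this

omit [Fintype Ω] [DecidableEq Ω] in
theorem comm_rel (X Z : Equiv.Perm Ω) (h : Z * X * Z⁻¹ = X) (a : Ω) : Z (X a) = X (Z a) := by
  have h2 : Z * X = X * Z := by
    calc Z * X = (Z * X * Z⁻¹) * Z := by group
      _ = X * Z := by rw [h]
  have := congrArg (fun f : Equiv.Perm Ω => f a) h2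
  simpa [Equiv.Perm.mul_apply] using this

omit [Fintype Ω] [DecidableEq Ω] in
theorem inv_rel (X Z : Equiv.Perm Ω) (hX3 : X ^ 3 = 1) (h : Z * X * Z⁻¹ = X⁻¹) (a : Ω) :
    Z (X a) = X (X (Z a)) := by
  have h2 : Z * X = X⁻¹ * Z := by
    calc Z * X = (Z * X * Z⁻¹) * Z := by group
      _ = X⁻¹ * Z := by rw [h]
  have h3 := congrArg (fun f : Equiv.Perm Ω => f a) h2
  simp only [Equiv.Perm.mul_apply] at h3
  rw [h3]
  apply X.injective
  rw [cube_apply X hX3]
  simp

omit [Fintype Ω] [DecidableEq Ω] in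
theorem inv_rel2 (X Z : Equiv.Perm Ω) (hX3 : X ^ 3 = 1) (h : Z * X * Z⁻¹ = X⁻¹) (a : Ω) :
    Z (X (X a)) = X (Z a) := by
  rw [inv_rel X Z hX3 h, inv_rel X Z hX3 h, cube_apply X hX3]

omit [Fintype Ω] in
theorem blk_smul (X Z : Equiv.Perm Ω) (hX3 : X ^ 3 = 1)
    (h : Z * X * Z⁻¹ = X ∨ Z * X * Z⁻¹ = X⁻¹) (ω : Ω) : Z • blk X ω = blk X (Z ω) := by
  simp only [blk, Finset.smul_finset_insert, Finset.smul_finset_singleton, Equiv.Perm.smul_def]
  rcases h with h | h
  · rw [comm_rel X Z h, comm_rel X Z h, comm_rel X Z h]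
  · rw [inv_rel2 X Z hX3 h, inv_rel X Z hX3 h]
    ext a
    simp only [Finset.mem_insert, Finset.mem_singleton]
    tauto

omit [Fintype Ω] [DecidableEq Ω] in
theorem fix_of_norm (X Z : Equiv.Perm Ω) (α : Ω) (hfix : ∀ ω, X ω = ω ↔ ω = α)
    (h : Z * X * Z⁻¹ = X ∨ Z * X * Z⁻¹ = X⁻¹) : Z α = α := by
  have h1 : (Z * X * Z⁻¹) α = α := by
    rcases h with h | h
    · rw [h]; exact (hfix α).mpr rfl
    · rw [h, Equiv.Perm.inv_eq_iff_eq]; exact ((hfix α).mpr rfl).symm
  simp only [Equiv.Perm.mul_apply] at h1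
  have h2 : X (Z⁻¹ α) = Z⁻¹ α := by
    apply Z.injective
    rw [h1]; simp
  have h3 : Z⁻¹ α = α := (hfix _).mp h2
  have h4 := congrArg Z h3
  simpa using h4.symm

omit [Fintype Ω] in
theorem blk_eq_iff (X : Equiv.Perm Ω) (hX3 : X ^ 3 = 1) (ω ω₀ : Ω) :
    blk X ω = blk X ω₀ ↔ ω ∈ blk X ω₀ := by
  constructor
  · intro h
    rw [← h, mem_blk]
    exact Or.inl rfl
  · intro h
    rcases mem_blk.mp h with rfl | rfl | rfl
    · rfl
    · ext a
      simp only [mem_blk, cube_apply X hX3]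
      tauto
    · ext a
      simp only [mem_blk, cube_apply X hX3]
      tauto

omit [Fintype Ω] in
theorem blk_card (X : Equiv.Perm Ω) (α : Ω) (hX3 : X ^ 3 = 1) (hfix : ∀ ω, X ω = ω ↔ ω = α)
    (ω : Ω) (hω : ω ≠ α) : (blk X ω).card = 3 := by
  have h1 : X ω ≠ ω := fun h => hω ((hfix ω).mp h)
  have h2 : X (X ω) ≠ X ω := fun h => h1 (X.injective h)
  have h3 : X (X ω) ≠ ω := by
    intro h
    apply h1
    have := cube_apply X hX3 ω
    rw [h] at this
    exact this
  rw [blk, Finset.card_insert_of_notMem, Finset.card_insert_of_notMem, Finset.card_singleton]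
  · simp only [Finset.mem_singleton]; exact fun h => h2 h.symm
  · simp only [Finset.mem_insert, Finset.mem_singleton]
    rintro (h | h)
    · exact h1 h.symm
    · exact h3 h.symm

omit [Fintype Ω] in
theorem blk_ne (X : Equiv.Perm Ω) (α : Ω) (hfix : ∀ ω, X ω = ω ↔ ω = α)
    (ω ω₀ : Ω) (hω₀ : ω₀ ≠ α) (h : ω ∈ blk X ω₀) : ω ≠ α := by
  have hα : X α = α := (hfix α).mpr rfl
  rcases mem_blk.mp h with rfl | rfl | rfl
  · exact hω₀
  · intro h'
    apply hω₀
    apply X.injective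
    rw [h', hα]
  · intro h'
    apply hω₀
    apply X.injective
    apply X.injective
    rw [h', hα, hα]

/-- the number of blocks off the fixed point is 7 -/
theorem card_blocks (hΩ : Fintype.card Ω = 22) (X : Equiv.Perm Ω) (α : Ω) (hX3 : X ^ 3 = 1)
    (hfix : ∀ ω, X ω = ω ↔ ω = α) : ((Finset.univ.erase α).image (blk X)).card = 7 := by
  have hsum := Finset.card_eq_sum_card_fiberwise (f := blk X) (s := Finset.univ.erase α)
    (t := (Finset.univ.erase α).image (blk X))
    (fun x hx => Finset.mem_coe.mpr (Finset.mem_image_of_mem _ (Finset.mem_coe.mp hx)))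
  have hfib : ∀ B ∈ (Finset.univ.erase α).image (blk X),
      ((Finset.univ.erase α).filter (fun a => blk X a = B)).card = 3 := by
    intro B hB
    obtain ⟨ω₀, hω₀, rfl⟩ := Finset.mem_image.mp hB
    have hω₀' : ω₀ ≠ α := Finset.ne_of_mem_erase hω₀
    have : (Finset.univ.erase α).filter (fun a => blk X a = blk X ω₀) = blk X ω₀ := by
      ext a
      simp only [Finset.mem_filter, Finset.mem_erase, Finset.mem_univ, and_true,
        blk_eq_iff X hX3]
      constructor
      · exact fun h => h.2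
      · exact fun h => ⟨blk_ne X α hfix a ω₀ hω₀' h, h⟩
    rw [this, blk_card X α hX3 hfix ω₀ hω₀']
  rw [Finset.sum_congr rfl hfib, Finset.sum_const, smul_eq_mul,
    Finset.card_erase_of_mem (Finset.mem_univ _), Finset.card_univ, hΩ] at hsum
  omega

/-- the set of blocks off the fixed point, as a `SubMulAction` -/
def blkSub (Γ : Subgroup (Equiv.Perm Ω)) (X : Equiv.Perm Ω) (α : Ω) (hX3 : X ^ 3 = 1)
    (hfix : ∀ ω, X ω = ω ↔ ω = α)
    (hnorm : ∀ Z ∈ Γ, Z * X * Z⁻¹ = X ∨ Z * X * Z⁻¹ = X⁻¹) : SubMulAction Γ (Finset Ω) where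
  carrier := {B | ∃ ω, ω ≠ α ∧ blk X ω = B}
  smul_mem' := by
    rintro ⟨Z, hZ⟩ B ⟨ω, hω, rfl⟩
    refine ⟨Z ω, ?_, ?_⟩
    · intro h
      apply hω
      apply Z.injective
      rw [h, fix_of_norm X Z α hfix (hnorm Z hZ)]
    · exact (blk_smul X Z hX3 (hnorm Z hZ) ω).symm

/-- an element normalizing `⟨X⟩`, acting evenly and stabilizing every block has cube 1 -/
theorem ker_pow_three (hΩ : Fintype.card Ω = 22) (X Z : Equiv.Perm Ω) (α : Ω) (hX3 : X ^ 3 = 1)
    (hfix : ∀ ω, X ω = ω ↔ ω = α)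
    (h : Z * X * Z⁻¹ = X ∨ Z * X * Z⁻¹ = X⁻¹) (hsign : Equiv.Perm.sign Z = 1)
    (hblk : ∀ ω, ω ≠ α → Z ω = ω ∨ Z ω = X ω ∨ Z ω = X (X ω)) : Z ^ 3 = 1 := by
  have hZα : Z α = α := fix_of_norm X Z α hfix h
  rcases h with h | h
  · have hc : Commute Z X := by
      change Z * X = X * Z
      calc Z * X = (Z * X * Z⁻¹) * Z := by group
        _ = X * Z := by rw [h]
    ext ω
    rw [Equiv.Perm.one_apply]
    by_cases hω : ω = α
    · rw [hω]; exact Equiv.Perm.pow_apply_eq_self_of_apply_eq_self hZα 3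
    · rcases hblk ω hω with h1 | h1 | h1
      · exact Equiv.Perm.pow_apply_eq_self_of_apply_eq_self h1 3
      · have := pow_apply_of_comm hc ω 1 (by rw [pow_one]; exact h1) 3
        rw [this, one_mul, hX3]; rfl
      · have := pow_apply_of_comm hc ω 2 (by rw [pow_two, Equiv.Perm.mul_apply]; exact h1) 3
        rw [this, show 2 * 3 = 3 * 2 from rfl, pow_mul, hX3, one_pow]; rfl
  · exfalso
    have hZ2 : Z ^ 2 = 1 := by
      ext ω
      rw [pow_two, Equiv.Perm.mul_apply, Equiv.Perm.one_apply]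
      by_cases hω : ω = α
      · rw [hω, hZα, hZα]
      · rcases hblk ω hω with h1 | h1 | h1
        · rw [h1, h1]
        · rw [h1, inv_rel X Z hX3 h, h1, cube_apply X hX3]
        · rw [h1, inv_rel2 X Z hX3 h, h1, cube_apply X hX3]
    have hcov : ∀ ω, ω ≠ α →
        ∃ a, (Z a = a ∧ X a ≠ a) ∧ (ω = a ∨ ω = X a ∨ ω = X (X a)) := by
      intro ω hω
      have hXω : X ω ≠ ω := fun h' => hω ((hfix ω).mp h')
      rcases hblk ω hω with h1 | h1 | h1
      · exact ⟨ω, ⟨h1, hXω⟩, Or.inl rfl⟩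
      · refine ⟨X (X ω), ⟨?_, ?_⟩, Or.inr (Or.inl (cube_apply X hX3 ω).symm)⟩
        · rw [inv_rel2 X Z hX3 h, h1]
        · exact fun h' => hXω (X.injective (X.injective h'))
      · refine ⟨X ω, ⟨?_, ?_⟩, Or.inr (Or.inr (cube_apply X hX3 ω).symm)⟩
        · rw [inv_rel X Z hX3 h, h1, cube_apply X hX3]
        · exact fun h' => hXω (X.injective h')
    set A := Finset.univ.filter (fun a => Z a = a ∧ X a ≠ a) with hA
    have hsub : Finset.univ.erase α ⊆ A ∪ A.image X ∪ A.image (fun a => X (X a)) := by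
      intro ω hω
      obtain ⟨a, ha, h3⟩ := hcov ω (Finset.ne_of_mem_erase hω)
      have haA : a ∈ A := by simp [hA, ha]
      rcases h3 with rfl | rfl | rfl
      · exact Finset.mem_union_left _ (Finset.mem_union_left _ haA)
      · exact Finset.mem_union_left _ (Finset.mem_union_right _ (Finset.mem_image_of_mem _ haA))
      · exact Finset.mem_union_right _ (Finset.mem_image_of_mem (fun a => X (X a)) haA)
    have hc1 := Finset.card_le_card hsub
    have hc2 : (A ∪ A.image X ∪ A.image (fun a => X (X a))).card ≤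
        A.card + A.card + A.card := by
      have i1 := Finset.card_union_le (A ∪ A.image X) (A.image (fun a => X (X a)))
      have i2 := Finset.card_union_le A (A.image X)
      have i3 : (A.image X).card ≤ A.card := Finset.card_image_le
      have i4 : (A.image (fun a => X (X a))).card ≤ A.card := Finset.card_image_le
      omega
    rw [Finset.card_erase_of_mem (Finset.mem_univ _), Finset.card_univ, hΩ] at hc1
    have hX2 : X⁻¹ = X ^ 2 := by
      rw [inv_eq_iff_mul_eq_one, ← pow_succ']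
      exact hX3
    have hne : X ^ 2 ≠ X := by
      intro h'
      have hX1 : X = 1 := by
        have : X ^ 2 * X⁻¹ = X * X⁻¹ := by rw [h']
        simpa [pow_two] using this
      have hall : ∀ ω, ω = α := fun ω => (hfix ω).mp (by rw [hX1]; rfl)
      have hcard : Fintype.card Ω ≤ 1 :=
        Fintype.card_le_one_iff.mpr (fun a b => by rw [hall a, hall b])
      omega
    have hp := fix_packing 3 (by norm_num) X Z hX3 2 (by rw [h, hX2]) hne
    have e2 : (Finset.univ.filter (fun ω => X ω ≠ ω)).card = 21 := by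
      have : Finset.univ.filter (fun ω => X ω ≠ ω) = Finset.univ.erase α := by
        ext ω; simp [hfix]
      rw [this, Finset.card_erase_of_mem (Finset.mem_univ _), Finset.card_univ, hΩ]
    rw [e2] at hp
    have hp' : 3 * A.card ≤ 21 := hp
    have hA7 : A.card = 7 := by omega
    have e1 : A = (Finset.univ.filter (fun ω => Z ω = ω)).erase α := by
      ext ω; simp [hA, hfix]; tauto
    have hα : α ∈ Finset.univ.filter (fun ω => Z ω = ω) := by simp [hZα]
    have hf : fixCard Z = 8 := by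
      have h8 := Finset.card_erase_of_mem hα
      rw [← e1, hA7] at h8
      have hpos : 0 < (Finset.univ.filter (fun ω => Z ω = ω)).card :=
        Finset.card_pos.mpr ⟨α, hα⟩
      unfold fixCard; omega
    have hs := sign_invol Z hZ2
    rw [hsign, hΩ, hf] at hs
    have hev : Even ((22 - 8) / 2) := (neg_one_pow_eq_one_iff_even (by decide)).mp hs.symm
    rcases hev with ⟨m, hm⟩
    omega

/-- a group of even permutations of 22 points normalizing `⟨X⟩`, where `X` has order 3 and a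
unique fixed point, has order dividing `3 ^ j * 7!` -/
theorem card_dvd_blocks (hΩ : Fintype.card Ω = 22) (Γ : Subgroup (Equiv.Perm Ω))
    (X : Equiv.Perm Ω) (α : Ω) (hX3 : X ^ 3 = 1) (hfix : ∀ ω, X ω = ω ↔ ω = α)
    (hnorm : ∀ Z ∈ Γ, Z * X * Z⁻¹ = X ∨ Z * X * Z⁻¹ = X⁻¹)
    (hsign : ∀ Z ∈ Γ, Equiv.Perm.sign Z = 1) : ∃ j, Nat.card Γ ∣ 3 ^ j * 5040 := by
  classical
  have : Fact (Nat.Prime 3) := ⟨by norm_num⟩
  set S := blkSub Γ X α hX3 hfix hnorm with hS
  have hmemS : ∀ B : Finset Ω, B ∈ S ↔ ∃ ω, ω ≠ α ∧ blk X ω = B := fun B => Iff.rfl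
  haveI : Fintype S := Fintype.ofFinite S
  have hcardS : Nat.card S = 7 := by
    rw [Nat.card_eq_fintype_card, ← card_blocks hΩ X α hX3 hfix]
    apply Fintype.card_of_subtype
    intro B
    simp only [Finset.mem_image, Finset.mem_erase, Finset.mem_univ, and_true]
    exact (hmemS B).symm
  set ρ : Γ →* Equiv.Perm S := MulAction.toPermHom Γ S with hρ
  have hperm : Nat.card (Equiv.Perm S) = 5040 := by
    rw [Nat.card_perm, hcardS]; rfl
  have hrange : Nat.card ρ.range ∣ 5040 := by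
    rw [← hperm]; exact Subgroup.card_subgroup_dvd_card ρ.range
  have hker3 : ∀ Z : Γ, Z ∈ ρ.ker → Z ^ 3 = 1 := by
    intro Z hZ
    rw [MonoidHom.mem_ker] at hZ
    apply Subtype.ext
    rw [Subgroup.coe_pow, Subgroup.coe_one]
    apply ker_pow_three hΩ X Z.1 α hX3 hfix (hnorm Z.1 Z.2) (hsign Z.1 Z.2)
    intro ω hω
    have hB : blk X ω ∈ S := ⟨ω, hω, rfl⟩
    have h1 : ρ Z ⟨blk X ω, hB⟩ = ⟨blk X ω, hB⟩ := by rw [hZ]; rfl
    have h2 : (Z.1 : Equiv.Perm Ω) • blk X ω = blk X ω := congrArg Subtype.val h1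
    rw [blk_smul X Z.1 hX3 (hnorm Z.1 Z.2) ω, blk_eq_iff X hX3] at h2
    exact mem_blk.mp h2
  have hpg : IsPGroup 3 ρ.ker := by
    intro Z
    refine ⟨1, ?_⟩
    rw [pow_one]
    apply Subtype.ext
    have := hker3 Z.1 Z.2
    simpa using this
  obtain ⟨j, hj⟩ := IsPGroup.iff_card.mp hpg
  refine ⟨j, ?_⟩
  have h1 := Subgroup.card_mul_index ρ.ker
  rw [Subgroup.index_ker, hj] at h1
  rw [← h1]
  exact Nat.mul_dvd_mul_left _ hrange

end Blocks

end Cfsg.Agent.Lib.Helper69.Syl22
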