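import Mathlib
import Cfsg.Agent.S4304
import Cfsg.Agent.Lib.Helper69.Syl22A
import Cfsg.Agent.Lib.Helper69.Syl22B

set_option autoImplicit false

namespace Cfsg.Agent.Lib.Helper69.Syl22

open Subgroup MulAction
open scoped Pointwise
open Cfsg.Agent.S4304 (mem_smul_sylow sylow_card_eq sylow_eq_of_le comm_apply pow_apply_of_comm)

theorem arith_560 (m : ℕ) (h1 : m ∣ 560) (h2 : (3 * m) % 11 = 1) : m = 4 ∨ m = 70 := by
  have hle : m ≤ 560 := Nat.le_of_dvd (by norm_num) h1
  interval_cases m <;> omega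

/-- a non-identity element of a subgroup of prime order generates it -/
theorem zpowers_eq_of_card_prime {G : Type*} [Group G] [Finite G] (Q : Subgroup G) {q : ℕ}
    (hq : q.Prime) (hQ : Nat.card Q = q) (w : G) (hw : w ∈ Q) (hw1 : w ≠ 1) :
    w ^ q = 1 ∧ orderOf w = q ∧ Subgroup.zpowers w = Q := by
  have : Fact q.Prime := ⟨hq⟩
  have hwq : w ^ q = 1 := by
    have := pow_card_eq_one' (G := Q) (x := ⟨w, hw⟩)
    rw [hQ] at this
    simpa using congrArg Subtype.val this
  have hord : orderOf w = q := orderOf_eq_prime hwq hw1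
  refine ⟨hwq, hord, ?_⟩
  apply Subgroup.eq_of_le_of_card_ge (Subgroup.zpowers_le.mpr hw)
  rw [Nat.card_zpowers, hord, hQ]

theorem exists_gen_of_card_prime {G : Type*} [Group G] [Finite G] (Q : Subgroup G) {q : ℕ}
    (hq : q.Prime) (hQ : Nat.card Q = q) :
    ∃ y ∈ Q, y ≠ 1 ∧ y ^ q = 1 ∧ orderOf y = q ∧ Subgroup.zpowers y = Q := by
  have hQne : Q ≠ ⊥ := by
    rw [← Subgroup.one_lt_card_iff_ne_bot, hQ]; exact hq.one_lt
  obtain ⟨y, hy, hy1⟩ := Q.bot_or_exists_ne_one.resolve_left hQne
  exact ⟨y, hy, hy1, zpowers_eq_of_card_prime Q hq hQ y hy hy1⟩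

/-- conjugation by a normalizing element acts on a generator as a power -/
theorem conj_eq_pow {G : Type*} [Group G] [Finite G] (Q : Subgroup G) (y : G)
    (hy : Subgroup.zpowers y = Q) (g : G) (hg : g ∈ normalizer (Q : Set G)) :
    ∃ k : ℕ, g * y * g⁻¹ = y ^ k := by
  have hyQ : y ∈ Q := hy ▸ Subgroup.mem_zpowers y
  have hmem : g * y * g⁻¹ ∈ Q := (Subgroup.mem_normalizer_iff.mp hg y).mp hyQ
  rw [← hy] at hmem
  have := (isOfFinOrder_of_finite y).mem_powers_iff_mem_zpowers.mpr hmem
  obtain ⟨k, hk⟩ := (Submonoid.mem_powers_iff _ _).mp this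
  exact ⟨k, hk.symm⟩

universe u

section Main
variable {G : Type u} [Group G] [Finite G]

/-- the data of a minimal counterexample -/
structure Setup (G : Type u) [Group G] [Finite G] [Fact (Nat.Prime 3)] : Prop where
  hn : Nat.card (Sylow 3 G) = 22
  hM1 : ∀ (P : Sylow 3 G) (M : Subgroup G), M.Normal → (P : Subgroup G) ≤ M → M = ⊤
  faith : ∀ g : G, (∀ S : Sylow 3 G, g • S = S) → g = 1
  card3 : ∀ P : Sylow 3 G, Nat.card (P : Subgroup G) = 3
  fixP : ∀ (P : Sylow 3 G) (g : G), g ∈ (P : Subgroup G) → g ≠ 1 →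
    ∀ S : Sylow 3 G, g • S = S ↔ S = P

variable [Fact (Nat.Prime 3)]

theorem Setup.pow3 (h : Setup G) (P : Sylow 3 G) (g : G) (hg : g ∈ (P : Subgroup G)) :
    g ^ 3 = 1 := by
  have := pow_card_eq_one' (G := (P : Subgroup G)) (x := ⟨g, hg⟩)
  rw [h.card3 P] at this
  simpa using congrArg Subtype.val this

theorem Setup.zpowers_eq (h : Setup G) (P : Sylow 3 G) (g : G) (hg : g ∈ (P : Subgroup G))
    (hg1 : g ≠ 1) : Subgroup.zpowers g = (P : Subgroup G) :=
  (zpowers_eq_of_card_prime (P : Subgroup G) Nat.prime_three (h.card3 P) g hg hg1).2.2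

theorem Setup.exists_gen (h : Setup G) (P : Sylow 3 G) : ∃ c ∈ (P : Subgroup G), c ≠ 1 := by
  obtain ⟨y, hy, hy1, -⟩ := exists_gen_of_card_prime (P : Subgroup G) Nat.prime_three (h.card3 P)
  exact ⟨y, hy, hy1⟩

theorem Setup.inj (h : Setup G) : Function.Injective (MulAction.toPermHom G (Sylow 3 G)) := by
  rw [← MonoidHom.ker_eq_bot_iff, eq_bot_iff]
  intro g hg
  rw [MonoidHom.mem_ker] at hg
  rw [Subgroup.mem_bot]
  apply h.faith
  intro S
  have := congrArg (fun f : Equiv.Perm (Sylow 3 G) => f S) hg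
  simpa using this

/-- every homomorphism to `ℤˣ` is trivial -/
theorem Setup.hom_units (h : Setup G) (ψ : G →* ℤˣ) (g : G) : ψ g = 1 := by
  obtain P : Sylow 3 G := default
  have hPle : (P : Subgroup G) ≤ ψ.ker := by
    intro g hg
    rw [MonoidHom.mem_ker]
    have h3 : ψ g ^ 3 = 1 := by rw [← map_pow, h.pow3 P g hg, map_one]
    have h2 : ψ g ^ 2 = 1 := Int.units_sq _
    have := Nat.eq_one_of_dvd_coprimes (by norm_num : Nat.Coprime 3 2)
      (orderOf_dvd_of_pow_eq_one h3) (orderOf_dvd_of_pow_eq_one h2)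
    exact orderOf_eq_one_iff.mp this
  have htop := h.hM1 P ψ.ker (MonoidHom.normal_ker _) hPle
  have hb : g ∈ ψ.ker := htop ▸ Subgroup.mem_top g
  exact hb

theorem Setup.sign_eq_one (h : Setup G) [Fintype (Sylow 3 G)] [DecidableEq (Sylow 3 G)] (g : G) :
    Equiv.Perm.sign (MulAction.toPermHom G (Sylow 3 G) g) = 1 :=
  h.hom_units (Equiv.Perm.sign.comp (MulAction.toPermHom G (Sylow 3 G))) g

theorem Setup.card_univ (h : Setup G) [Fintype (Sylow 3 G)] : Fintype.card (Sylow 3 G) = 22 := by
  rw [← Nat.card_eq_fintype_card, h.hn]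

theorem Setup.perm_pow (h : Setup G) (P : Sylow 3 G) (c : G) (hc : c ∈ (P : Subgroup G)) :
    (MulAction.toPermHom G (Sylow 3 G) c) ^ 3 = 1 := by
  rw [← map_pow, h.pow3 P c hc, map_one]

/-- an element of odd order normalizing a Sylow 3-subgroup centralizes it -/
theorem Setup.commute_of_odd (h : Setup G) (P : Sylow 3 G) (c : G) (hc : c ∈ (P : Subgroup G))
    (g : G) (hgP : g • P = P) (m : ℕ) (hm : Odd m) (hgm : g ^ m = 1) : Commute g c := by
  have hgN : g ∈ normalizer ((P : Subgroup G) : Set G) := Sylow.smul_eq_iff_mem_normalizer.mp hgP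
  have hC := Cfsg.Agent.S4304.centralizes_of_coprime (P : Subgroup G) Nat.prime_three (h.card3 P)
    g hgN hgm (by rw [show 3 - 1 = 2 from rfl]; exact Nat.coprime_two_right.mpr hm)
  exact (Subgroup.mem_centralizer_iff.mp hC c hc).symm

/-- elements of order 11 have no fixed points -/
theorem Setup.fpf_eleven (h : Setup G) (y : G) (hy : y ^ 11 = 1) (hy1 : y ≠ 1) (Q : Sylow 3 G) :
    y • Q ≠ Q := by
  classical
  have : Fact (Nat.Prime 11) := ⟨by norm_num⟩
  let _ : Fintype (Sylow 3 G) := Fintype.ofFinite _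
  intro hQ
  obtain ⟨c, hc, hc1⟩ := h.exists_gen Q
  have hcomm := h.commute_of_odd Q c hc y hQ 11 (by decide) hy
  set φ := MulAction.toPermHom G (Sylow 3 G) with hφ
  have := eq_one_of_pow_eleven h.card_univ (φ c) (φ y) Q (h.perm_pow Q c hc) (h.fixP Q c hc hc1)
    (hcomm.map φ) (by rw [← map_pow, hy, map_one])
  exact hy1 (h.inj (this.trans (map_one φ).symm))

theorem Setup.card_G (h : Setup G) (P : Sylow 3 G) :
    Nat.card G = Nat.card (normalizer ((P : Subgroup G) : Set G)) * 22 := by
  have hidx : (normalizer ((P : Subgroup G) : Set G)).index = 22 := by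
    rw [← h.hn]; exact (Sylow.card_eq_index_normalizer P).symm
  rw [← hidx]; exact (Subgroup.card_mul_index _).symm

theorem Setup.not_eleven_dvd (h : Setup G) (P : Sylow 3 G) :
    ¬ 11 ∣ Nat.card (normalizer ((P : Subgroup G) : Set G)) := by
  have : Fact (Nat.Prime 11) := ⟨by norm_num⟩
  intro hd
  obtain ⟨z, hz⟩ := exists_prime_orderOf_dvd_card' 11 hd
  have hz11 : (z : G) ^ 11 = 1 := by
    have := pow_orderOf_eq_one z
    rw [hz] at this
    simpa using congrArg Subtype.val this
  have hz1 : (z : G) ≠ 1 := by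
    intro h1
    have : z = 1 := Subtype.ext h1
    rw [this, orderOf_one] at hz
    omega
  exact h.fpf_eleven (z : G) hz11 hz1 P (Sylow.smul_eq_iff_mem_normalizer.mpr z.2)

theorem Setup.eleven_dvd (h : Setup G) : 11 ∣ Nat.card G := by
  obtain P : Sylow 3 G := default
  rw [h.card_G P]; exact Dvd.dvd.mul_left (by norm_num) _

theorem Setup.not_121_dvd (h : Setup G) : ¬ 11 ^ 2 ∣ Nat.card G := by
  obtain P : Sylow 3 G := default
  rw [h.card_G P]
  intro hd
  apply h.not_eleven_dvd P
  have h' : 11 * 11 ∣ (Nat.card (normalizer ((P : Subgroup G) : Set G)) * 2) * 11 := by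
    have e : Nat.card (normalizer ((P : Subgroup G) : Set G)) * 22 =
        (Nat.card (normalizer ((P : Subgroup G) : Set G)) * 2) * 11 := by ring
    rw [← e]; exact hd
  have h'' : 11 ∣ Nat.card (normalizer ((P : Subgroup G) : Set G)) * 2 :=
    Nat.dvd_of_mul_dvd_mul_right (by norm_num) h'
  exact Nat.Coprime.dvd_of_dvd_mul_right (by norm_num) h''

theorem Setup.card_R (h : Setup G) [Fact (Nat.Prime 11)] (R : Sylow 11 G) :
    Nat.card (R : Subgroup G) = 11 :=
  Cfsg.Agent.S4304.sylow_card_eq_prime R h.eleven_dvd h.not_121_dvd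

/-- an element of prime order `r ≠ 11` commuting with an element of order 11 is trivial -/
theorem Setup.eq_one_of_commute_eleven (h : Setup G) (y : G) (hy : y ^ 11 = 1) (hy1 : y ≠ 1)
    (z : G) (hzy : Commute z y) (r : ℕ) [Fact r.Prime] (hr : r ≠ 11) (hz : z ^ r = 1) :
    z = 1 := by
  classical
  have : Fact (Nat.Prime 11) := ⟨by norm_num⟩
  let _ : Fintype (Sylow 3 G) := Fintype.ofFinite _
  set φ := MulAction.toPermHom G (Sylow 3 G) with hφ
  have := eq_one_of_commute_ff h.card_univ (φ y) (φ z) (by rw [← map_pow, hy, map_one])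
    (fun Q => h.fpf_eleven y hy hy1 Q) (hzy.map φ) r hr (by rw [← map_pow, hz, map_one])
    (h.sign_eq_one z)
  exact h.inj (this.trans (map_one φ).symm)

theorem Setup.card_centralizer_R (h : Setup G) [Fact (Nat.Prime 11)] (R : Sylow 11 G) :
    Nat.card (centralizer ((R : Subgroup G) : Set G)) = 11 := by
  have hR := h.card_R R
  obtain ⟨y, hyR, hy1, hy11, hyo, hyz⟩ :=
    exists_gen_of_card_prime (R : Subgroup G) (by norm_num) hR
  have hRK : (R : Subgroup G) ≤ centralizer ((R : Subgroup G) : Set G) := by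
    intro a ha
    rw [Subgroup.mem_centralizer_iff]
    intro w hw
    have hw' : w ∈ Subgroup.zpowers y := by rw [hyz]; exact hw
    have ha' : a ∈ Subgroup.zpowers y := by rw [hyz]; exact ha
    obtain ⟨n, rfl⟩ := Subgroup.mem_zpowers_iff.mp hw'
    obtain ⟨n', rfl⟩ := Subgroup.mem_zpowers_iff.mp ha'
    exact ((Commute.refl y).zpow_zpow n n').eq
  have h11K : 11 ∣ Nat.card (centralizer ((R : Subgroup G) : Set G)) := by
    have := Subgroup.card_dvd_of_le hRK
    rwa [hR] at this
  have hprime : ∀ {r : ℕ}, r.Prime → r ∣ Nat.card (centralizer ((R : Subgroup G) : Set G)) →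
      r = 11 := by
    intro r hr hd
    by_contra hne
    have : Fact r.Prime := ⟨hr⟩
    obtain ⟨z, hz⟩ := exists_prime_orderOf_dvd_card' r hd
    have hzr : (z : G) ^ r = 1 := by
      have := pow_orderOf_eq_one z
      rw [hz] at this
      simpa using congrArg Subtype.val this
    have hcomm : Commute (z : G) y := (Subgroup.mem_centralizer_iff.mp z.2 y hyR).symm
    have hz1 : (z : G) = 1 := h.eq_one_of_commute_eleven y hy11 hy1 (z : G) hcomm r hne hzr
    have : z = 1 := Subtype.ext hz1
    rw [this, orderOf_one] at hz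
    exact hr.one_lt.ne hz
  have hpow := Nat.eq_prime_pow_of_unique_prime_dvd
    (Nat.card_pos (α := centralizer ((R : Subgroup G) : Set G))).ne' hprime
  have hKG : Nat.card (centralizer ((R : Subgroup G) : Set G)) ∣ Nat.card G :=
    Subgroup.card_subgroup_dvd_card _
  generalize (Nat.card (centralizer ((R : Subgroup G) : Set G))).primeFactorsList.length = k
    at hpow
  have hk0 : k ≠ 0 := by
    rintro rfl
    rw [hpow] at h11K
    norm_num at h11K
  have hk2 : k < 2 := by
    by_contra hk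
    apply h.not_121_dvd
    refine dvd_trans ?_ hKG
    rw [hpow]
    exact pow_dvd_pow 11 (by omega)
  have hk1 : k = 1 := by omega
  rw [hpow, hk1, pow_one]

theorem Setup.no_transfer (h : Setup G) [Fact (Nat.Prime 11)] (R : Sylow 11 G)
    (hNC : normalizer ((R : Subgroup G) : Set G) ≤ centralizer ((R : Subgroup G) : Set G)) :
    False := by
  obtain P : Sylow 3 G := default
  have hR := h.card_R R
  have hcomp := MonoidHom.ker_transferSylow_isComplement' R hNC
  set f := MonoidHom.transferSylow R hNC with hf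
  have hPL : (P : Subgroup G) ≤ f.ker := by
    intro g hg
    rw [MonoidHom.mem_ker]
    have h1 : f g ^ 3 = 1 := by rw [← map_pow, h.pow3 P g hg, map_one]
    have h2 : f g ^ 11 = 1 := by
      have := pow_card_eq_one' (G := (R : Subgroup G)) (x := f g)
      rwa [hR] at this
    have := Nat.eq_one_of_dvd_coprimes (by norm_num : Nat.Coprime 3 11)
      (orderOf_dvd_of_pow_eq_one h1) (orderOf_dvd_of_pow_eq_one h2)
    exact orderOf_eq_one_iff.mp this
  have htop := h.hM1 P f.ker (MonoidHom.normal_ker _) hPL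
  rw [htop] at hcomp
  have hc := hcomp.card_mul_card
  rw [Subgroup.card_top, hR] at hc
  have hpos : 0 < Nat.card G := Nat.card_pos
  omega

theorem Setup.no_five (h : Setup G) [Fact (Nat.Prime 11)] (R : Sylow 11 G) (z : G)
    (hzN : z ∈ normalizer ((R : Subgroup G) : Set G)) (hz5 : z ^ 5 = 1) (hz1 : z ≠ 1) :
    False := by
  classical
  have : Fact (Nat.Prime 5) := ⟨by norm_num⟩
  let _ : Fintype (Sylow 3 G) := Fintype.ofFinite _
  have hR := h.card_R R
  obtain ⟨y, hyR, hy1, hy11, hyo, hyz⟩ :=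
    exists_gen_of_card_prime (R : Subgroup G) (by norm_num) hR
  obtain ⟨k, hk⟩ := conj_eq_pow (R : Subgroup G) y hyz z hzN
  set φ := MulAction.toPermHom G (Sylow 3 G) with hφ
  by_cases hky : y ^ k = y
  · rw [hky] at hk
    have hcomm : Commute z y := by
      change z * y = y * z
      calc z * y = (z * y * z⁻¹) * z := by group
        _ = y * z := by rw [hk]
    exact hz1 (h.eq_one_of_commute_eleven y hy11 hy1 z hcomm 5 (by norm_num) hz5)
  · have hY : (φ y) ^ 11 = 1 := by rw [← map_pow, hy11, map_one]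
    have hZY : φ z * φ y * (φ z)⁻¹ = (φ y) ^ k := by
      rw [← map_inv, ← map_mul, ← map_mul, hk, map_pow]
    have hne : (φ y) ^ k ≠ φ y := by
      intro h'
      apply hky
      apply h.inj
      rw [map_pow]; exact h'
    have hf2 := fixCard_five_normalizing h.card_univ (φ y) (φ z) hY
      (fun Q => h.fpf_eleven y hy11 hy1 Q) k hZY hne (by rw [← map_pow, hz5, map_one])
    have hne' : (Finset.univ.filter (fun Q => φ z Q = Q)).Nonempty := by
      rw [← Finset.card_pos]
      have : fixCard (φ z) = (Finset.univ.filter (fun Q => φ z Q = Q)).card := rfl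
      omega
    obtain ⟨Q, hQ⟩ := hne'
    have hQ' : z • Q = Q := (Finset.mem_filter.mp hQ).2
    obtain ⟨c, hc, hc1⟩ := h.exists_gen Q
    have hcomm := h.commute_of_odd Q c hc z hQ' 5 (by decide) hz5
    have h3 := fixCard_mod_of_commute 3 (φ c) (φ z) Q (h.perm_pow Q c hc) (h.fixP Q c hc hc1)
      (hcomm.map φ)
    omega

theorem Setup.card_normalizer_R (h : Setup G) [Fact (Nat.Prime 11)] (R : Sylow 11 G) :
    Nat.card (normalizer ((R : Subgroup G) : Set G)) = 22 := by
  have : Fact (Nat.Prime 5) := ⟨by norm_num⟩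
  have hR := h.card_R R
  have hC := h.card_centralizer_R R
  set ψ := (R : Subgroup G).normalizerMonoidHom with hψ
  have hcyc : IsCyclic (R : Subgroup G) := isCyclic_of_prime_card hR
  have hcard : Nat.card (MulAut (R : Subgroup G)) = 10 := by
    rw [hcyc.card_mulAut, hR, Nat.totient_prime (by norm_num)]
  have hker : Nat.card ψ.ker = 11 := by
    rw [hψ, normalizerMonoidHom_ker]
    exact (Nat.card_congr
      (Subgroup.subgroupOfEquivOfLe (Subgroup.centralizer_le_normalizer _)).toEquiv).trans hC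
  have h1 : Nat.card ψ.ker * ψ.ker.index = Nat.card (normalizer ((R : Subgroup G) : Set G)) :=
    Subgroup.card_mul_index ψ.ker
  rw [Subgroup.index_ker, hker] at h1
  have hrange : Nat.card ψ.range ∣ 10 := by
    rw [← hcard]; exact Subgroup.card_subgroup_dvd_card ψ.range
  have h5 : ¬ 5 ∣ Nat.card (normalizer ((R : Subgroup G) : Set G)) := by
    intro hd
    obtain ⟨z, hz⟩ := exists_prime_orderOf_dvd_card' 5 hd
    have hz5 : (z : G) ^ 5 = 1 := by
      have := pow_orderOf_eq_one z
      rw [hz] at this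
      simpa using congrArg Subtype.val this
    have hz1 : (z : G) ≠ 1 := by
      intro h1
      have : z = 1 := Subtype.ext h1
      rw [this, orderOf_one] at hz
      omega
    exact h.no_five R (z : G) z.2 hz5 hz1
  have h11 : Nat.card (normalizer ((R : Subgroup G) : Set G)) ≠ 11 := by
    intro hN11
    apply h.no_transfer R
    have hle : centralizer ((R : Subgroup G) : Set G) ≤ normalizer ((R : Subgroup G) : Set G) :=
      Subgroup.centralizer_le_normalizer _
    have : centralizer ((R : Subgroup G) : Set G) = normalizer ((R : Subgroup G) : Set G) :=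
      Subgroup.eq_of_le_of_card_ge hle (by rw [hN11, hC])
    rw [this]
  have hdcases : Nat.card ψ.range = 1 ∨ Nat.card ψ.range = 2 ∨ Nat.card ψ.range = 5 ∨
      Nat.card ψ.range = 10 := by
    have hle10 := Nat.le_of_dvd (by norm_num) hrange
    have hpos : 0 < Nat.card ψ.range := Nat.card_pos
    generalize Nat.card ψ.range = d at hrange hle10 hpos
    interval_cases d <;> omega
  rcases hdcases with hd | hd | hd | hd <;> rw [hd] at h1
  · exact absurd h1.symm h11
  · omega
  · exact absurd ⟨11, by omega⟩ h5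
  · exact absurd ⟨22, by omega⟩ h5

theorem Setup.card_normalizer_mod (h : Setup G) (P : Sylow 3 G) :
    Nat.card (normalizer ((P : Subgroup G) : Set G)) % 11 = 1 := by
  have : Fact (Nat.Prime 11) := ⟨by norm_num⟩
  obtain R : Sylow 11 G := default
  have h1 := h.card_normalizer_R R
  have h2 := Subgroup.card_mul_index (normalizer ((R : Subgroup G) : Set G))
  have hidx : (normalizer ((R : Subgroup G) : Set G)).index = Nat.card (Sylow 11 G) :=
    (Sylow.card_eq_index_normalizer R).symm
  rw [hidx, h1, h.card_G P] at h2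
  have h3 : Nat.card (Sylow 11 G) % 11 = 1 := card_sylow_modEq_one 11 G
  omega

theorem Setup.card_normalizer_cases (h : Setup G) (P : Sylow 3 G) :
    Nat.card (normalizer ((P : Subgroup G) : Set G)) = 12 ∨
      Nat.card (normalizer ((P : Subgroup G) : Set G)) = 210 := by
  classical
  let _ : Fintype (Sylow 3 G) := Fintype.ofFinite _
  obtain ⟨c, hc, hc1⟩ := h.exists_gen P
  set φ := MulAction.toPermHom G (Sylow 3 G) with hφ
  set N := normalizer ((P : Subgroup G) : Set G) with hN
  have hc3 := h.pow3 P c hc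
  have hnorm : ∀ Z ∈ N.map φ, Z * φ c * Z⁻¹ = φ c ∨ Z * φ c * Z⁻¹ = (φ c)⁻¹ := by
    rintro Z ⟨g, hg, rfl⟩
    obtain ⟨k, hk⟩ := conj_eq_pow (P : Subgroup G) c (h.zpowers_eq P c hc hc1) g hg
    have hk' : c ^ k = c ^ (k % 3) := by
      conv_lhs => rw [← Nat.div_add_mod k 3, pow_add, pow_mul, hc3, one_pow, one_mul]
    have hlt : k % 3 < 3 := Nat.mod_lt _ (by norm_num)
    rw [hk'] at hk
    generalize k % 3 = r at hk hlt
    interval_cases r
    · exfalso
      rw [pow_zero] at hk
      apply hc1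
      have e : c = g⁻¹ * (g * c * g⁻¹) * g := by group
      rw [e, hk]; group
    · left
      rw [← map_inv, ← map_mul, ← map_mul, hk, pow_one]
    · right
      rw [← map_inv, ← map_mul, ← map_mul, hk, ← map_inv]
      congr 1
      rw [eq_inv_iff_mul_eq_one, ← pow_succ]
      exact hc3
  have hsign : ∀ Z ∈ N.map φ, Equiv.Perm.sign Z = 1 := by
    rintro Z ⟨g, -, rfl⟩
    exact h.sign_eq_one g
  obtain ⟨j, hj⟩ := card_dvd_blocks h.card_univ (N.map φ) (φ c) P (h.perm_pow P c hc)
    (h.fixP P c hc hc1) hnorm hsign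
  have hcardmap : Nat.card (N.map φ) = Nat.card N := Subgroup.card_map_of_injective h.inj
  rw [hcardmap] at hj
  have h11 := h.card_normalizer_mod P
  have h3 : 3 ∣ Nat.card N := by
    have := Subgroup.card_dvd_of_le (Subgroup.le_normalizer (H := (P : Subgroup G)))
    rwa [h.card3 P] at this
  have h9 : ¬ 9 ∣ Nat.card N := by
    intro hd
    have h9G : 3 ^ 2 ∣ Nat.card G := dvd_trans hd (Subgroup.card_subgroup_dvd_card N)
    have hmult := P.card_eq_multiplicity
    rw [h.card3 P] at hmult
    have hpos : 0 < Nat.card G := Nat.card_pos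
    have hle : 2 ≤ (Nat.card G).factorization 3 :=
      (Nat.prime_three.pow_dvd_iff_le_factorization hpos.ne').mp h9G
    have h9' : (3:ℕ) ^ 2 ∣ 3 ^ (Nat.card G).factorization 3 := pow_dvd_pow 3 hle
    rw [← hmult] at h9'
    norm_num at h9'
  obtain ⟨m, hm⟩ := h3
  rw [hm] at hj h11 h9 ⊢
  have hm3 : ¬ 3 ∣ m := by
    rintro ⟨q, rfl⟩
    exact h9 ⟨q, by ring⟩
  have hm560 : m ∣ 560 := by
    have e : 3 ^ j * 5040 = 3 * (3 ^ (j + 1) * 560) := by ring
    rw [e] at hj
    have h1 : m ∣ 3 ^ (j + 1) * 560 := Nat.dvd_of_mul_dvd_mul_left (by norm_num) hj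
    have hcop : Nat.Coprime m (3 ^ (j + 1)) :=
      Nat.Coprime.pow_right _ ((Nat.Prime.coprime_iff_not_dvd Nat.prime_three).mpr hm3).symm
    exact hcop.dvd_of_dvd_mul_left h1
  rcases arith_560 m hm560 h11 with rfl | rfl
  · left; rfl
  · right; rfl

/-- the case `|N_G(P)| = 210`, auxiliary version -/
theorem Setup.no_210_aux (h : Setup G) (P : Sylow 3 G) (c : G) (hc : c ∈ (P : Subgroup G))
    (hc1 : c ≠ 1) (N : Subgroup G) (hcN : c ∈ N)
    (hodd : ∀ g ∈ N, ∀ m : ℕ, Odd m → g ^ m = 1 → Commute g c) (hN : Nat.card N = 210) :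
    False := by
  classical
  have : Fact (Nat.Prime 5) := ⟨by norm_num⟩
  have : Fact (Nat.Prime 7) := ⟨by norm_num⟩
  let _ : Fintype (Sylow 3 G) := Fintype.ofFinite _
  obtain S : Sylow 7 N := default
  have hS7 : Nat.card (S : Subgroup N) = 7 :=
    Cfsg.Agent.S4304.sylow_card_eq_prime S (by rw [hN]; norm_num) (by rw [hN]; norm_num)
  have hSpow : ∀ s ∈ (S : Subgroup N), s ^ 7 = 1 := by
    intro s hs
    have := pow_card_eq_one' (G := (S : Subgroup N)) (x := ⟨s, hs⟩)
    rw [hS7] at this
    simpa using congrArg Subtype.val this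
  have hcoe : ∀ (g : N) (m : ℕ), g ^ m = 1 → (g : G) ^ m = 1 := by
    intro g m hg
    simpa using congrArg Subtype.val hg
  set ĉ : N := ⟨c, hcN⟩ with hĉ
  have hĉ3 : ĉ ^ 3 = 1 := Subtype.ext (by simpa using h.pow3 P c hc)
  have hĉ1 : ĉ ≠ 1 := fun h' => hc1 (congrArg Subtype.val h')
  have hĉC : ĉ ∈ centralizer ((S : Subgroup N) : Set N) := by
    rw [Subgroup.mem_centralizer_iff]
    intro s hs
    apply Subtype.ext
    exact (hodd (s : G) s.2 7 (by decide) (hcoe s 7 (hSpow s hs))).eq
  have hĉN : ĉ ∈ normalizer ((S : Subgroup N) : Set N) :=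
    Subgroup.centralizer_le_normalizer _ hĉC
  have h3NS : 3 ∣ Nat.card (normalizer ((S : Subgroup N) : Set N)) := by
    have := Subgroup.card_dvd_of_le (Subgroup.zpowers_le.mpr hĉN)
    rwa [Nat.card_zpowers, orderOf_eq_prime hĉ3 hĉ1] at this
  have h7NS : 7 ∣ Nat.card (normalizer ((S : Subgroup N) : Set N)) := by
    have := Subgroup.card_dvd_of_le (Subgroup.le_normalizer (H := (S : Subgroup N)))
    rwa [hS7] at this
  have h21 : 21 ∣ Nat.card (normalizer ((S : Subgroup N) : Set N)) :=
    Nat.Coprime.mul_dvd_of_dvd_of_dvd (by norm_num : Nat.Coprime 3 7) h3NS h7NS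
  have hidx : (normalizer ((S : Subgroup N) : Set N)).index = Nat.card (Sylow 7 N) :=
    (Sylow.card_eq_index_normalizer S).symm
  have hmul := Subgroup.card_mul_index (normalizer ((S : Subgroup N) : Set N))
  rw [hN] at hmul
  have hmod : Nat.card (Sylow 7 N) % 7 = 1 := card_sylow_modEq_one 7 N
  rw [← hidx] at hmod
  have hidx1 : (normalizer ((S : Subgroup N) : Set N)).index = 1 := by
    obtain ⟨q, hq⟩ := h21
    rw [hq] at hmul
    have hd : (normalizer ((S : Subgroup N) : Set N)).index ∣ 10 := ⟨q, by linarith⟩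
    have hle := Nat.le_of_dvd (by norm_num) hd
    generalize (normalizer ((S : Subgroup N) : Set N)).index = i at hd hle hmod
    interval_cases i <;> omega
  have hNStop : normalizer ((S : Subgroup N) : Set N) = ⊤ := Subgroup.index_eq_one.mp hidx1
  obtain ⟨z, hz⟩ := exists_prime_orderOf_dvd_card' (G := N) 5 (by rw [hN]; norm_num)
  have hz5 : z ^ 5 = 1 := by rw [← hz]; exact pow_orderOf_eq_one z
  have hz1 : z ≠ 1 := by
    rintro rfl
    rw [orderOf_one] at hz
    omega
  have hzC := Cfsg.Agent.S4304.centralizes_of_coprime (S : Subgroup N) (by norm_num : Nat.Prime 7)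
    hS7 z (by rw [hNStop]; exact Subgroup.mem_top z) hz5 (by norm_num)
  obtain ⟨w, hw, hw1, hw7, -, -⟩ := exists_gen_of_card_prime (S : Subgroup N) (by norm_num) hS7
  have hzw : (z : G) * (w : G) = (w : G) * (z : G) := by
    have h1 := Subgroup.mem_centralizer_iff.mp hzC w hw
    have h2 := congrArg Subtype.val h1
    simpa using h2.symm
  set φ := MulAction.toPermHom G (Sylow 3 G) with hφ
  have hz5' := hcoe z 5 hz5
  have hw7' := hcoe w 7 hw7
  refine no_five_seven h.card_univ (φ c) (φ z) (φ w) P (h.perm_pow P c hc) (h.fixP P c hc hc1)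
    ((hodd (z : G) z.2 5 (by decide) hz5').map φ) ((hodd (w : G) w.2 7 (by decide) hw7').map φ)
    (Commute.map hzw φ) (by rw [← map_pow, hz5', map_one]) (by rw [← map_pow, hw7', map_one])
    ?_ ?_
  · intro h'
    exact hz1 (Subtype.ext (h.inj (h'.trans (map_one φ).symm)))
  · intro h'
    exact hw1 (Subtype.ext (h.inj (h'.trans (map_one φ).symm)))

/-- the case `|N_G(P)| = 210` -/
theorem Setup.no_210 (h : Setup G) (P : Sylow 3 G)
    (hN : Nat.card (normalizer ((P : Subgroup G) : Set G)) = 210) : False := by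
  obtain ⟨c, hc, hc1⟩ := h.exists_gen P
  refine h.no_210_aux P c hc hc1 (normalizer ((P : Subgroup G) : Set G))
    (Subgroup.le_normalizer hc) ?_ hN
  intro g hg m hm hgm
  exact h.commute_of_odd P c hc g (Sylow.smul_eq_iff_mem_normalizer.mpr hg) m hm hgm

/-- the case `|N_G(P)| = 12` -/
theorem Setup.no_12 (h : Setup G) (P : Sylow 3 G)
    (hN : Nat.card (normalizer ((P : Subgroup G) : Set G)) = 12) : False := by
  classical
  have : Fact (Nat.Prime 11) := ⟨by norm_num⟩
  have : Fact (Nat.Prime 2) := ⟨Nat.prime_two⟩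
  obtain R : Sylow 11 G := default
  have hR := h.card_R R
  have hNR := h.card_normalizer_R R
  let _ : Fintype (Sylow 11 G) := Fintype.ofFinite _
  have hΩ : Fintype.card (Sylow 11 G) = 12 := by
    rw [← Nat.card_eq_fintype_card]
    have h2 := Subgroup.card_mul_index (normalizer ((R : Subgroup G) : Set G))
    have hidx : (normalizer ((R : Subgroup G) : Set G)).index = Nat.card (Sylow 11 G) :=
      (Sylow.card_eq_index_normalizer R).symm
    rw [hidx, hNR, h.card_G P, hN] at h2
    omega
  obtain ⟨y, hyR, hy1, hy11, hyo, hyz⟩ :=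
    exists_gen_of_card_prime (R : Subgroup G) (by norm_num) hR
  have hfixR : ∀ w ∈ (R : Subgroup G), w ≠ 1 → ∀ R' : Sylow 11 G, w • R' = R' ↔ R' = R := by
    intro w hw hw1 R'
    constructor
    · intro hw'
      rw [Sylow.smul_eq_iff_mem_normalizer] at hw'
      have h1 : w ∈ (R : Subgroup G) ⊓ normalizer (R' : Set G) := ⟨hw, hw'⟩
      rw [R.isPGroup'.inf_normalizer_sylow R'] at h1
      have hz := (zpowers_eq_of_card_prime (R : Subgroup G) (by norm_num) hR w hw hw1).2.2
      have hle : (R : Subgroup G) ≤ R' := by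
        rw [← hz]; exact Subgroup.zpowers_le.mpr h1.2
      exact (sylow_eq_of_le hle).symm
    · rintro rfl
      rw [Sylow.smul_eq_iff_mem_normalizer]
      exact Subgroup.le_normalizer hw
  obtain ⟨u, hu⟩ := exists_prime_orderOf_dvd_card' (G := normalizer ((R : Subgroup G) : Set G)) 2
    (by rw [hNR]; norm_num)
  have hu2 : (u : G) ^ 2 = 1 := by
    have := pow_orderOf_eq_one u
    rw [hu] at this
    simpa using congrArg Subtype.val this
  have hu1 : (u : G) ≠ 1 := by
    intro h1
    have : u = 1 := Subtype.ext h1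
    rw [this, orderOf_one] at hu
    omega
  obtain ⟨k, hk⟩ := conj_eq_pow (R : Subgroup G) y hyz (u : G) u.2
  set ψ := MulAction.toPermHom G (Sylow 11 G) with hψ
  have hY : (ψ y) ^ 11 = 1 := by rw [← map_pow, hy11, map_one]
  have hUY : ψ u * ψ y * (ψ u)⁻¹ = (ψ y) ^ k := by
    rw [← map_inv, ← map_mul, ← map_mul, hk, map_pow]
  have hne : (ψ y) ^ k ≠ ψ y := by
    intro h'
    by_cases hky : y ^ k = y
    · rw [hky] at hk
      have hcomm : Commute (u : G) y := by
        change (u : G) * y = y * u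
        calc (u : G) * y = ((u : G) * y * (u : G)⁻¹) * u := by group
          _ = y * u := by rw [hk]
      exact hu1 (h.eq_one_of_commute_eleven y hy11 hy1 (u : G) hcomm 2 (by norm_num) hu2)
    · have hwR : y ^ k * y⁻¹ ∈ (R : Subgroup G) := mul_mem (pow_mem hyR k) (inv_mem hyR)
      have hw1 : y ^ k * y⁻¹ ≠ 1 := by
        intro h1
        exact hky (mul_inv_eq_one.mp h1)
      have hψw : ψ (y ^ k * y⁻¹) = 1 := by
        rw [map_mul, map_pow, map_inv, h', mul_inv_cancel]
      have hall : ∀ R' : Sylow 11 G, R' = R := by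
        intro R'
        apply (hfixR _ hwR hw1 R').mp
        have h2 : ψ (y ^ k * y⁻¹) R' = R' := by rw [hψw]; rfl
        exact h2
      have hcard : Fintype.card (Sylow 11 G) ≤ 1 :=
        Fintype.card_le_one_iff.mpr (fun a b => by rw [hall a, hall b])
      omega
  have hsgn := sign_reflection hΩ (ψ y) (ψ u) R hY (hfixR y hyR hy1) k hUY hne
    (by rw [← map_pow, hu2, map_one])
  have h1 := h.hom_units (Equiv.Perm.sign.comp ψ) (u : G)
  rw [MonoidHom.comp_apply, hsgn] at h1
  exact absurd h1 (by decide)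

/-- there is no minimal counterexample -/
theorem Setup.false (h : Setup G) : False := by
  obtain P : Sylow 3 G := default
  rcases h.card_normalizer_cases P with h12 | h210
  · exact h.no_12 P h12
  · exact h.no_210 P h210

theorem min_counter (hn : Nat.card (Sylow 3 G) = 22)
    (hmin : ∀ (H : Type u) [Group H] [Finite H], Nat.card H < Nat.card G →
      Nat.card (Sylow 3 H) ≠ 22) : False := by
  classical
  let _ : Fintype (Sylow 3 G) := Fintype.ofFinite _
  have hM1 : ∀ (P : Sylow 3 G) (M : Subgroup G), M.Normal → (P : Subgroup G) ≤ M → M = ⊤ := by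
    intro P M hMn hPM
    by_contra hM
    have h1 := Cfsg.Agent.S4304.card_sylow_of_normal M P hPM
    rw [hn] at h1
    refine hmin M ?_ h1
    have hle : Nat.card M ≤ Nat.card G := Subgroup.card_le_card_group M
    have hne : Nat.card M ≠ Nat.card G := fun h => hM ((Subgroup.card_eq_iff_eq_top M).mp h)
    omega
  set φ : G →* Equiv.Perm (Sylow 3 G) := MulAction.toPermHom G (Sylow 3 G) with hφ
  have hφapp : ∀ (g : G) (S : Sylow 3 G), φ g S = g • S := fun g S => rfl
  have hker_norm : ∀ S : Sylow 3 G, φ.ker ≤ normalizer (S : Set G) := by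
    intro S g hg
    rw [MonoidHom.mem_ker] at hg
    rw [← Sylow.smul_eq_iff_mem_normalizer, ← hφapp, hg]; rfl
  have hker : φ.ker = ⊥ := by
    by_contra hk
    have h1 := Cfsg.Agent.S4304.card_sylow_quotient φ.ker hker_norm
    rw [hn] at h1
    refine hmin (G ⧸ φ.ker) ?_ h1
    have h2 := Subgroup.card_mul_index φ.ker
    have h3 : 1 < Nat.card φ.ker := (Subgroup.one_lt_card_iff_ne_bot _).mpr hk
    change φ.ker.index < _
    have hpos : 0 < φ.ker.index := Nat.pos_of_ne_zero Subgroup.index_ne_zero_of_finite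
    nlinarith
  have hfaith : ∀ g : G, (∀ S : Sylow 3 G, g • S = S) → g = 1 := by
    intro g hg
    have : g ∈ φ.ker := by
      rw [MonoidHom.mem_ker]
      ext S : 1
      rw [hφapp, Equiv.Perm.one_apply, hg S]
    rw [hker] at this
    exact Subgroup.mem_bot.mp this
  have hTI : ∀ P Q : Sylow 3 G, P ≠ Q → (P : Subgroup G) ⊓ Q = ⊥ := by
    intro P Q hPQ
    rw [eq_bot_iff, ← hker]
    intro g hg
    rw [MonoidHom.mem_ker]
    ext S : 1
    rw [hφapp, Equiv.Perm.one_apply, Sylow.smul_eq_iff_mem_normalizer]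
    exact Subgroup.le_normalizer ((inter_le_all hn P Q hPQ).2 S hg)
  have hcard3 : ∀ P : Sylow 3 G, Nat.card (P : Subgroup G) = 3 := by
    intro P
    have hnontriv : ∃ Q : Sylow 3 G, Q ≠ P := by
      have : Nontrivial (Sylow 3 G) :=
        (Finite.one_lt_card_iff_nontrivial).mp (by rw [hn]; norm_num)
      exact exists_ne P
    obtain ⟨Q, hQP⟩ := hnontriv
    have h1 := (inter_le_all hn P Q (Ne.symm hQP)).1.card
    rw [hTI P Q (Ne.symm hQP), Subgroup.card_bot] at h1
    omega
  have hfixP : ∀ (P : Sylow 3 G) (g : G), g ∈ (P : Subgroup G) → g ≠ 1 →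
      ∀ S : Sylow 3 G, g • S = S ↔ S = P := by
    intro P g hgP hg1 S
    constructor
    · intro h
      by_contra hSP
      rw [Sylow.smul_eq_iff_mem_normalizer] at h
      have h1 : g ∈ (P : Subgroup G) ⊓ normalizer (S : Set G) := ⟨hgP, h⟩
      rw [P.isPGroup'.inf_normalizer_sylow S, hTI P S (Ne.symm hSP)] at h1
      exact hg1 (Subgroup.mem_bot.mp h1)
    · rintro rfl
      rw [Sylow.smul_eq_iff_mem_normalizer]
      exact Subgroup.le_normalizer hgP
  exact Setup.false ⟨hn, hM1, hfaith, hcard3, hfixP⟩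

theorem main_aux : ∀ (n : ℕ) (G : Type u) [Group G] [Finite G],
    Nat.card G = n → Nat.card (Sylow 3 G) ≠ 22 := by
  intro n
  induction n using Nat.strong_induction_on with
  | _ n ih =>
    intro G _ _ hcard hn
    exact min_counter hn (fun H _ _ hlt => ih (Nat.card H) (hcard ▸ hlt) H rfl)

end Main

end Cfsg.Agent.Lib.Helper69.Syl22
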