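import Mathlib
import Cfsg.Prelude.Def_OddOrderLocal
import Cfsg.Prelude.Def_Solvable
import Cfsg.Agent.Lib.Helper69.Wielandt
import Cfsg.Agent.S4116

/-!
TI-subgroups that are Hall subgroups of their normalizers: normal complements
(via Wielandt's theorem) and Frobenius sections.
-/

set_option autoImplicit false
set_option linter.unusedSectionVars false

namespace Cfsg.Agent.Lib.Helper69

universe u

section tihall

variable {G : Type u} [Group G] [Finite G] (H : Subgroup G)

theorem tiHall_pow_mem (x : G) (hx : x ∈ Subgroup.normalizer (H : Set G)) :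
    x ^ (H.subgroupOf (Subgroup.normalizer (H : Set G))).index ∈ H := by
  have h1 : (⟨x, hx⟩ : Subgroup.normalizer (H : Set G)) ^
      (H.subgroupOf (Subgroup.normalizer (H : Set G))).index ∈
        H.subgroupOf (Subgroup.normalizer (H : Set G)) :=
    Subgroup.pow_index_mem _ _
  simpa [Subgroup.mem_subgroupOf] using h1

theorem tiHall_pow_eq_one (hTI : Cfsg.IsTISubset (H : Set G)) (g : G)
    (hg : g ∉ Subgroup.normalizer (H : Set G)) (x : G)
    (hx : x ∈ Subgroup.normalizer (H : Set G))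
    (hgx : g⁻¹ * x * g ∈ Subgroup.normalizer (H : Set G)) :
    x ^ (H.subgroupOf (Subgroup.normalizer (H : Set G))).index = 1 := by
  have h1 := tiHall_pow_mem H x hx
  have h2 := tiHall_pow_mem H _ hgx
  have h3 : (g⁻¹ * x * g) ^ (H.subgroupOf (Subgroup.normalizer (H : Set G))).index =
      g⁻¹ * x ^ (H.subgroupOf (Subgroup.normalizer (H : Set G))).index * (g⁻¹)⁻¹ := by
    rw [← conj_pow, inv_inv]
  rw [h3] at h2
  exact hTI g⁻¹ (fun h => hg (by simpa using Subgroup.inv_mem _ h)) _ h1 h2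

theorem tiHall_mem_normalizer (hTI : Cfsg.IsTISubset (H : Set G))
    (hHall : (Nat.card H).Coprime (H.subgroupOf (Subgroup.normalizer (H : Set G))).index)
    (h : G) (hh : h ∈ H) (h1 : h ≠ 1) (g : G)
    (hg : g⁻¹ * h * g ∈ Subgroup.normalizer (H : Set G)) :
    g ∈ Subgroup.normalizer (H : Set G) := by
  by_contra hgN
  have h2 := tiHall_pow_eq_one H hTI g hgN h (Subgroup.le_normalizer hh) hg
  have h3 := orderOf_dvd_of_pow_eq_one h2
  have h4 : orderOf h ∣ Nat.card H := by
    have := orderOf_dvd_natCard (⟨h, hh⟩ : H)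
    rwa [Subgroup.orderOf_mk] at this
  have h5 : orderOf h = 1 := Nat.dvd_one.mp (hHall.gcd_eq_one ▸ Nat.dvd_gcd h4 h3)
  exact h1 (orderOf_eq_one_iff.mp h5)

/-- A normal complement of `H` in `N_G(H)` gives a normal complement of `H` in `G`. -/
theorem tiHall_exists_normal_complement (hTI : Cfsg.IsTISubset (H : Set G))
    (hHall : (Nat.card H).Coprime (H.subgroupOf (Subgroup.normalizer (H : Set G))).index)
    (K : Subgroup (Subgroup.normalizer (H : Set G))) (hKn : K.Normal)
    (hK : K.IsComplement' (H.subgroupOf (Subgroup.normalizer (H : Set G)))) :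
    ∃ K₀ : Subgroup G, K₀.Normal ∧ K₀.IsComplement' H := by
  have hcardH' : Nat.card (H.subgroupOf (Subgroup.normalizer (H : Set G))) = Nat.card H :=
    Nat.card_congr (Subgroup.subgroupOfEquivOfLe Subgroup.le_normalizer).toEquiv
  have hQ : Nat.card ((Subgroup.normalizer (H : Set G)) ⧸ K) = Nat.card H := by
    rw [← Subgroup.index_eq_card, hK.symm.index_eq_card, hcardH']
  obtain ⟨K₀, hK₀n, hK₀N, -, hcard⟩ := wielandt_normal_complement
    (Subgroup.normalizer (H : Set G)) (QuotientGroup.mk' K)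
    (QuotientGroup.mk'_surjective K) (by
      intro g hg x hx
      have h1 := tiHall_pow_eq_one H hTI g hg x x.2 hx
      rw [QuotientGroup.mk'_apply]
      have h2 : ((x : (Subgroup.normalizer (H : Set G)) ⧸ K)) ^
          (H.subgroupOf (Subgroup.normalizer (H : Set G))).index = 1 := by
        rw [← QuotientGroup.mk_pow]
        have : x ^ (H.subgroupOf (Subgroup.normalizer (H : Set G))).index = 1 :=
          Subtype.ext (by simpa using h1)
        rw [this]
        rfl
      have h3 : ((x : (Subgroup.normalizer (H : Set G)) ⧸ K)) ^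
          Nat.card ((Subgroup.normalizer (H : Set G)) ⧸ K) = 1 := pow_card_eq_one'
      have h4 := orderOf_dvd_of_pow_eq_one h2
      have h5 := orderOf_dvd_of_pow_eq_one h3
      rw [hQ] at h5
      have h6 : orderOf (x : (Subgroup.normalizer (H : Set G)) ⧸ K) = 1 :=
        Nat.dvd_one.mp (hHall.gcd_eq_one ▸ Nat.dvd_gcd h5 h4)
      exact orderOf_eq_one_iff.mp h6)
  refine ⟨K₀, hK₀n, ?_⟩
  apply Subgroup.isComplement'_of_card_mul_and_disjoint
  · rw [← hQ]
    exact hcard
  · rw [Subgroup.disjoint_def]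
    intro x hxK hxH
    have h1 := (hK₀N ⟨x, Subgroup.le_normalizer hxH⟩).mp hxK
    have h2 : (⟨x, Subgroup.le_normalizer hxH⟩ : Subgroup.normalizer (H : Set G)) ∈ K :=
      (QuotientGroup.eq_one_iff _).mp h1
    have h3 : (⟨x, Subgroup.le_normalizer hxH⟩ : Subgroup.normalizer (H : Set G)) ∈
        H.subgroupOf (Subgroup.normalizer (H : Set G)) := by
      rw [Subgroup.mem_subgroupOf]
      exact hxH
    have h4 := Subgroup.disjoint_def.mp hK.disjoint h2 h3
    exact congrArg Subtype.val h4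

/-- A normal complement of `H` in `G` gives a normal complement of `H` in `N_G(H)`. -/
theorem tiHall_complement_in_normalizer (N₀ : Subgroup G) (hN₀ : N₀.Normal)
    (hc : N₀.IsComplement' H) :
    ∃ K : Subgroup (Subgroup.normalizer (H : Set G)), K.Normal ∧
      K.IsComplement' (H.subgroupOf (Subgroup.normalizer (H : Set G))) := by
  refine ⟨N₀.subgroupOf (Subgroup.normalizer (H : Set G)), hN₀.subgroupOf _, ?_⟩
  apply Subgroup.isComplement'_of_disjoint_and_mul_eq_univ
  · rw [Subgroup.disjoint_def]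
    intro x hx1 hx2
    rw [Subgroup.mem_subgroupOf] at hx1 hx2
    exact Subtype.ext (Subgroup.disjoint_def.mp hc.disjoint hx1 hx2)
  · rw [Set.eq_univ_iff_forall]
    intro n
    obtain ⟨⟨a, b⟩, hab, -⟩ := (Subgroup.isComplement_iff_existsUnique.mp hc) (n : G)
    have hab' : (a : G) * (b : G) = (n : G) := hab
    have hbN : (b : G) ∈ Subgroup.normalizer (H : Set G) := Subgroup.le_normalizer b.2
    have haN : (a : G) ∈ Subgroup.normalizer (H : Set G) := by
      have : (a : G) = (n : G) * (b : G)⁻¹ := by rw [← hab']; group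
      rw [this]
      exact Subgroup.mul_mem _ n.2 (Subgroup.inv_mem _ hbN)
    refine Set.mem_mul.mpr ⟨⟨a, haN⟩, ?_, ⟨b, hbN⟩, ?_, ?_⟩
    · show (⟨a, haN⟩ : Subgroup.normalizer (H : Set G)) ∈
        N₀.subgroupOf (Subgroup.normalizer (H : Set G))
      rw [Subgroup.mem_subgroupOf]
      exact a.2
    · show (⟨b, hbN⟩ : Subgroup.normalizer (H : Set G)) ∈
        H.subgroupOf (Subgroup.normalizer (H : Set G))
      rw [Subgroup.mem_subgroupOf]
      exact b.2
    · exact Subtype.ext hab'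

/-- A TI-subgroup that is a Hall subgroup of its normalizer is a Hall subgroup. -/
theorem tiHall_coprime_index (hTI : Cfsg.IsTISubset (H : Set G))
    (hHall : (Nat.card H).Coprime (H.subgroupOf (Subgroup.normalizer (H : Set G))).index) :
    (Nat.card H).Coprime H.index := by
  by_contra hc
  obtain ⟨p, hp, hpH, hpi⟩ := Nat.Prime.not_coprime_iff_dvd.mp hc
  have := Fact.mk hp
  obtain ⟨h, hh⟩ := exists_prime_orderOf_dvd_card' p hpH
  have hh' : orderOf (h : G) = p := by rw [Subgroup.orderOf_coe]; exact hh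
  have hh1 : (h : G) ≠ 1 := by
    intro h1
    rw [h1, orderOf_one] at hh'
    exact hp.one_lt.ne hh'
  have hP : IsPGroup p (Subgroup.zpowers (h : G)) := by
    apply IsPGroup.of_card (n := 1)
    rw [Nat.card_zpowers, hh', pow_one]
  have hmod := hP.card_modEq_card_fixedPoints (G ⧸ Subgroup.normalizer (H : Set G))
  have hfix : MulAction.fixedPoints (Subgroup.zpowers (h : G))
      (G ⧸ Subgroup.normalizer (H : Set G)) =
        {(QuotientGroup.mk 1 : G ⧸ Subgroup.normalizer (H : Set G))} := by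
    ext q
    rw [MulAction.mem_fixedPoints, Set.mem_singleton_iff]
    constructor
    · intro hq
      induction q using QuotientGroup.induction_on with
      | H g =>
        have h1 := hq ⟨(h : G), Subgroup.mem_zpowers _⟩
        have h2 : ((h : G) * g : G ⧸ Subgroup.normalizer (H : Set G)) = (g : G ⧸ _) := h1
        rw [QuotientGroup.eq] at h2
        have h3 : g⁻¹ * (h : G) * g ∈ Subgroup.normalizer (H : Set G) := by
          have := Subgroup.inv_mem _ h2
          have e : (((h : G) * g)⁻¹ * g)⁻¹ = g⁻¹ * (h : G) * g := by group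
          rwa [e] at this
        have h4 := tiHall_mem_normalizer H hTI hHall (h : G) h.2 hh1 g h3
        rw [QuotientGroup.eq]
        simpa using Subgroup.inv_mem _ h4
    · rintro rfl z
      have hz : (z : G) ∈ Subgroup.normalizer (H : Set G) := by
        have : Subgroup.zpowers (h : G) ≤ H := by
          rw [Subgroup.zpowers_le]; exact h.2
        exact Subgroup.le_normalizer (this z.2)
      show (((z : G) * 1 : G) : G ⧸ Subgroup.normalizer (H : Set G)) = ((1 : G) : G ⧸ _)
      rw [QuotientGroup.eq]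
      simpa using Subgroup.inv_mem _ hz
  have hc1 : Nat.card (({(QuotientGroup.mk 1 : G ⧸ Subgroup.normalizer (H : Set G))} :
      Set (G ⧸ Subgroup.normalizer (H : Set G))) : Type u) = 1 := by
    simp
  rw [hfix, hc1] at hmod
  have hidx : (H.subgroupOf (Subgroup.normalizer (H : Set G))).index *
      (Subgroup.normalizer (H : Set G)).index = H.index :=
    Subgroup.relIndex_mul_index Subgroup.le_normalizer
  rw [← hidx] at hpi
  rcases hp.dvd_mul.mp hpi with h1 | h1
  · have := Nat.dvd_gcd hpH h1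
    rw [hHall.gcd_eq_one] at this
    exact hp.one_lt.ne' (Nat.dvd_one.mp this)
  · rw [← Subgroup.index_eq_card] at hmod
    have h2 : (Subgroup.normalizer (H : Set G)).index % p = 1 % p := hmod
    rw [Nat.mod_eq_zero_of_dvd h1, Nat.mod_eq_of_lt hp.one_lt] at h2
    exact absurd h2 (by norm_num)

/-- **Frobenius section lemma.** If `T ≥ H` is not contained in `N_G(H)` and
`D = T ∩ K₀ ∩ N_G(H)` is normal in `T`, then the image of `H` in `T / D` is a Frobenius
complement isomorphic to `H`. -/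
theorem tiHall_frobenius_section (hTI : Cfsg.IsTISubset (H : Set G))
    (hHall : (Nat.card H).Coprime (H.subgroupOf (Subgroup.normalizer (H : Set G))).index)
    (K₀ : Subgroup G) (hK₀c : K₀.IsComplement' H)
    (T D : Subgroup G) (hHT : H ≤ T) (hDT : D ≤ T)
    (hTD : T ≤ Subgroup.normalizer (D : Set G))
    (hDK : D ≤ K₀) (hDN : D ≤ Subgroup.normalizer (H : Set G))
    (hTKN : ∀ t ∈ T, t ∈ K₀ → t ∈ Subgroup.normalizer (H : Set G) → t ∈ D)
    (hTN : ¬ T ≤ Subgroup.normalizer (H : Set G)) :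
    ∃ (F : Type u) (_ : Group F) (_ : Finite F) (C : Subgroup F),
      Cfsg.IsFrobeniusComplement C ∧ Nonempty (H ≃* C) := by
  classical
  have hDn : (D.subgroupOf T).Normal :=
    (Subgroup.normal_subgroupOf_iff_le_normalizer hDT).mpr hTD
  let π : T →* (T ⧸ D.subgroupOf T) := QuotientGroup.mk' (D.subgroupOf T)
  let φ : H →* (T ⧸ D.subgroupOf T) := π.comp (Subgroup.inclusion hHT)
  have hφ1 : ∀ h : H, φ h = 1 → h = 1 := by
    intro h hh
    have h1 : (Subgroup.inclusion hHT h) ∈ D.subgroupOf T := (QuotientGroup.eq_one_iff _).mp hh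
    rw [Subgroup.mem_subgroupOf] at h1
    have h2 : (h : G) ∈ D := h1
    have h3 := Subgroup.disjoint_def.mp hK₀c.disjoint (hDK h2) h.2
    exact Subtype.ext h3
  have hφinj : Function.Injective φ := (injective_iff_map_eq_one φ).mpr hφ1
  have hφeq : ∀ (t : T) (h : H), π t = φ h → ∃ d ∈ D, (t : G) = h * d := by
    intro t h hth
    have h1 : (Subgroup.inclusion hHT h)⁻¹ * t ∈ D.subgroupOf T :=
      QuotientGroup.eq.mp hth.symm
    rw [Subgroup.mem_subgroupOf] at h1
    refine ⟨_, h1, ?_⟩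
    simp
  refine ⟨T ⧸ D.subgroupOf T, inferInstance, inferInstance, φ.range, ⟨?_, ?_, ?_⟩,
    ⟨MonoidHom.ofInjective hφinj⟩⟩
  · intro hbot
    apply hTN
    intro t _
    have hH : ∀ x ∈ H, x = 1 := by
      intro x hx
      have : φ ⟨x, hx⟩ ∈ φ.range := ⟨_, rfl⟩
      rw [hbot, Subgroup.mem_bot] at this
      exact congrArg Subtype.val (hφ1 _ this)
    rw [Subgroup.mem_normalizer_iff]
    intro x
    constructor
    · intro hx
      rw [hH x hx]
      simp [H.one_mem]
    · intro hx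
      have := hH _ hx
      have e : x = t⁻¹ * (t * x * t⁻¹) * t := by group
      rw [e, this]
      simp [H.one_mem]
  · intro htop
    apply hTN
    intro t ht
    have : π ⟨t, ht⟩ ∈ φ.range := by rw [htop]; trivial
    obtain ⟨h, hh⟩ := this
    obtain ⟨d, hd, e⟩ := hφeq ⟨t, ht⟩ h hh.symm
    rw [show t = h * d from e]
    exact Subgroup.mul_mem _ (Subgroup.le_normalizer h.2) (hDN hd)
  · intro g hg
    rw [eq_bot_iff]
    intro y hy
    rw [Subgroup.mem_inf] at hy
    obtain ⟨⟨h₁, rfl⟩, hy2⟩ := hy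
    rw [Helper71.mem_conj_smul_iff] at hy2
    obtain ⟨h₂, hh₂⟩ := hy2
    obtain ⟨t, rfl⟩ := QuotientGroup.mk'_surjective (D.subgroupOf T) g
    rw [Subgroup.mem_bot]
    by_contra hne
    have hh₁ : h₁ ≠ 1 := by
      rintro rfl
      exact hne (map_one φ)
    apply hg
    have h1 : π (t⁻¹ * Subgroup.inclusion hHT h₁ * t) = φ h₂ := by
      rw [hh₂]
      simp [π, φ]
    obtain ⟨d, hd, e⟩ := hφeq _ h₂ h1
    have h2 : (t : G)⁻¹ * (h₁ : G) * (t : G) ∈ Subgroup.normalizer (H : Set G) := by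
      have : (t : G)⁻¹ * (h₁ : G) * (t : G) = h₂ * d := e
      rw [this]
      exact Subgroup.mul_mem _ (Subgroup.le_normalizer h₂.2) (hDN hd)
    have h3 := tiHall_mem_normalizer H hTI hHall (h₁ : G) h₁.2
      (fun h => hh₁ (Subtype.ext h)) (t : G) h2
    obtain ⟨⟨a, b⟩, hab, -⟩ := (Subgroup.isComplement_iff_existsUnique.mp hK₀c) (t : G)
    have hab' : (a : G) * (b : G) = (t : G) := hab
    have haT : (a : G) ∈ T := by
      have : (a : G) = (t : G) * (b : G)⁻¹ := by rw [← hab']; group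
      rw [this]
      exact T.mul_mem t.2 (T.inv_mem (hHT b.2))
    have haN : (a : G) ∈ Subgroup.normalizer (H : Set G) := by
      have : (a : G) = (t : G) * (b : G)⁻¹ := by rw [← hab']; group
      rw [this]
      exact Subgroup.mul_mem _ h3 (Subgroup.inv_mem _ (Subgroup.le_normalizer b.2))
    have haD : (a : G) ∈ D := hTKN a haT a.2 haN
    refine ⟨b, ?_⟩
    have h4 : t = ⟨a, haT⟩ * Subgroup.inclusion hHT b := Subtype.ext hab'.symm
    have h5 : π ⟨a, haT⟩ = 1 :=
      (QuotientGroup.eq_one_iff _).mpr (by rw [Subgroup.mem_subgroupOf]; exact haD)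
    show π (Subgroup.inclusion hHT b) = π t
    rw [h4, map_mul, h5, one_mul]

/-- If `H` is not normal, then `H` normalizes some `r`-subgroup of the normal complement `K₀`
that does not lie in `N_G(H)`. (Frattini argument, Schur–Zassenhaus, and conjugacy of
Hall TI-subgroups.) -/
theorem tiHall_exists_invariant_pSubgroup (hTI : Cfsg.IsTISubset (H : Set G))
    (hHall : (Nat.card H).Coprime (H.subgroupOf (Subgroup.normalizer (H : Set G))).index)
    (hHn : ¬ H.Normal) (K₀ : Subgroup G) (hK₀n : K₀.Normal) (hK₀c : K₀.IsComplement' H) :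
    ∃ (r : ℕ) (R : Subgroup G), r.Prime ∧ IsPGroup r R ∧ R ≤ K₀ ∧
      (∀ h ∈ H, ∀ x ∈ R, h * x * h⁻¹ ∈ R) ∧ ¬ R ≤ Subgroup.normalizer (H : Set G) := by
  classical
  have hHallG := tiHall_coprime_index H hTI hHall
  have hidxH : H.index = Nat.card K₀ := hK₀c.index_eq_card
  have hidxK : K₀.index = Nat.card H := hK₀c.symm.index_eq_card
  have hcop : (Nat.card H).Coprime (Nat.card K₀) := hidxH ▸ hHallG
  have hNtop : Subgroup.normalizer (H : Set G) ≠ ⊤ :=
    fun h => hHn (Subgroup.normalizer_eq_top_iff.mp h)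
  have hNidx : (Subgroup.normalizer (H : Set G)).index ≠ 1 :=
    fun h => hNtop (Subgroup.index_eq_one.mp h)
  obtain ⟨r, hr, hrN⟩ := Nat.exists_prime_and_dvd hNidx
  have := Fact.mk hr
  have hrK : r ∣ Nat.card K₀ := by
    rw [← hidxH]
    exact hrN.trans (Subgroup.index_dvd_of_le Subgroup.le_normalizer)
  have hrH : ¬ r ∣ Nat.card H := by
    intro h
    have := Nat.dvd_gcd h hrK
    rw [hcop.gcd_eq_one] at this
    exact hr.one_lt.ne' (Nat.dvd_one.mp this)
  obtain ⟨P⟩ : Nonempty (Sylow r K₀) := inferInstance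
  have hFr : Subgroup.normalizer (((P : Subgroup K₀).map K₀.subtype : Subgroup G) : Set G) ⊔ K₀
      = ⊤ := Sylow.normalizer_sup_eq_top P
  obtain ⟨R, hR⟩ : ∃ R : Subgroup G, R = (P : Subgroup K₀).map K₀.subtype := ⟨_, rfl⟩
  rw [← hR] at hFr
  obtain ⟨M, hM⟩ : ∃ M : Subgroup G, M = Subgroup.normalizer (R : Set G) := ⟨_, rfl⟩
  rw [← hM] at hFr
  have hAn : (K₀.subgroupOf M).Normal := hK₀n.subgroupOf M
  have hAidx : (K₀.subgroupOf M).index = Nat.card H := by
    show K₀.relIndex M = _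
    rw [← Subgroup.relIndex_sup_right, hFr, Subgroup.relIndex_top_right, hidxK]
  have hAcard : Nat.card (K₀.subgroupOf M) ∣ Nat.card K₀ := by
    have e1 : K₀.subgroupOf M = (K₀ ⊓ M).subgroupOf M := (Subgroup.inf_subgroupOf_right K₀ M).symm
    rw [e1, Nat.card_congr (Subgroup.subgroupOfEquivOfLe (inf_le_right : K₀ ⊓ M ≤ M)).toEquiv]
    exact Subgroup.card_dvd_of_le inf_le_left
  have hcopA : (Nat.card (K₀.subgroupOf M)).Coprime (K₀.subgroupOf M).index := by
    rw [hAidx]
    exact hcop.symm.coprime_dvd_left hAcard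
  obtain ⟨B, hB⟩ := Subgroup.exists_right_complement'_of_coprime hcopA
  have hBcard : Nat.card B = Nat.card H := by
    rw [← hAidx]
    exact hB.symm.index_eq_card.symm
  have hJcard : Nat.card (B.map M.subtype) = Nat.card H := by
    rw [Subgroup.card_map_of_injective (Subgroup.subtype_injective M)]
    exact hBcard
  have hJM : B.map M.subtype ≤ M := Subgroup.map_subtype_le B
  obtain ⟨c, hc⟩ := Cfsg.Agent.S4116.result H hHallG hTI (B.map M.subtype) (by
    intro q _ hqJ
    rwa [hJcard] at hqJ)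
  have hJeq : B.map M.subtype = H.map (MulAut.conj c).toMonoidHom := by
    apply Subgroup.eq_of_le_of_card_ge hc
    rw [hJcard, Subgroup.card_map_of_injective (MulAut.conj c).injective]
  have hRcard : Nat.card R = Nat.card P := by
    rw [hR, Subgroup.card_map_of_injective K₀.subtype_injective]
  have hRK : R ≤ K₀ := by
    rw [hR]
    exact Subgroup.map_subtype_le _
  have hRp : IsPGroup r R := by
    rw [hR]
    exact P.isPGroup'.map K₀.subtype
  refine ⟨r, R.map (MulAut.conj c⁻¹).toMonoidHom, hr, hRp.map _, ?_, ?_, ?_⟩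
  · rintro _ ⟨x, hx, rfl⟩
    simp only [MulEquiv.coe_toMonoidHom, MulAut.conj_apply]
    exact hK₀n.conj_mem x (hRK hx) c⁻¹
  · rintro h hh _ ⟨x, hx, rfl⟩
    have h1 : c * h * c⁻¹ ∈ M := hJM (by
      rw [hJeq]
      exact ⟨h, hh, by simp⟩)
    rw [hM] at h1
    have h2 : (c * h * c⁻¹) * x * (c * h * c⁻¹)⁻¹ ∈ R :=
      (Subgroup.mem_normalizer_iff.mp h1 x).mp hx
    refine ⟨(c * h * c⁻¹) * x * (c * h * c⁻¹)⁻¹, h2, ?_⟩
    simp only [MulEquiv.coe_toMonoidHom, MulAut.conj_apply]
    group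
  · intro hR'N
    have hR'card : Nat.card (R.map (MulAut.conj c⁻¹).toMonoidHom) = Nat.card P := by
      rw [Subgroup.card_map_of_injective (MulAut.conj c⁻¹).injective, hRcard]
    have h1 : Nat.card P * (P : Subgroup K₀).index = Nat.card K₀ := Subgroup.card_mul_index _
    have h2 : ¬ r ∣ (P : Subgroup K₀).index := P.not_dvd_index
    have h3 : Nat.card (R.map (MulAut.conj c⁻¹).toMonoidHom) *
        (R.map (MulAut.conj c⁻¹).toMonoidHom).index = Nat.card G := Subgroup.card_mul_index _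
    have h4 : Nat.card K₀ * Nat.card H = Nat.card G := hK₀c.card_mul_card
    have h5 : (R.map (MulAut.conj c⁻¹).toMonoidHom).index =
        (P : Subgroup K₀).index * Nat.card H := by
      have : Nat.card P * (R.map (MulAut.conj c⁻¹).toMonoidHom).index =
          Nat.card P * ((P : Subgroup K₀).index * Nat.card H) := by
        rw [← hR'card, h3, ← mul_assoc, hR'card, h1, h4]
      exact Nat.eq_of_mul_eq_mul_left Nat.card_pos this
    have h6 : r ∣ (R.map (MulAut.conj c⁻¹).toMonoidHom).index :=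
      hrN.trans (Subgroup.index_dvd_of_le hR'N)
    rw [h5] at h6
    rcases hr.dvd_mul.mp h6 with h | h
    · exact h2 h
    · exact hrH h

/-- A non-normal TI-subgroup `H`, Hall in its normalizer, with a normal complement in `G`,
is isomorphic to a Frobenius complement. -/
theorem tiHall_frobenius_complement (hTI : Cfsg.IsTISubset (H : Set G))
    (hHall : (Nat.card H).Coprime (H.subgroupOf (Subgroup.normalizer (H : Set G))).index)
    (hHn : ¬ H.Normal) (K₀ : Subgroup G) (hK₀n : K₀.Normal) (hK₀c : K₀.IsComplement' H) :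
    ∃ (F : Type u) (_ : Group F) (_ : Finite F) (C : Subgroup F),
      Cfsg.IsFrobeniusComplement C ∧ Nonempty (H ≃* C) := by
  classical
  obtain ⟨r, R, hr, hRp, hRK, hHR, hRN⟩ :=
    tiHall_exists_invariant_pSubgroup H hTI hHall hHn K₀ hK₀n hK₀c
  have := Fact.mk hr
  obtain ⟨N, hN⟩ : ∃ N : Subgroup G, N = Subgroup.normalizer (H : Set G) := ⟨_, rfl⟩
  rw [← hN] at hRN
  have hHN : H ≤ N := by rw [hN]; exact Subgroup.le_normalizer
  have hnil : Group.IsNilpotent R := hRp.isNilpotent
  have hnc := Group.normalizerCondition_of_isNilpotent (G := R)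
  have hlt : N.subgroupOf R < ⊤ := by
    rw [lt_top_iff_ne_top]
    intro h
    exact hRN (Subgroup.subgroupOf_eq_top.mp h)
  have hlt2 := hnc _ hlt
  obtain ⟨y, hy1, hy2⟩ := SetLike.exists_of_lt hlt2
  have hyN : (y : G) ∉ N := hy2
  have hyD : (y : G) ∈ Subgroup.normalizer ((R ⊓ N : Subgroup G) : Set G) := by
    rw [Subgroup.mem_normalizer_iff]
    intro g
    constructor
    · rintro ⟨hgR, hgN⟩
      refine ⟨R.mul_mem (R.mul_mem y.2 hgR) (R.inv_mem y.2), ?_⟩
      exact (Subgroup.mem_normalizer_iff.mp hy1 ⟨g, hgR⟩).mp hgN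
    · rintro ⟨hgR, hgN⟩
      have hgR' : g ∈ R := by
        have e : g = (y : G)⁻¹ * ((y : G) * g * (y : G)⁻¹) * (y : G) := by group
        rw [e]
        exact R.mul_mem (R.mul_mem (R.inv_mem y.2) hgR) y.2
      exact ⟨hgR', (Subgroup.mem_normalizer_iff.mp hy1 ⟨g, hgR'⟩).mpr hgN⟩
  let RH : Subgroup G :=
    { carrier := {g | ∃ x ∈ R, ∃ h ∈ H, g = x * h}
      one_mem' := ⟨1, R.one_mem, 1, H.one_mem, by simp⟩
      mul_mem' := by
        rintro _ _ ⟨x₁, hx₁, h₁, hh₁, rfl⟩ ⟨x₂, hx₂, h₂, hh₂, rfl⟩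
        exact ⟨x₁ * (h₁ * x₂ * h₁⁻¹), R.mul_mem hx₁ (hHR h₁ hh₁ x₂ hx₂), h₁ * h₂,
          H.mul_mem hh₁ hh₂, by group⟩
      inv_mem' := by
        rintro _ ⟨x, hx, h, hh, rfl⟩
        exact ⟨h⁻¹ * x⁻¹ * h⁻¹⁻¹, hHR h⁻¹ (H.inv_mem hh) x⁻¹ (R.inv_mem hx), h⁻¹,
          H.inv_mem hh, by group⟩ }
  have hHD : H ≤ Subgroup.normalizer ((R ⊓ N : Subgroup G) : Set G) := by
    intro h hh
    rw [Subgroup.mem_normalizer_iff]
    intro g
    have hhN : h ∈ N := hHN hh
    constructor
    · rintro ⟨hgR, hgN⟩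
      exact ⟨hHR h hh g hgR, N.mul_mem (N.mul_mem hhN hgN) (N.inv_mem hhN)⟩
    · rintro ⟨hgR, hgN⟩
      have e : g = h⁻¹ * (h * g * h⁻¹) * h⁻¹⁻¹ := by group
      rw [e]
      exact ⟨hHR h⁻¹ (H.inv_mem hh) _ hgR,
        N.mul_mem (N.mul_mem (N.inv_mem hhN) hgN) (N.inv_mem (N.inv_mem hhN))⟩
  apply tiHall_frobenius_section H hTI hHall K₀ hK₀c
    (RH ⊓ Subgroup.normalizer ((R ⊓ N : Subgroup G) : Set G)) (R ⊓ N)
  · intro h hh
    exact ⟨⟨1, R.one_mem, h, hh, by simp⟩, hHD hh⟩
  · intro d hd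
    exact ⟨⟨d, hd.1, 1, H.one_mem, by simp⟩, Subgroup.le_normalizer hd⟩
  · exact inf_le_right
  · exact fun d hd => hRK hd.1
  · intro d hd
    rw [← hN]
    exact hd.2
  · rintro t ⟨⟨x, hx, h, hh, rfl⟩, -⟩ htK htN
    have hhK : h ∈ K₀ := by
      have e : h = x⁻¹ * (x * h) := by group
      rw [e]
      exact K₀.mul_mem (K₀.inv_mem (hRK hx)) htK
    have h1 : h = 1 := Subgroup.disjoint_def.mp hK₀c.disjoint hhK hh
    subst h1
    rw [mul_one] at htN ⊢
    rw [← hN] at htN
    exact ⟨hx, htN⟩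
  · intro hTN
    apply hyN
    rw [hN]
    exact hTN ⟨⟨y, y.2, 1, H.one_mem, by simp⟩, hyD⟩

end tihall

end Cfsg.Agent.Lib.Helper69
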